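/-
Standard subgroups of type `²F₄(q)`: data.
-/
import Cfsg.Agent.Rd.B3
import Cfsg.Agent.Pa.F
set_option autoImplicit false
set_option linter.unusedSectionVars false

namespace CF.Of
open Subgroup Cfsg CF.BG CF.Sig CF.Ab2 CF.Rd

local notation "σ" => Pa.Ti.σ

/-- the weights of the torus on the pieces -/
def wt {K : Type*} [Field K] [Pa.Ti K] (a b : K) (k : ℕ) : K :=
  [b, b * σ b, a * b ^ 2 * σ b, a * b * σ b, a * σ a * b ^ 3 * σ b ^ 2, a * σ a * b ^ 2 * σ b ^ 2, σ a * b * σ b,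
    a ^ 2 * σ a * b ^ 3 * σ b ^ 2, a * σ a * b ^ 2 * σ b, a * b, a * σ a * b * σ b, a].getD k 1

/-- `h` acts on the pieces with the weights given by `a` (on `X 11`) and `b` (on `X 0`) -/
def Tw {K : Type*} [Field K] [Pa.Ti K] {G : Type*} [Group G] (X : ℕ → K → G) (h : G) (a b : K) : Prop :=
  a ≠ 0 ∧ b ≠ 0 ∧ ∀ k < 12, ∀ c, h * X k c * h⁻¹ = X k (wt a b k * c)

/-- A subgroup `L ≅ ²F₄(K)` in coordinates: the frame, the two reflections and the torus `H`. -/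
structure Oc (K : Type*) [Field K] [Pa.Ti K] (G : Type*) [Group G] extends Pa.Pc K G where
  /-- the subgroup -/
  L : Subgroup G
  /-- the torus -/
  H : Subgroup G
  /-- the second reflection -/
  m : G
  big : 4 < Nat.card K
  m2 : m * m = 1
  mX : ∀ c, m * X 0 c * m = X 9 c ∧ m * X 1 c * m = X 10 c ∧ m * X 2 c * m = X 8 c ∧ m * X 3 c * m = X 6 c ∧
    m * X 4 c * m = X 7 c ∧ m * X 5 c * m = X 5 c
  nY : ∀ c, n * X 2 c * n = X 11 c ∧ n * X 3 c * n = X 9 c ∧ n * X 4 c * n = X 10 c ∧ n * X 5 c * n = X 8 c ∧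
    n * X 6 c * n = X 6 c
  m3 : X 11 1 * (m * X 11 1 * m) * X 11 1 = m
  r8 : (n * m) ^ 8 = 1
  gen : L = Pa.U X Pa.R ⊔ zpowers n ⊔ zpowers m
  sy : Syl 2 (Pa.U X Pa.R) L
  HL : H ≤ L
  Hn : n ∈ 𝐍 H
  Hm : m ∈ 𝐍 H
  Hx : ∀ h ∈ H, ∃ a b, Tw X h a b
  Hs : ∀ a b : K, a ≠ 0 → b ≠ 0 → ∃ h ∈ H, Tw X h a b
  Hi : ∀ h ∈ H, Tw X h 1 1 → h = 1
  br : ∀ g ∈ L, g * X 7 1 = X 7 1 * g → ∃ s ∈ Pa.U X Pa.R, ∃ h ∈ H, g = s * h ∨ ∃ u ∈ Pa.U X [0, 1], g = s * h * n * u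
  aZ : 𝐍 L ⊓ 𝐂 (Pa.U X [7]) ≤ 𝐂 L ⊔ L

end CF.Of
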