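import Cfsg.Agent.Rd.B1
import Cfsg.Agent.Transfer.Tate
import Cfsg.Prelude.Def_Quasithin

/-! The doubled group has odd index. -/

set_option autoImplicit false
set_option linter.unusedSectionVars false

namespace CF.Of
open Subgroup Cfsg CF.BG CF.Sig CF.Ab2 CF.Rd
open scoped commutatorElement

variable {G : Type*} [Group G] [Finite G] {L A D P T : Subgroup G} {a b g t x y : G}

/-- the `2`-elements of the centraliser of `t` -/
structure Ht (L : Subgroup G) (t : G) : Prop where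
  tt : t * t = 1
  tC : t ∈ 𝐂 L
  tL : t ∉ L
  two : ∀ y, E2 y → y * t = t * y → y ∈ L ∨ y * t ∈ L

/-- a commutator of `2`-elements of its centraliser -/
def Cmt (y : G) : Prop := ∃ a b, E2 a ∧ E2 b ∧ a * y = y * a ∧ b * y = y * b ∧ ⁅a, b⁆ = y

theorem Cmt.cj (h : Cmt y) (g : G) : Cmt (g * y * g⁻¹) :=
  let ⟨a, b, ea, eb, ca, cb, e⟩ := h
  ⟨g * a * g⁻¹, g * b * g⁻¹, ea.conj g, eb.conj g, by rw [conj_mul, conj_mul, ca], by rw [conj_mul, conj_mul, cb],
    by rw [← cj_comm', e]⟩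

theorem Cmt.map {H : Type*} [Group H] [Finite H] (h : Cmt y) (f : G →* H) : Cmt (f y) :=
  let ⟨a, b, ea, eb, ca, cb, e⟩ := h
  ⟨f a, f b, ea.map f, eb.map f, by rw [← map_mul, ca, map_mul], by rw [← map_mul, cb, map_mul],
    by rw [← map_commutatorElement, e]⟩

theorem cm_one : Cmt (1 : G) := ⟨1, 1, piElt_one _, piElt_one _, rfl, rfl, by simp⟩

theorem Ht.ncm (f : Ht L t) : ¬ Cmt t := fun ⟨a, b, ea, eb, ca, cb, e⟩ => f.tL (by
  have k : ∀ a, E2 a → a * t = t * a → ∃ l ∈ L, ∃ c, Commute c t ∧ c ∈ 𝐂 L ∧ (∀ x, Commute x t → Commute x c) ∧ a = l * c :=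
    fun a ea ca => (f.two a ea ca).elim (fun m => ⟨a, m, 1, Commute.one_left t, one_mem _, fun x _ => Commute.one_right x, by simp⟩)
      fun m => ⟨_, m, t, rfl, f.tC, fun _ h => h, by rw [mul_assoc, f.tt, mul_one]⟩
  obtain ⟨l, m, c, ct, cL, cc, rfl⟩ := k a ea ca
  obtain ⟨l', m', c', ct', cL', -, rfl⟩ := k b eb cb
  have : ⁅l * c, l' * c'⁆ = ⁅l, l'⁆ := by
    have h1 := mem_cent.1 cL l' m'
    have h2 := mem_cent.1 cL' l m
    have h3 := (cc c' ct').eq
    rw [cml, cmr, cmr, commutatorElement_eq_one_iff_mul_comm.2 h1.symm, commutatorElement_eq_one_iff_mul_comm.2 h3.symm,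
      commutatorElement_eq_one_iff_mul_comm.2 h2]
    simp
  rw [← e, this]
  exact mul_mem (mul_mem (mul_mem m m') (inv_mem m)) (inv_mem m'))

theorem odd_nm : (oddGenerated (⊤ : Subgroup G)).Normal := ⟨fun n m g => conj_mem_of_norm (mem_norm_of_cj_le (cj_le_iff.2
  ((closure_le _).2 fun x h => mem_cj_inv.2 (subset_closure ⟨trivial, by rw [orderOf_conj']; exact h.2⟩)))) m⟩

theorem le_odd (pf : A ≤ ⁅A, A⁆) : A ≤ oddGenerated (⊤ : Subgroup G) := by
  have := odd_nm (G := G)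
  have p : P2 (A.map (QuotientGroup.mk' (oddGenerated (⊤ : Subgroup G)))) := piGrp_of_forall_elt (by
    rintro _ ⟨x, -, rfl⟩
    obtain ⟨u, v, -, -, eu, ev, rfl⟩ := exists_piPart {2} x
    rw [map_mul, show QuotientGroup.mk' (oddGenerated ⊤) v = 1 from
      (QuotientGroup.eq_one_iff v).2 (Subgroup.subset_closure ⟨trivial, eo_iff.2 ev⟩), mul_one]
    exact eu.map _)
  have := p.sol.eq_bot_of_le_der (by rw [← map_commutator]; exact map_mono pf)
  rwa [Subgroup.map_eq_bot_iff, QuotientGroup.ker_mk'] at this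

theorem Ht.fin (f : Ht L t) (sP : Syl 2 P A) (sD : Syl 2 D L) (le : D ≤ P) (n : t ∈ 𝐍 P) (pf : A ≤ ⁅A, A⁆)
    (nc : ∀ y ∈ P, y * y = 1 → Cmt y) (h90 : ∀ u ∈ P, u * t * (u * t) = 1 → ∃ v ∈ P, u * t = v * t * v⁻¹) :
    A ≤ oddGenerated (⊤ : Subgroup G) ∧ Odd (A.relIndex (oddGenerated (⊤ : Subgroup G))) := by
  have ti := inv_sq f.tt
  have nP : ∀ g, g * t * g⁻¹ ∉ P := fun g m => f.ncm (by
    simpa [mul_assoc] using (nc _ m (by rw [conj_mul, f.tt]; simp)).cj g⁻¹)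
  have tP : t ∉ P := by simpa using nP 1
  have mT : ∀ x ∈ P ⊔ zpowers t, x ∈ P ∨ x * t ∈ P := fun x m => by
    simpa only [ti] using (CF.Invol.mem_sup_zpowers_iff n (f.tt ▸ one_mem _)).1 m
  have tT : t ∈ P ⊔ zpowers t := mem_sup_right (mem_zpowers t)
  have pT : P2 (P ⊔ zpowers t) := sP.pi.sup (e2_of_sq f.tt).zpowers (.inr (zpowers_le.2 n))
  have sT : Syl 2 (P ⊔ zpowers t) ⊤ := by
    refine syl_of_syl_norm le_top (syl_of_max (le_inf le_top (le_norm_self _)) pT fun Q l p k => le_antisymm (fun g m => ?_) k)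
    have e := conj_mem_of_norm (l m).2 tT
    obtain ⟨v, hv, e⟩ := h90 _ ((mT _ e).resolve_left (nP g)) (by rw [mul_assoc _ t t, f.tt, mul_one, conj_mul, f.tt]; simp)
    rw [mul_assoc _ t t, f.tt, mul_one] at e
    have vQ := k (mem_sup_left hv)
    have q : Q ⊓ L = D := (sD.eq_of_le (le_inf (le.trans (le_sup_left.trans k)) sD.le) inf_le_right p.inf_left).symm
    have j := mul_mem (inv_mem vQ) m
    rw [← mul_inv_cancel_left v g]
    refine mul_mem (mem_sup_left hv) ?_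
    rcases f.two _ (p.elt j) (of_fix (by rw [mul_inv_rev, mul_assoc v⁻¹, ← mul_assoc, mul_assoc v⁻¹, e]; group)) with i | i
    · exact mem_sup_left (le (q.le ⟨j, i⟩))
    · simpa [mul_assoc, f.tt] using mul_mem (mem_sup_left (le (q.le ⟨mul_mem j (k tT), i⟩))) tT
  have ix := CF.Invol.relIndex_sup_zpowers n (f.tt ▸ one_mem _) tP
  obtain ⟨N, nN, i2, tN⟩ := Transfer.thompson_transfer (by rw [← relIndex_top_right]; exact sT.not_dvd p2) ix tT
    (orderOf_eq_prime (by rw [sq, f.tt]) fun e => tP (e ▸ one_mem _)) nP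
  have AO := le_odd pf
  have ON : oddGenerated (⊤ : Subgroup G) ≤ N := (closure_le _).2 fun x h => eo_sq (eo_iff.1 h.2) (mul_self_mem_of_index_two i2 x)
  have s := sT.inf_normal (N := oddGenerated (⊤ : Subgroup G)) (normalIn_top.2 odd_nm)
  refine ⟨AO, Nat.not_even_iff_odd.1 fun e => (s.idx_of_le (K := A) fun x m => sP.le ((mT x m.1).resolve_right fun j => tN ?_)).not_dvd
    p2 (by simp) e.two_dvd⟩
  simpa using mul_mem (inv_mem (ON m.2)) (ON (AO (sP.le j)))

end CF.Of
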