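/-
Standard subgroups of type `²F₄(q)`: the field, the torus, normal subgroups of the frame.
-/
import Cfsg.Agent.Of.A
import Cfsg.Agent.Rd.B
set_option autoImplicit false
set_option linter.unusedSectionVars false
set_option synthInstance.maxSize 100000
set_option synthInstance.maxHeartbeats 200000

namespace CF.Of
open Subgroup Cfsg CF.BG CF.Sig CF.Ab2 CF.Rd
open scoped commutatorElement

local notation "σ" => Pa.Ti.σ

section
variable {K : Type*} [Field K] [Pa.Ti K] {a b c d : K} {f : K → K}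

theorem σσ (c : K) : σ (σ c) = c ^ 2 := Pa.Ti.sq c
theorem aa (c : K) : c + c = 0 := Pa.aa c
theorem two0 : (2 : K) = 0 := by rw [← one_add_one_eq_two, aa]
theorem eq_of_add (h : a + b = 0) : a = b := by linear_combination h - aa b
theorem σne (h : c ≠ 0) : σ c ≠ 0 := (map_ne_zero σ).2 h
theorem σinj (h : σ c = σ d) : c = d := (σ : K →+* K).injective h
theorem nne (h : c ≠ 0) : c * σ c ≠ 0 := mul_ne_zero h (σne h)

theorem σfix (h : σ c = c) : c = 0 ∨ c = 1 := by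
  have := σσ c
  rw [h, h] at this
  exact (em (c = 0)).imp_right fun n => mul_left_cancel₀ n (by linear_combination -this)

theorem n_one (h : c * σ c = 1) : c = 1 := by
  have := congrArg σ h
  rw [map_mul, σσ, map_one] at this
  linear_combination this - c * h

theorem n_inj (h : c * σ c = d * σ d) : c = d := by
  by_cases n : d = 0
  · subst n; simpa using h
  · exact (div_eq_one_iff_eq n).1 (n_one (by rw [map_div₀, div_mul_div_comm, h, div_self (nne n)]))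

theorem n_sur [Finite K] (c : K) : ∃ d, d * σ d = c :=
  Finite.surjective_of_injective (f := fun d : K => d * σ d) (fun _ _ => n_inj) c

theorem n_sur' [Finite K] (h : c ≠ 0) : ∃ d, d ≠ 0 ∧ d * σ d = c :=
  let ⟨d, e⟩ := n_sur c; ⟨d, by rintro rfl; exact h (by simpa using e.symm), e⟩

theorem σ_sur [Finite K] (c : K) : ∃ d, σ d = c := Finite.surjective_of_injective (f := fun d : K => σ d) (fun _ _ => σinj) c

theorem pw_one {k : ℕ} (h : c ^ 2 ^ k = 1) : c = 1 := by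
  have := Pa.Ti.ch (K := K)
  have : (c - 1) ^ 2 ^ k = 0 := by rw [sub_pow_char_pow, h, one_pow, sub_self]
  exact sub_eq_zero.1 (pow_eq_zero_iff (by positivity) |>.1 this)

theorem ex_not (big : 4 < Nat.card K) (a b c d : K) : ∃ e : K, e ≠ a ∧ e ≠ b ∧ e ≠ c ∧ e ≠ d := by
  classical
  have := Nat.finite_of_card_ne_zero (show Nat.card K ≠ 0 by omega)
  have := Fintype.ofFinite K
  obtain ⟨e, -, h⟩ := Finset.exists_mem_notMem_of_card_lt_card (s := {a, b, c, d}) (t := Finset.univ)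
    (Finset.card_le_four.trans_lt (by rwa [Finset.card_univ, ← Nat.card_eq_fintype_card]))
  exact ⟨e, by simpa [not_or] using h⟩

theorem ex3 (big : 4 < Nat.card K) : ∃ e : K, e ≠ 0 ∧ e ≠ 1 ∧ e + 1 ≠ 0 ∧ σ e + e ≠ 0 :=
  let ⟨e, h0, h1, _⟩ := ex_not big (0 : K) 1 0 0
  ⟨e, h0, h1, fun h => h1 (eq_of_add h), fun h => (σfix (eq_of_add h)).elim h0 h1⟩

theorem add0 (ad : ∀ a b, f (a + b) = f a + f b) : f 0 = 0 := by simpa using ad 0 0

theorem av0 (big : 4 < Nat.card K) (ad : ∀ a b, f (a + b) = f a + f b) (h : ∀ c, c ≠ 0 → f c = f 1) (c : K) : f c = 0 := by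
  obtain ⟨e, h0, -, h1, -⟩ := ex3 big
  have := ad e 1
  rw [h e h0, h _ h1, aa] at this
  exact (em (c = 0)).elim (fun n => n ▸ add0 ad) fun n => (h c n).trans this

theorem av1 (big : 4 < Nat.card K) (ad : ∀ a b, f (a + b) = f a + f b) (h : ∀ c, c ≠ 0 → f c = c * σ c * f 1) (c : K) :
    f c = 0 := by
  obtain ⟨e, h0, -, h1, h2⟩ := ex3 big
  have := ad e 1
  rw [h e h0, h _ h1, map_add, map_one] at this
  have : f 1 = 0 := (mul_eq_zero.1 (by linear_combination this : (σ e + e) * f 1 = 0)).resolve_left h2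
  exact (em (c = 0)).elim (fun n => n ▸ add0 ad) fun n => by rw [h c n, this, mul_zero]

theorem wt_ne (ha : a ≠ 0) (hb : b ≠ 0) (k : ℕ) : wt a b k ≠ 0 := by
  have := σne ha
  have := σne hb
  rcases k with _ | _ | _ | _ | _ | _ | _ | _ | _ | _ | _ | _ | k <;> simp [wt, *]

theorem wt_mul (a b c d : K) (k : ℕ) : wt (a * c) (b * d) k = wt a b k * wt c d k := by
  rcases k with _ | _ | _ | _ | _ | _ | _ | _ | _ | _ | _ | _ | k <;> simp [wt] <;> ring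

theorem wt_one (k : ℕ) : wt (1 : K) 1 k = 1 := by
  rcases k with _ | _ | _ | _ | _ | _ | _ | _ | _ | _ | _ | _ | k <;> simp [wt]

end

variable {K : Type*} [Field K] [Pa.Ti K] [Finite K] {G : Type*} [Group G] [Finite G] {g h h' s u : G} {a b c d μ : K}
  {J : List ℕ} {X : ℕ → K → G}

theorem nU (H : ∀ k ∈ J, ∀ c, g * X k c * g⁻¹ ∈ Pa.U X J) : g ∈ 𝐍 (Pa.U X J) :=
  mem_norm_of_cj_le (cj_le_iff.2 (Pa.U_le fun k m c => mem_cj_inv.2 (H k m c)))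

theorem cU (H : ∀ k ∈ J, ∀ c, g * X k c = X k c * g) : g ∈ 𝐂 (Pa.U X J) :=
  le_cent1_iff.1 (Pa.U_le fun k m c => mem_cent1.2 (H k m c).symm)

theorem Tw.mul (p : Tw X h a b) (q : Tw X h' c d) : Tw X (h * h') (a * c) (b * d) :=
  ⟨mul_ne_zero p.1 q.1, mul_ne_zero p.2.1 q.2.1, fun k l e => by
    rw [mul_inv_rev, mul_assoc h, ← mul_assoc, mul_assoc h, q.2.2 k l, p.2.2 k l, wt_mul, mul_assoc]⟩

theorem Tw.inv (p : Tw X h a b) : Tw X h⁻¹ a⁻¹ b⁻¹ :=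
  ⟨inv_ne_zero p.1, inv_ne_zero p.2.1, fun k l e => by
    have := p.2.2 k l (wt a⁻¹ b⁻¹ k * e)
    rw [← mul_assoc, ← wt_mul, mul_inv_cancel₀ p.1, mul_inv_cancel₀ p.2.1, wt_one, one_mul] at this
    rw [← this]; group⟩

theorem Tw.nU (p : Tw X h a b) (l : ∀ k ∈ J, k < 12) : h ∈ 𝐍 (Pa.U X J) :=
  Of.nU fun k m c => p.2.2 k (l k m) c ▸ Pa.x_mem m _

/-- the torus centralising `X 7` -/
def Tz (X : ℕ → K → G) (h : G) (μ : K) : Prop := Tw X h (μ * σ μ)⁻¹ (σ μ)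

theorem Tz.ne (p : Tz X h μ) : μ ≠ 0 := fun e => p.2.1 (by simp [e])

theorem Tz.act (p : Tz X h μ) (c : K) : h * X 0 c * h⁻¹ = X 0 (σ μ * c) ∧ h * X 1 c * h⁻¹ = X 1 (σ μ * μ ^ 2 * c) ∧
    h * X 2 c * h⁻¹ = X 2 (μ * σ μ * c) ∧ h * X 3 c * h⁻¹ = X 3 (μ * c) ∧ h * X 4 c * h⁻¹ = X 4 (μ * σ μ * c) ∧
    h * X 5 c * h⁻¹ = X 5 (μ * c) ∧ h * X 6 c * h⁻¹ = X 6 c ∧ h * X 7 c * h⁻¹ = X 7 c ∧ h * X 8 c * h⁻¹ = X 8 (μ⁻¹ * c) ∧
    h * X 9 c * h⁻¹ = X 9 (μ⁻¹ * c) ∧ h * X 10 c * h⁻¹ = X 10 ((μ * σ μ)⁻¹ * c) ∧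
    h * X 11 c * h⁻¹ = X 11 ((μ * σ μ)⁻¹ * c) := by
  have := p.ne
  have := σne p.ne
  refine ⟨?_, ?_, ?_, ?_, ?_, ?_, ?_, ?_, ?_, ?_, ?_, ?_⟩ <;> rw [p.2.2 _ (by decide)] <;> congr 1 <;>
    simp only [wt, List.getD_cons_succ, List.getD_cons_zero, map_mul, map_inv₀, map_pow, σσ] <;> field_simp

theorem Tw.tz (p : Tw X h a b) (e : wt a b 7 = 1) : ∃ μ, Tz X h μ := by
  obtain ⟨μ, rfl⟩ := σ_sur b
  have n : μ ≠ 0 := fun e => p.2.1 (by simp [e])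
  have : σ a * σ μ * μ ^ 2 = 1 := n_one (by simp [wt, σσ] at e ⊢; linear_combination e)
  have : a = (μ * σ μ)⁻¹ := eq_inv_of_mul_eq_one_left (σinj (by simp [σσ]; linear_combination this))
  exact ⟨μ, by rwa [this] at p⟩

/-- the torus centralising `X 5` -/
def Tb (X : ℕ → K → G) (h : G) (μ : K) : Prop := Tw X h (μ ^ 2) μ⁻¹

theorem Tb.ne (p : Tb X h μ) : μ ≠ 0 := fun e => p.2.1 (by simp [e])

theorem Tb.act (p : Tb X h μ) (c : K) : h * X 0 c * h⁻¹ = X 0 (μ⁻¹ * c) ∧ h * X 1 c * h⁻¹ = X 1 ((μ * σ μ)⁻¹ * c) ∧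
    h * X 2 c * h⁻¹ = X 2 ((σ μ)⁻¹ * c) ∧ h * X 3 c * h⁻¹ = X 3 (μ / σ μ * c) ∧ h * X 4 c * h⁻¹ = X 4 (μ⁻¹ * c) ∧
    h * X 5 c * h⁻¹ = X 5 c ∧ h * X 6 c * h⁻¹ = X 6 (σ μ / μ * c) ∧ h * X 7 c * h⁻¹ = X 7 (μ * c) ∧
    h * X 8 c * h⁻¹ = X 8 (σ μ * c) ∧ h * X 9 c * h⁻¹ = X 9 (μ * c) ∧ h * X 10 c * h⁻¹ = X 10 (μ * σ μ * c) ∧
    h * X 11 c * h⁻¹ = X 11 (μ ^ 2 * c) := by
  have := p.ne
  have := σne p.ne
  refine ⟨?_, ?_, ?_, ?_, ?_, ?_, ?_, ?_, ?_, ?_, ?_, ?_⟩ <;> rw [p.2.2 _ (by decide)] <;> congr 1 <;>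
    simp only [wt, List.getD_cons_succ, List.getD_cons_zero, map_mul, map_inv₀, map_pow, σσ] <;> field_simp

end CF.Of
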