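/-
Standard subgroups of type `²F₄(q)`: centralisers in `L`.
-/
import Cfsg.Agent.Of.M0
set_option autoImplicit false
set_option linter.unusedSectionVars false
set_option synthInstance.maxSize 100000
set_option synthInstance.maxHeartbeats 200000

namespace CF.Of
open Subgroup Cfsg CF.BG CF.Sig CF.Ab2 CF.Rd
open scoped commutatorElement

local notation "σ" => Pa.Ti.σ

variable {K : Type*} [Field K] [Pa.Ti K] [Finite K] {G : Type*} [Group G] [Finite G] {g h h' s u x y : G} {a b c d μ ν : K}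
  {I J : List ℕ} {N R V : Subgroup G} {k : ℕ}

/-- elements commuting with `y` modulo `N` -/
def Cm (N : Subgroup G) (y : G) : Subgroup G where
  carrier := {x | x ∈ 𝐍 N ∧ ⁅x, y⁆ ∈ N}
  one_mem' := ⟨one_mem _, by simp⟩
  mul_mem' := fun a b => ⟨mul_mem a.1 b.1, by rw [cml]; exact mul_mem (conj_mem_of_norm a.1 b.2) a.2⟩
  inv_mem' := fun {x} a => ⟨inv_mem a.1, by
    rw [show ⁅x⁻¹, y⁆ = x⁻¹ * ⁅x, y⁆⁻¹ * x⁻¹⁻¹ by simp only [commutatorElement_def]; group]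
    exact conj_mem_of_norm (inv_mem a.1) (inv_mem a.2)⟩

theorem cmU {X : ℕ → K → G} (p : Pa.U X I ≤ 𝐍 N) (q : Pa.U X J ≤ 𝐍 N) (H : ∀ i ∈ I, ∀ k ∈ J, ∀ c d, ⁅X i c, X k d⁆ ∈ N)
    (m : x ∈ Pa.U X I) (n : y ∈ Pa.U X J) : ⁅x, y⁆ ∈ N :=
  cm_symm ((Pa.U_le (A := Cm N x) fun k l d => ⟨q (Pa.x_mem l d), cm_symm
    ((Pa.U_le (A := Cm N (X k d)) fun i e c => ⟨p (Pa.x_mem e c), H i e k l c d⟩) m).2⟩) n).2

namespace Oc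
variable (F : Oc K G)

/-- a subgroup -/
abbrev Φ : Subgroup G := F.U [4, 5, 6, 7, 8, 10]
/-- a subgroup -/
abbrev QI : Subgroup G := F.U [1, 2, 3, 4, 5, 6, 7, 8, 10]
/-- the centraliser of the central involution -/
abbrev B : Subgroup G := F.L ⊓ 𝐂₁ (F.X 7 1)
/-- the torus of `B` -/
abbrev Hz : Subgroup G := F.H ⊓ 𝐂₁ (F.X 7 1)

theorem nrm (I J : List ℕ) (hc : ∀ i ∈ I, ∀ k ∈ J, ∀ a ∈ Pa.tb.nf (.mul (.mul (.x i [[2 * 0]]) (.x k [[2 * (0 + 1)]]))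
    (.inv (.x i [[2 * 0]]))), a.1 ∈ J := by decide +kernel) : F.U I ≤ 𝐍 (F.U J) :=
  Pa.U_le fun i l c => nU fun k m d => F.snd.mem [c, d] (hc i l k m)

theorem cen (I J : List ℕ) (hc : ∀ i ∈ I, ∀ k ∈ J, Pa.tb.nf (.mul (.x i [[2 * 0]]) (.x k [[2 * (0 + 1)]])) =
    Pa.tb.nf (.mul (.x k [[2 * (0 + 1)]]) (.x i [[2 * 0]])) := by decide +kernel) : F.U I ≤ 𝐂 (F.U J) :=
  Pa.U_le fun i l c => cU fun k m d => F.snd.eq [c, d] (hc i l k m)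

theorem cmm (I J N : List ℕ) (m : x ∈ F.U I) (n : y ∈ F.U J) (hc : (∀ i ∈ I, i ∈ Pa.R) ∧ (∀ i ∈ J, i ∈ Pa.R) ∧
    (∀ i ∈ Pa.R, ∀ k ∈ N, ∀ a ∈ Pa.tb.nf (.mul (.mul (.x i [[2 * 0]]) (.x k [[2 * (0 + 1)]])) (.inv (.x i [[2 * 0]]))), a.1 ∈ N) ∧
    ∀ i ∈ I, ∀ k ∈ J, ∀ a ∈ Pa.tb.nf (.mul (.mul (.mul (.x i [[2 * 0]]) (.x k [[2 * (0 + 1)]]))
    (.inv (.x i [[2 * 0]]))) (.inv (.x k [[2 * (0 + 1)]]))), a.1 ∈ N := by decide +kernel) : ⁅x, y⁆ ∈ F.U N :=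
  cmU ((Pa.U_mono hc.1).trans (F.nrm _ _ hc.2.2.1)) ((Pa.U_mono hc.2.1).trans (F.nrm _ _ hc.2.2.1))
    (fun i l k m c d => F.snd.mem [c, d] (hc.2.2.2 i l k m)) m n

theorem ni : F.n⁻¹ = F.n := inv_sq F.n2
theorem mi : F.m⁻¹ = F.m := inv_sq F.m2

theorem nx (c : K) : F.n * F.X 2 c * F.n⁻¹ = F.X 11 c ∧ F.n * F.X 3 c * F.n⁻¹ = F.X 9 c ∧ F.n * F.X 4 c * F.n⁻¹ = F.X 10 c ∧
    F.n * F.X 5 c * F.n⁻¹ = F.X 8 c ∧ F.n * F.X 6 c * F.n⁻¹ = F.X 6 c ∧ F.n * F.X 7 c * F.n⁻¹ = F.X 7 c ∧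
    F.n * F.X 8 c * F.n⁻¹ = F.X 5 c ∧ F.n * F.X 9 c * F.n⁻¹ = F.X 3 c ∧ F.n * F.X 10 c * F.n⁻¹ = F.X 4 c ∧
    F.n * F.X 11 c * F.n⁻¹ = F.X 2 c := by
  obtain ⟨h1, h2, h3, h4, h5⟩ := F.nY c
  have : ∀ x, F.n * (F.n * x * F.n) * F.n = x := fun x => by simp [← mul_assoc, F.n2, mul_assoc x]
  rw [F.ni]
  exact ⟨h1, h2, h3, h4, h5, F.nZ c, h4 ▸ this _, h2 ▸ this _, h3 ▸ this _, h1 ▸ this _⟩

theorem mx (c : K) : F.m * F.X 0 c * F.m⁻¹ = F.X 9 c ∧ F.m * F.X 1 c * F.m⁻¹ = F.X 10 c ∧ F.m * F.X 2 c * F.m⁻¹ = F.X 8 c ∧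
    F.m * F.X 3 c * F.m⁻¹ = F.X 6 c ∧ F.m * F.X 4 c * F.m⁻¹ = F.X 7 c ∧ F.m * F.X 5 c * F.m⁻¹ = F.X 5 c ∧
    F.m * F.X 6 c * F.m⁻¹ = F.X 3 c ∧ F.m * F.X 7 c * F.m⁻¹ = F.X 4 c ∧ F.m * F.X 8 c * F.m⁻¹ = F.X 2 c ∧
    F.m * F.X 9 c * F.m⁻¹ = F.X 0 c ∧ F.m * F.X 10 c * F.m⁻¹ = F.X 1 c := by
  obtain ⟨h1, h2, h3, h4, h5, h6⟩ := F.mX c
  have : ∀ x, F.m * (F.m * x * F.m) * F.m = x := fun x => by simp [← mul_assoc, F.m2, mul_assoc x]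
  rw [F.mi]
  exact ⟨h1, h2, h3, h4, h5, h6, h4 ▸ this _, h5 ▸ this _, h3 ▸ this _, h1 ▸ this _, h2 ▸ this _⟩

theorem nN (J : List ℕ) (hc : ∀ k ∈ J, 2 ≤ k ∧ k < 12 ∧ [0, 0, 11, 9, 10, 8, 6, 7, 5, 3, 4, 2].getD k 0 ∈ J := by decide) :
    F.n ∈ 𝐍 (F.U J) := nU fun k m c => by
  obtain ⟨h1, h2, h3⟩ := hc k m
  interval_cases k <;> simp only [F.nx c] <;> exact Pa.x_mem h3 c

theorem mN (J : List ℕ) (hc : ∀ k ∈ J, k < 11 ∧ [9, 10, 8, 6, 7, 5, 3, 4, 2, 0, 1].getD k 0 ∈ J := by decide) :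
    F.m ∈ 𝐍 (F.U J) := nU fun k m c => by
  obtain ⟨h2, h3⟩ := hc k m
  interval_cases k <;> simp only [F.mx c] <;> exact Pa.x_mem h3 c

theorem SL : F.S ≤ F.L := F.sy.le
theorem nL : F.n ∈ F.L := F.gen ▸ mem_sup_left (mem_sup_right (mem_zpowers _))
theorem mL : F.m ∈ F.L := F.gen ▸ mem_sup_right (mem_zpowers _)
theorem US (J : List ℕ) (h : ∀ k ∈ J, k ∈ Pa.R := by decide) : F.U J ≤ F.S := Pa.U_mono h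
theorem UL (J : List ℕ) (h : ∀ k ∈ J, k ∈ Pa.R := by decide) : F.U J ≤ F.L := (F.US J h).trans F.SL
theorem uS (m : x ∈ F.U J) (h : ∀ k ∈ J, k ∈ Pa.R := by decide) : x ∈ F.S := Pa.U_mono h m
theorem uL (m : x ∈ F.U J) (h : ∀ k ∈ J, k ∈ Pa.R := by decide) : x ∈ F.L := F.SL (Pa.U_mono h m)
theorem xL (k : ℕ) (c : K) (h : k ∈ Pa.R := by decide) : F.X k c ∈ F.L := F.SL (F.x k c h)
theorem pS : P2 F.S := F.sy.pi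

theorem xinj (l : k < 12) (e : F.X k c = F.X k d) : c = d := by
  interval_cases k
  exacts [eq_of_add (F.co [c, d] 0 e _), eq_of_add (F.co [c, d] 1 e _), eq_of_add (F.co [c, d] 2 e _),
    eq_of_add (F.co [c, d] 3 e _), eq_of_add (F.co [c, d] 4 e _), eq_of_add (F.co [c, d] 5 e _),
    eq_of_add (F.co [c, d] 6 e _), eq_of_add (F.co [c, d] 7 e _), eq_of_add (F.co [c, d] 8 e _),
    eq_of_add (F.co [c, d] 9 e _), eq_of_add (F.co [c, d] 10 e _), eq_of_add (F.co [c, d] 11 e _)]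

theorem x1 (l : k < 12) (e : F.X k c = 1) : c = 0 := F.xinj l (e.trans (F.x0 k).symm)

theorem xa (k : ℕ) (c d : K) (hc : Pa.tb.nf (.x k (Pa.pAdd [[2 * 0]] [[2 * (0 + 1)]])) =
    Pa.tb.nf (.mul (.x k [[2 * 0]]) (.x k [[2 * (0 + 1)]])) := by decide +kernel) : F.X k (c + d) = F.X k c * F.X k d :=
  F.snd.eq [c, d] hc

theorem xx (k : ℕ) (c : K) (hc : Pa.tb.nf (.mul (.x k [[2 * 0]]) (.x k [[2 * 0]])) = Pa.tb.nf .one := by decide +kernel) :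
    F.X k c * F.X k c = 1 := F.snd.eq [c] hc

theorem mZ (m : x ∈ F.Z) : ∃ c, x = F.X 7 c := let ⟨c, _, e, r⟩ := F.nfZ m; ⟨c, by rw [e, r, mul_one]⟩
theorem mW (m : x ∈ F.W) : ∃ c d, x = F.X 4 c * F.X 7 d :=
  let ⟨c, _, e, d, _, e', r⟩ := F.nfW m; ⟨c, d, by rw [e, e', r, mul_one]⟩
theorem mI (m : x ∈ F.I) : ∃ c d e, x = F.X 4 c * F.X 5 d * F.X 7 e :=
  let ⟨c, _, e, d, _, e', f, _, e'', r⟩ := F.nfI m; ⟨c, d, f, by rw [e, e', e'', r, mul_one, mul_assoc]⟩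
theorem mV (m : x ∈ F.V) : ∃ a b c d e, x = F.X 4 a * F.X 5 b * F.X 7 c * F.X 8 d * F.X 10 e := by
  obtain ⟨a, _, rfl, b, _, rfl, c, _, rfl, d, _, rfl, e, _, rfl, rfl⟩ := F.nfV m
  exact ⟨a, b, c, d, e, by simp only [mul_one, mul_assoc]⟩

theorem sqV (m : x ∈ F.V) : x * x = 1 := by
  obtain ⟨a, b, c, d, e, rfl⟩ := F.mV m
  exact F.eq [a, b, c, d, e]

theorem z1 : F.X 7 1 ≠ 1 := fun e => one_ne_zero (F.x1 (by decide) e)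

theorem cV (hg : g ∈ F.S) (h : ∀ k ∈ F.V, g * k = k * g) : g ∈ F.Φ := by
  obtain ⟨a0, _, rfl, a1, _, rfl, a2, _, rfl, a3, _, rfl, a4, _, rfl, a5, _, rfl, a6, _, rfl, a7, _, rfl, a8, _, rfl, a9, _, rfl, a10, _, rfl, a11, _, rfl, rfl⟩ := F.nfS hg
  obtain rfl := F.co [a0, a1, a2, a3, a4, a5, a6, a7, a8, a9, a10, a11] 7 (h _ (F.x 4 1)) a11
  obtain rfl := F.co [a0, a1, a2, a3, a4, a5, a6, a7, a8, a9, a10] 4 (h _ (F.x 5 1)) a0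
  obtain rfl := F.co [a1, a2, a3, a4, a5, a6, a7, a8, a9, a10] 7 (h _ (F.x 5 1)) a9
  obtain rfl := F.co [a1, a2, a3, a4, a5, a6, a7, a8, a10] 4 (h _ (F.x 8 1)) a1
  obtain rfl := F.co [a2, a3, a4, a5, a6, a7, a8, a10] 7 (h _ (F.x 8 1)) a3
  obtain rfl := F.co [a2, a4, a5, a6, a7, a8, a10] 7 (h _ (F.x 10 1)) a2
  exact F.mem [a4, a5, a6, a7, a8, a10]

theorem cI (hg : g ∈ F.S) (h : ∀ k ∈ F.I, g * k = k * g) : g ∈ F.QI := by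
  obtain ⟨a0, _, rfl, a1, _, rfl, a2, _, rfl, a3, _, rfl, a4, _, rfl, a5, _, rfl, a6, _, rfl, a7, _, rfl, a8, _, rfl, a9, _, rfl, a10, _, rfl, a11, _, rfl, rfl⟩ := F.nfS hg
  obtain rfl := F.co [a0, a1, a2, a3, a4, a5, a6, a7, a8, a9, a10, a11] 7 (h _ (F.x 4 1)) a11
  obtain rfl := F.co [a0, a1, a2, a3, a4, a5, a6, a7, a8, a9, a10] 4 (h _ (F.x 5 1)) a0
  obtain rfl := F.co [a1, a2, a3, a4, a5, a6, a7, a8, a9, a10] 7 (h _ (F.x 5 1)) a9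
  exact F.mem [a1, a2, a3, a4, a5, a6, a7, a8, a10]

theorem cΦ (hg : g ∈ F.S) (h : ∀ k ∈ F.Φ, g * k = k * g) : g ∈ F.V := by
  obtain ⟨a4, _, rfl, a5, _, rfl, a6, _, rfl, a7, _, rfl, a8, _, rfl, a10, _, rfl, rfl⟩ := F.nf (F.cV hg fun k m => h k (F.le m))
  obtain ⟨e, e0, -, -, e2⟩ := ex3 F.big
  have h1 := F.co [a4, a5, a6, a7, a8, a10] 7 (h _ (F.x 6 1)) (a6 + σ a6)
  have h2 := F.co [a4, a5, a6, a7, a8, a10, e] 7 (h _ (F.x 6 e)) (a6 * σ e + σ a6 * e)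
  obtain rfl : a6 = 0 := (mul_eq_zero.1 (by linear_combination h2 - e * h1 + aa (a6 * e) : a6 * (σ e + e) = 0)).resolve_right e2
  exact F.mem [a4, a5, a7, a8, a10]

theorem cQI (hg : g ∈ F.S) (h : ∀ k ∈ F.QI, g * k = k * g) : g ∈ F.I := by
  obtain ⟨a4, a5, a7, a8, a10, rfl⟩ := F.mV (F.cΦ hg fun k m => h k (F.le m))
  obtain rfl := F.co [a4, a5, a7, a8, a10] 5 (h _ (F.x 1 1)) a10
  obtain rfl := F.co [a4, a5, a7, a8] 4 (h _ (F.x 1 1)) a8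
  exact F.mem [a4, a5, a7]

theorem uniq (m : h ∈ F.H) (m' : h' ∈ F.H) (p : Tw F.X h a b) (q : Tw F.X h' a b) : h = h' :=
  mul_inv_eq_one.1 (F.Hi _ (mul_mem m (inv_mem m')) (by simpa only [mul_inv_cancel₀ p.1, mul_inv_cancel₀ p.2.1] using p.mul q.inv))

theorem Hab (m : h ∈ F.H) (m' : h' ∈ F.H) : h * h' = h' * h :=
  let ⟨_, _, p⟩ := F.Hx h m
  let ⟨_, _, q⟩ := F.Hx h' m'
  F.uniq (mul_mem m m') (mul_mem m' m) (p.mul q) (by simpa only [mul_comm] using q.mul p)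

theorem Hod : Od F.H := piGrp_of_forall_elt fun h m => by
  obtain ⟨a, b, p⟩ := F.Hx h m
  have := Fintype.ofFinite K
  have := Pa.Ti.ch (K := K)
  have q : ∀ n, Tw F.X (h ^ n) (a ^ n) (b ^ n) := fun n => by
    induction n with
    | zero => exact ⟨by simp, by simp, fun k _ c => by simp [wt_one]⟩
    | succ n ih => simpa only [pow_succ] using ih.mul p
  have e := q (Fintype.card K - 1)
  rw [FiniteField.pow_card_sub_one_eq_one a p.1, FiniteField.pow_card_sub_one_eq_one b p.2.1] at e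
  exact eo_iff.1 (Odd.of_dvd_nat (Nat.Even.sub_odd Fintype.card_pos
    (FiniteField.even_card_of_char_two (ringChar.eq K 2) |> Nat.even_iff.2) odd_one)
    (orderOf_dvd_of_pow_eq_one (F.Hi _ (pow_mem m _) e)))

theorem HU (m : h ∈ F.H) (J : List ℕ) (l : ∀ k ∈ J, k < 12 := by decide) : h ∈ 𝐍 (F.U J) := let ⟨_, _, p⟩ := F.Hx h m; p.nU l

theorem tz (m : h ∈ F.Hz) : ∃ μ, Tz F.X h μ :=
  let ⟨_, _, p⟩ := F.Hx h m.1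
  p.tz (by simpa using F.xinj (by decide) ((p.2.2 7 (by decide) 1).symm.trans (fix_of (mem_cent1.1 m.2))))

theorem exz (n : μ ≠ 0) : ∃ h ∈ F.Hz, Tz F.X h μ :=
  let ⟨h, m, p⟩ := F.Hs _ _ (inv_ne_zero (nne n)) (σne n)
  ⟨h, ⟨m, mem_cent1.2 (of_fix (Tz.act p 1).2.2.2.2.2.2.2.1)⟩, p⟩

theorem exb (n : μ ≠ 0) : ∃ h ∈ F.H, Tb F.X h μ := F.Hs _ _ (pow_ne_zero 2 n) (inv_ne_zero n)

theorem tz1 (m : h ∈ F.H) (p : Tz F.X h 1) : h = 1 := F.Hi h m (by simpa [Tz] using p)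

theorem ex17 (p : a ≠ 0) (q : b ≠ 0) : ∃ h ∈ F.H, ∀ c, h * F.X 1 c * h⁻¹ = F.X 1 (a * c) ∧ h * F.X 10 c * h⁻¹ = F.X 10 (b * c) ∧
    h * F.X 4 c * h⁻¹ = F.X 4 (σ a * b * c) ∧ h * F.X 5 c * h⁻¹ = F.X 5 (a * b * c) ∧ h * F.X 7 c * h⁻¹ = F.X 7 (a * σ b * c) := by
  obtain ⟨a', p', rfl⟩ := n_sur' p
  obtain ⟨b', q', rfl⟩ := n_sur' q
  obtain ⟨h, m, r⟩ := F.Hs _ _ (div_ne_zero q' p') p'
  have := σne p'
  refine ⟨h, m, fun c => ⟨?_, ?_, ?_, ?_, ?_⟩⟩ <;> rw [r.2.2 _ (by decide)] <;> congr 1 <;>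
    simp only [wt, List.getD_cons_succ, List.getD_cons_zero, map_mul, map_div₀, σσ] <;> field_simp

theorem SB : F.S ≤ F.B := fun _ m => ⟨F.SL m, mem_cent1.2 (F.ZS (F.x 7 1) m).symm⟩
theorem nB : F.n ∈ F.B := ⟨F.nL, mem_cent1.2 (of_fix (F.nx 1).2.2.2.2.2.1)⟩
theorem HB : F.Hz ≤ F.B := inf_le_inf_right _ F.HL

theorem brB (m : g ∈ F.B) : ∃ s ∈ F.S, ∃ h ∈ F.Hz, g = s * h ∨ ∃ u ∈ F.U [0, 1], g = s * h * F.n * u := by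
  obtain ⟨s, p, h, q, r⟩ := F.br g m.1 (mem_cent1.1 m.2)
  refine ⟨s, p, h, ⟨q, ?_⟩, r⟩
  rcases r with rfl | ⟨u, i, rfl⟩
  · simpa using mul_mem (inv_mem (mem_inf.1 (F.SB p)).2) m.2
  · simpa [mul_assoc] using mul_mem (mul_mem (mul_mem (inv_mem (mem_inf.1 (F.SB p)).2) m.2)
      (inv_mem (mem_inf.1 (F.SB (F.uS i))).2)) (inv_mem (mem_inf.1 F.nB).2)

theorem B_le (p : F.S ≤ N) (q : F.Hz ≤ N) (r : F.n ∈ N) : F.B ≤ N := fun _ m => by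
  obtain ⟨s, i, h, j, rfl | ⟨u, l, rfl⟩⟩ := F.brB m
  exacts [mul_mem (p i) (q j), mul_mem (mul_mem (mul_mem (p i) (q j)) r) (p (F.uS l))]

theorem BZ : F.B ≤ 𝐂 F.Z := F.B_le (F.cen _ _) (fun _ m => let ⟨_, p⟩ := F.tz m; cU (by
  simpa using fun c => of_fix (p.act c).2.2.2.2.2.2.2.1)) (cU (by simpa using fun c => of_fix (F.nx c).2.2.2.2.2.1))

theorem BN (J : List ℕ) (p : F.S ≤ 𝐍 (F.U J)) (hc : ∀ k ∈ J, 2 ≤ k ∧ k < 12 ∧ [0, 0, 11, 9, 10, 8, 6, 7, 5, 3, 4, 2].getD k 0 ∈ J :=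
    by decide) : F.B ≤ 𝐍 (F.U J) := F.B_le p (fun _ m => F.HU m.1 J fun k l => (hc k l).2.1) (F.nN J hc)

theorem BQ : F.B ≤ 𝐍 F.Q := F.BN _ (F.nrm _ _)
theorem BV : F.B ≤ 𝐍 F.V := F.BN _ (F.nrm _ _)
theorem BΦ : F.B ≤ 𝐍 F.Φ := F.BN _ (F.nrm _ _)

theorem bW (m : g ∈ F.B) (e : g * F.X 4 a * g⁻¹ ∈ F.W) (n : a ≠ 0) : ∃ s ∈ F.S, ∃ h ∈ F.Hz, g = s * h := by
  obtain ⟨s, p, h, q, r | ⟨u, i, rfl⟩⟩ := F.brB m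
  · exact ⟨s, p, h, q, r⟩
  obtain ⟨μ, t⟩ := F.tz q
  have := conj_mem_of_norm' ((F.nrm Pa.R [4, 7]) p) e
  rw [show s⁻¹ * (s * h * F.n * u * F.X 4 a * (s * h * F.n * u)⁻¹) * s = h * (F.n * (u * F.X 4 a * u⁻¹) * F.n⁻¹) * h⁻¹ by group,
    cfix ((F.cen [0, 1] [4]) i) (F.x 4 a), (F.nx a).2.2.1, (t.act a).2.2.2.2.2.2.2.2.2.2.1] at this
  have j := mul_ne_zero (inv_ne_zero (nne t.ne)) n
  generalize (μ * σ μ)⁻¹ * a = c at *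
  exact (j (F.cm [c] 10 this c)).elim

theorem sW (p : s ∈ F.S) (c : K) : ∃ d, s * F.X 4 c * s⁻¹ = F.X 4 c * F.X 7 d := by
  obtain ⟨d, e⟩ := F.mZ (cm_symm (F.WS (F.x 4 c) p))
  exact ⟨d, by rw [cj_eq, e]; exact F.eq [c, d]⟩

theorem CW (m : g ∈ F.L) (e : g ∈ 𝐂 F.W) : g ∈ F.Q2 := by
  have i := cfix e (F.x 4 1)
  obtain ⟨s, p, h, q, rfl⟩ := F.bW ⟨m, mem_cent1.2 (mem_cent.1 e _ (F.x 7 1)).symm⟩ (by rw [i]; exact F.x 4 1) one_ne_zero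
  obtain ⟨μ, t⟩ := F.tz q
  obtain ⟨d, j⟩ := F.sW p (μ * σ μ * 1)
  rw [mul_inv_rev, mul_assoc s, ← mul_assoc, mul_assoc s, (t.act 1).2.2.2.2.1, j] at i
  obtain rfl : μ = 1 := n_one (eq_of_add (F.co [μ, d] 4 i _))
  obtain rfl := F.tz1 q.1 t
  rw [mul_one] at e ⊢
  exact F.cW p (F.x 4 1) (fun i => one_ne_zero (F.cm ([] : List K) 4 i 1)) (mem_cent.1 e _ (F.x 4 1)).symm

theorem dc (m : g ∈ 𝐍 F.L) (e : g ∈ 𝐂 F.W) : ∃ c ∈ 𝐂 F.L, ∃ s ∈ F.Q2, c * s = g := by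
  obtain ⟨c, i, s, j, rfl⟩ := (mem_sup_norm' (norm_of_cent' le_rfl)).1 (F.aZ ⟨m, cent_anti (Pa.U_mono (by decide)) e⟩)
  exact ⟨c, i, s, F.CW j (by simpa using mul_mem (inv_mem (cent_anti (F.UL _) i : c ∈ 𝐂 F.W)) e), rfl⟩

theorem cN (p : F.W ≤ R) (q : R ≤ F.L) (H : ∀ s ∈ F.Q2, (∀ k ∈ R, s * k = k * s) → s ∈ V) : 𝐍 F.L ⊓ 𝐂 R ≤ 𝐂 F.L ⊔ V := fun g m => by
  obtain ⟨c, i, s, j, rfl⟩ := F.dc m.1 (cent_anti p m.2)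
  exact mul_mem_sup i (H s j fun k l => (mem_cent.1 (by simpa using mul_mem (inv_mem (cent_anti q i)) m.2) k l).symm)

theorem N1 : 𝐍 F.L ⊓ 𝐂 F.Q ≤ 𝐂 F.L ⊔ F.Z := F.cN (Pa.U_mono (by decide)) (F.UL _) fun _ m => F.cQ (F.le m)
theorem N2 : 𝐍 F.L ⊓ 𝐂 F.Q2 ≤ 𝐂 F.L ⊔ F.W := F.cN (Pa.U_mono (by decide)) (F.UL _) fun _ => F.ZQ2
theorem N3 : 𝐍 F.L ⊓ 𝐂 F.Φ ≤ 𝐂 F.L ⊔ F.V := F.cN (Pa.U_mono (by decide)) (F.UL _) fun _ m => F.cΦ (F.le m)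
theorem N4 : 𝐍 F.L ⊓ 𝐂 F.QI ≤ 𝐂 F.L ⊔ F.I := F.cN (Pa.U_mono (by decide)) (F.UL _) fun _ m => F.cQI (F.le m)

theorem one (m : x ∈ F.L) (n : x ∈ 𝐂 F.L) : x = 1 := by
  obtain ⟨c, rfl⟩ := F.mZ (F.cQ (F.le (F.CW m (cent_anti (F.UL _) n))) fun k l => (mem_cent.1 n k (F.uL l)).symm)
  have := (F.mx c).2.2.2.2.2.2.2.1
  rw [cfix' n F.mL] at this
  rw [F.co [c] 7 this c, F.x0]

end Oc
end CF.Of
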