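/-
Standard subgroups of type `²F₄(q)`: the centraliser `B` of the central involution, the first translation.
-/
import Cfsg.Agent.Of.M1
set_option autoImplicit false
set_option linter.unusedSectionVars false
set_option synthInstance.maxSize 100000
set_option synthInstance.maxHeartbeats 200000

namespace CF.Of
open Subgroup Cfsg CF.BG CF.Sig CF.Ab2 CF.Rd
open scoped commutatorElement

local notation "σ" => Pa.Ti.σ

variable {K : Type*} [Field K] [Pa.Ti K] [Finite K] {G : Type*} [Group G] [Finite G] {g h h' s u x y t : G} {a b c d μ ν : K}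
  {I J : List ℕ} {N R V : Subgroup G} {k : ℕ}

theorem Tz.inv {X : ℕ → K → G} (p : Tz X h μ) : Tz X h⁻¹ μ⁻¹ := by simpa only [Tz, map_inv₀, mul_inv] using Tw.inv p

theorem cj2 (g h x : G) : g * h * x * (g * h)⁻¹ = g * (h * x * h⁻¹) * g⁻¹ := by group

theorem cj_inv (e : g * x * g⁻¹ = y) : g⁻¹ * y * g⁻¹⁻¹ = x := by rw [← e]; group

theorem exw (big : 4 < Nat.card K) : ∃ μ : K, μ ≠ 0 ∧ μ + 1 ≠ 0 ∧ σ μ + 1 ≠ 0 ∧ μ * σ μ + 1 ≠ 0 ∧ σ μ * μ ^ 2 + 1 ≠ 0 ∧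
    μ⁻¹ + 1 ≠ 0 ∧ (μ * σ μ)⁻¹ + 1 ≠ 0 ∧ (σ μ)⁻¹ + 1 ≠ 0 ∧ μ / σ μ + 1 ≠ 0 ∧ σ μ / μ + 1 ≠ 0 := by
  obtain ⟨μ, h0, h1, h2, h3⟩ := ex3 big
  have h4 : σ μ ≠ 1 := fun e => h1 (σinj (e.trans (map_one _).symm))
  have h5 : μ * σ μ ≠ 1 := fun e => h1 (n_one e)
  exact ⟨μ, h0, h2, fun e => h4 (eq_of_add e), fun e => h5 (eq_of_add e),
    fun e => h5 (σinj (by rw [map_mul, σσ, map_one]; exact eq_of_add e)), fun e => h1 (inv_eq_one.1 (eq_of_add e)),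
    fun e => h5 (inv_eq_one.1 (eq_of_add e)), fun e => h4 (inv_eq_one.1 (eq_of_add e)),
    fun e => h3 (by rw [← (div_eq_one_iff_eq (σne h0)).1 (eq_of_add e), aa]),
    fun e => h3 (by rw [(div_eq_one_iff_eq h0).1 (eq_of_add e), aa])⟩

namespace Oc
variable (F : Oc K G)

theorem nn (x : G) : F.n * (F.n * x * F.n⁻¹) * F.n⁻¹ = x := by rw [← cj2, F.n2]; simp
theorem mm (x : G) : F.m * (F.m * x * F.m⁻¹) * F.m⁻¹ = x := by rw [← cj2, F.m2]; simp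

theorem nH (m : h ∈ F.Hz) : F.n * h * F.n⁻¹ = h⁻¹ := by
  have i : F.n * h * F.n⁻¹ ∈ F.Hz := ⟨conj_mem_of_norm F.Hn m.1, (conj_mem_of_norm (le_norm_self _ F.nB) (F.HB m)).2⟩
  obtain ⟨μ, p⟩ := F.tz m
  obtain ⟨ν, q⟩ := F.tz i
  have := (q.act 1).2.2.2.2.2.1
  rw [cj2, cj2, cj_inv (F.nx 1).2.2.2.2.2.2.1, (p.act 1).2.2.2.2.2.2.2.2.1, (F.nx _).2.2.2.2.2.2.1, mul_one, mul_one] at this
  exact F.uniq i.1 (inv_mem (mem_inf.1 m).1) q (F.xinj (by decide) this ▸ p.inv)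

theorem n1 (a b : K) (m : F.n * (F.X 0 a * F.X 1 b) * F.n⁻¹ ∈ F.S) : a = 0 ∧ b = 0 := F.nS a b (by rwa [F.ni] at m)

theorem SH (m : h ∈ F.H) (n : h ∈ F.S) : h = 1 := (F.pS.elt n).eq_one (F.Hod.elt m)

theorem genB : F.B ≤ F.S ⊔ cj F.n F.S := by
  have HS : F.Hz ≤ 𝐍 F.S := fun h m => F.HU m.1 _
  have HD : F.Hz ≤ 𝐍 (F.S ⊔ cj F.n F.S) := norm_sup HS fun h m => cj_eq_self.1 (by
    rw [cj_cj, show h * F.n = F.n * h⁻¹ by rw [← F.nH m, F.ni, ← mul_assoc, ← mul_assoc, F.n2, one_mul], ← cj_cj,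
      cj_of_norm (inv_mem (HS m))])
  obtain ⟨h, m, e⟩ : ∃ h ∈ F.Hz, h * F.n ∈ F.S ⊔ cj F.n F.S := by
    obtain ⟨s, p, h, q, r | ⟨u, i, r⟩⟩ := F.brB (conj_mem_of_norm (le_norm_self _ F.nB) (F.SB (F.x 1 1)))
    · have : h * h = (s * (h * s * h⁻¹))⁻¹ := by
        rw [eq_inv_iff_mul_eq_one, mul_eq_one_comm, show s * (h * s * h⁻¹) * (h * h) = s * h * (s * h) by group, ← r, conj_mul,
          F.xx 1]; simp
      obtain rfl := eo_one (F.Hod.elt q.1) (F.SH (mul_mem q.1 q.1) (this ▸ inv_mem (mul_mem p (conj_mem_of_norm (HS q) p))))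
      exact (one_ne_zero (F.n1 0 1 (by rw [F.x0, one_mul, r, mul_one]; exact p)).2).elim
    · refine ⟨h, q, ?_⟩
      rw [show h * F.n = s⁻¹ * (F.n * F.X 1 1 * F.n⁻¹) * u⁻¹ by rw [r]; group]
      exact mul_mem (mul_mem_sup (inv_mem p) (conj_mem_cj.2 (F.x 1 1))) (mem_sup_left (inv_mem (F.uS i)))
  have HL : F.Hz ≤ F.S ⊔ cj F.n F.S := fun g i => eo_sq (F.Hod.elt i.1) (by
    have := mul_mem (conj_mem_of_norm (HD i) e) (inv_mem e)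
    rwa [show g * (h * F.n) * g⁻¹ * (h * F.n)⁻¹ = g * (h * (F.n * g⁻¹ * F.n⁻¹) * h⁻¹) by group, F.nH (inv_mem i), inv_inv,
      fix_of (F.Hab m.1 i.1)] at this)
  exact F.B_le le_sup_left HL (by simpa using mul_mem (inv_mem (HL m)) e)

theorem B_le' (p : F.S ≤ N) (r : F.n ∈ 𝐍 N) : F.B ≤ N :=
  F.genB.trans (sup_le p (cj_le_iff.2 fun _ m => mem_cj_inv.2 (conj_mem_of_norm r (p m))))

theorem Bp : F.B ≤ ⁅F.B, F.B⁆ := by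
  obtain ⟨μ, h0, h1, h2, h3, h4, h5, h6, -⟩ := exw F.big
  obtain ⟨h, m, p⟩ := F.exz h0
  have q : ∀ k ∈ Pa.R, ∀ w, (∀ c, h * F.X k c * h⁻¹ = F.X k (w * c)) → w + 1 ≠ 0 → ∀ c, ∃ a d, a + d = c ∧
      F.X k a * (F.X k d)⁻¹ ∈ ⁅F.B, F.B⁆ := fun k l w e n c => ⟨w * (c / (w + 1)), c / (w + 1), by field_simp,
    e _ ▸ commutator_mem_commutator (F.HB m) (F.SB (Pa.x_mem l _))⟩
  have r : ∀ k ∈ [1, 2, 4, 5, 8, 10, 11], ∀ w, (∀ c, h * F.X k c * h⁻¹ = F.X k (w * c)) → w + 1 ≠ 0 → ∀ c,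
      F.X k c ∈ ⁅F.B, F.B⁆ := fun k l w e n c => by
    obtain ⟨a, d, rfl, i⟩ := q k (by clear * - l; revert k; decide) w e n c
    rwa [show F.X k (a + d) = F.X k a * (F.X k d)⁻¹ from F.snd.eq [a, d] (by clear * - l; revert k; decide +kernel)]
  have r' : ∀ k ∈ [0, 3, 9], ∀ w, (∀ c, h * F.X k c * h⁻¹ = F.X k (w * c)) → w + 1 ≠ 0 → (∀ c, F.X (k + 1) c ∈ ⁅F.B, F.B⁆) → ∀ c,
      F.X k c ∈ ⁅F.B, F.B⁆ := fun k l w e n j c => by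
    obtain ⟨a, d, rfl, i⟩ := q k (by clear * - l; revert k; decide) w e n c
    rw [show F.X k (a + d) = F.X k a * (F.X k d)⁻¹ * F.X (k + 1) (a * σ d + d * σ d) from
      F.snd.eq [a, d] (by clear * - l; revert k; decide +kernel)]
    exact mul_mem i (j _)
  have a1 := r 1 (by decide) _ (fun c => (p.act c).2.1) h4
  have a2 := r 2 (by decide) _ (fun c => (p.act c).2.2.1) h3
  have a4 := r 4 (by decide) _ (fun c => (p.act c).2.2.2.2.1) h3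
  have a5 := r 5 (by decide) _ (fun c => (p.act c).2.2.2.2.2.1) h1
  have a8 := r 8 (by decide) _ (fun c => (p.act c).2.2.2.2.2.2.2.2.1) h5
  have a10 := r 10 (by decide) _ (fun c => (p.act c).2.2.2.2.2.2.2.2.2.2.1) h6
  have a11 := r 11 (by decide) _ (fun c => (p.act c).2.2.2.2.2.2.2.2.2.2.2) h6
  have a0 := r' 0 (by decide) _ (fun c => (p.act c).1) h2 a1
  have a3 := r' 3 (by decide) _ (fun c => (p.act c).2.2.2.1) h1 a4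
  have a9 := r' 9 (by decide) _ (fun c => (p.act c).2.2.2.2.2.2.2.2.2.1) h5 a10
  have a7 : ∀ c, F.X 7 c ∈ ⁅F.B, F.B⁆ := fun c => (F.eq [c] : ⁅F.X 2 c, F.X 10 1⁆ = F.X 7 c) ▸
    commutator_mem_commutator (F.SB (F.x 2 c)) (F.SB (F.x 10 1))
  have a6 : ∀ c, F.X 6 c ∈ ⁅F.B, F.B⁆ := fun c => by
    rw [show F.X 6 c = (F.X 2 (σ c) * F.X 3 c * F.X 4 (c * σ c) * F.X 5 (c * c))⁻¹ * ⁅F.X 1 c, F.X 11 1⁆ *
      (F.X 8 (σ c) * F.X 10 c)⁻¹ from F.eq [c]]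
    exact mul_mem (mul_mem (inv_mem (mul_mem (mul_mem (mul_mem (a2 _) (a3 _)) (a4 _)) (a5 _)))
      (commutator_mem_commutator (F.SB (F.x 1 c)) (F.SB (F.x 11 1)))) (inv_mem (mul_mem (a8 _) (a10 _)))
  exact F.B_le' (Pa.U_le (by simp [*])) (norm_der _ (le_norm_self _ F.nB))

theorem ZS' : F.Z = 𝐙 F.S := le_antisymm (le_inf (F.US _) (F.cen _ _)) fun _ m => F.cQ m.1 fun k l => (mem_cent.1 m.2 k (F.uS l)).symm
theorem nZ' (m : g ∈ 𝐍 F.S) : g ∈ 𝐍 F.Z := F.ZS' ▸ norm_center _ m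

theorem nW (m : g ∈ 𝐍 F.S) : g ∈ 𝐍 F.W := by
  have : F.W = F.S ⊓ centMod F.S F.Z := le_antisymm (fun x i => ⟨F.uS i, mem_centMod.2 ⟨(F.nrm _ _) (F.uS i), fun _ => F.WS i⟩⟩)
    fun x i => F.Z2S i.1 (mem_centMod.1 i.2).2
  rw [this]
  exact zp_norm.1 (norm_inf (zp_norm.2 m) (norm_centMod (zp_norm.2 m) (zp_norm.2 (F.nZ' m))))

theorem nQ2 (m : g ∈ 𝐍 F.S) : g ∈ 𝐍 F.Q2 := by
  have : F.Q2 = F.S ⊓ 𝐂 F.W := le_antisymm (le_inf (F.US _) (F.cen _ _)) fun x i => F.CW (F.SL i.1) i.2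
  rw [this]
  exact zp_norm.1 (norm_inf_cent (zp_norm.2 m) (zp_norm.2 (F.nW m)))

theorem nI (m : g ∈ 𝐍 F.S) : g ∈ 𝐍 F.I := by
  have : F.I = F.Q2 ⊓ centMod F.Q2 F.W := le_antisymm (fun x i => ⟨F.le i, mem_centMod.2 ⟨(F.nrm Pa.R _) (F.uS i), fun _ => F.IQ2 i⟩⟩)
    fun x i => F.Z2Q2 i.1 (mem_centMod.1 i.2).2
  rw [this]
  exact zp_norm.1 (norm_inf (zp_norm.2 (F.nQ2 m)) (norm_centMod (zp_norm.2 (F.nQ2 m)) (zp_norm.2 (F.nW m))))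

theorem bz (m : g ∈ F.B) (c : K) : g * F.X 7 c = F.X 7 c * g := (mem_cent.1 (F.BZ m) _ (F.x 7 c)).symm

theorem ZZ : ∀ v ∈ F.Z, v * v = 1 := fun _ m => F.sqV (F.le m)

section
variable (f : Hy F.L t) (e : g * t * g⁻¹ = t * F.X 7 c)
include f e

theorem Ys : F.B ≤ cj g F.L := by
  refine le_cj_iff.2 (f.pf _ (fun x m => f.nA ?_) (by rw [← cj_comm]; exact cj_mono _ F.Bp))
  rw [← conj_mem_cj (g := g), cj_cent1, e]
  have := mem_cj_inv.1 (show x ∈ cj g⁻¹ F.B from m)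
  exact mem_cent1.2 (Commute.mul_right (f.Lt this.1) (F.bz this c))

theorem gB (n : g ∈ 𝐍 F.Z) : g ∈ 𝐍 F.B := cj_eq_self.1 (eq_of_card_le (by
  rw [cj_inf, cj_cent1]
  exact le_inf (F.Ys f e) fun x m => mem_cent1.2 (mem_cent.1 (F.BZ m) _ (conj_mem_of_norm n (F.x 7 1))).symm)
  (card_cj _ _).le).symm

end

theorem QB : F.Q ≤ F.B := (F.US _).trans F.SB

theorem h2 (f : Fu F.L t (F.X 7 1)) : H2 F.L t := ⟨f.toHy, fun y m p yt => by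
  by_contra! n
  obtain ⟨r, rm, rt⟩ : ∃ r ∈ zpowers y, r * r = t := by
    obtain ⟨j, k⟩ := e2_pow p
    induction j generalizing y with
    | zero => exact (n.1 (by simpa using k)).elim
    | succ j ih =>
      by_cases i : y * y = t
      · exact ⟨y, mem_zpowers y, i⟩
      obtain ⟨r, a, b⟩ := ih (y * y) (mul_mem m m) (p.mul p rfl) (Commute.mul_left yt yt)
        ⟨fun e => (f.r1 y m e yt).elim n.1 n.2, i⟩ (by rw [← sq, ← pow_mul, ← pow_succ', k])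
      exact ⟨r, zpowers_le.2 (mul_mem (mem_zpowers y) (mem_zpowers y)) a, b⟩
  obtain ⟨g, a⟩ := isConj_iff.1 f.tz
  have i : g * r * g⁻¹ ∈ 𝐂 F.B := cent_anti (F.Ys f.toHy a) (by rw [← cj_cent]; exact conj_mem_cj.2 (zpowers_le.2 m rm))
  have j : g * r * g⁻¹ ∈ 𝐂₁ (t * F.X 7 1) := by
    rw [← a, ← cj_cent1, conj_mem_cj, ← rt]; exact mem_cent1.2 (mul_assoc _ _ _).symm
  have l : g * r * g⁻¹ ∈ 𝐂₁ t := mem_cent1_comm.1 (by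
    simpa using mul_mem (mem_cent1_comm.1 j) (inv_mem (le_cent1_iff.2 i (F.SB (F.x 7 1)))))
  obtain ⟨k, i, v, j, q⟩ := (mem_sup_norm' (norm_of_cent' (cent_anti (F.UL _)))).1 (F.N1 ⟨f.nA l, cent_anti F.QB i⟩)
  have : t * F.X 7 1 = k * k := by
    rw [← a, ← rt, ← conj_mul, ← q, mul_assoc, ← mul_assoc v, mem_cent.1 i v (F.uL j), mul_assoc, F.ZZ v j, mul_one]
  exact F.z1 (F.one (F.xL 7 1) (by
    simpa only [inv_mul_cancel_left] using mul_mem (inv_mem f.tC) (this ▸ mul_mem i i : t * F.X 7 1 ∈ 𝐂 F.L)))⟩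

theorem gO (f : H2 F.L t) (a : g * t * g⁻¹ = t * F.X 7 c) (n : g ∈ 𝐍 F.Z) : g ∈ 𝐍 (Ot F.L t) :=
  mem_norm_of_cj_le (cj_le_iff.2 ((closure_le _).2 fun o ⟨i, j, k⟩ => mem_cj_inv.2 (by
    have l : g * o * g⁻¹ ∈ 𝐂 F.B := conj_mem_of_norm (norm_le_norm_cent _ (F.gB f.toHy a n)) (cent_anti inf_le_left i)
    have m : g * o * g⁻¹ ∈ 𝐂₁ (t * F.X 7 c) := by rw [← a, ← cj_cent1, conj_mem_cj]; exact mem_cent1.2 k
    refine f.deco (F.UL _) F.ZZ F.N1 (mem_cent1.1 (mem_cent1_comm.1 ?_)) (cent_anti F.QB l) (j.conj g)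
    simpa using mul_mem (mem_cent1_comm.1 m) (inv_mem (le_cent1_iff.2 l (F.SB (F.x 7 c)))))))

theorem b1 (f : Fu F.L t (F.X 7 1)) : ∃ g ∈ 𝐍 F.S, g * t * g⁻¹ = t * F.X 7 1 := by
  obtain ⟨g, a⟩ := isConj_iff.1 f.tz
  obtain ⟨l, m, e⟩ := (F.sy.cj g).syl_conj ((F.sy.cj g).of_card (F.SB.trans (F.Ys f.toHy a)) (card_cj g F.S).symm)
  refine ⟨l * g, cj_eq_self.1 (by rw [← cj_cj, ← e]), ?_⟩
  obtain ⟨l, n, rfl⟩ := mem_cj_iff.1 m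
  rw [← a, inv_mul_cancel_right]
  calc _ = g * (l * t * l⁻¹) * g⁻¹ := by group
    _ = _ := by rw [fix_of (f.Lt n)]

theorem cT' (m : g ∈ 𝐍 F.L) (e : g ∈ 𝐂 F.T) : ∃ k ∈ 𝐂 F.L, ∃ a c, g = k * (F.X 5 a * F.X 7 c) := by
  obtain ⟨k, i, s, j, rfl⟩ := (mem_sup_norm' (norm_of_cent' (cent_anti (F.UL _)))).1
    (F.N4 ⟨m, cent_anti (Pa.U_mono (by decide)) e⟩)
  obtain ⟨a, b, c, rfl⟩ := F.mI j
  have := mem_cent.1 (mul_mem (inv_mem (cent_anti (F.UL _) i : k ∈ 𝐂 F.T)) e) _ (F.x 11 1)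
  rw [inv_mul_cancel_left] at this
  obtain rfl := F.co [a, b, c] 7 this a
  exact ⟨k, i, b, c, by rw [F.x0, one_mul]⟩

end Oc
end CF.Of
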