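/-
Standard subgroups of type `²F₄(q)`: a translation centralising the torus of `B` and `V`.
-/
import Cfsg.Agent.Of.M2
set_option autoImplicit false
set_option linter.unusedSectionVars false
set_option synthInstance.maxSize 100000
set_option synthInstance.maxHeartbeats 200000

namespace CF.Of
open Subgroup Cfsg CF.BG CF.Sig CF.Ab2 CF.Rd
open scoped commutatorElement

local notation "σ" => Pa.Ti.σ

variable {K : Type*} [Field K] [Pa.Ti K] [Finite K] {G : Type*} [Group G] [Finite G] {g h h' s u x y t p : G} {a b c d μ ν : K}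
  {I J : List ℕ} {N R V : Subgroup G} {k : ℕ}

theorem pr_cj {X : ℕ → K → G} (p : Tw X h a b) : ∀ (J : List ℕ) (l : List K), (∀ k ∈ J, k < 12) →
    h * Pa.pr X J l * h⁻¹ = Pa.pr X J (List.zipWith (fun k c => wt a b k * c) J l)
  | [], _, _ => by simp [Pa.pr]
  | _ :: _, [], _ => by simp [Pa.pr]
  | k :: J, c :: l, e => by
    rw [List.zipWith_cons_cons, Pa.pr, Pa.pr, ← conj_mul, p.2.2 k (e k (by simp)), pr_cj p J l fun k m => e k (by simp [m])]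

theorem pr_mem {X : ℕ → K → G} (h0 : ∀ i, X i 0 = 1) : ∀ (N : List ℕ) (l : List K),
    (∀ i < N.length, N.getD i 0 ∉ J → l.getD i 0 = 0) → Pa.pr X N l ∈ Pa.U X J
  | [], _, _ => by simp [Pa.pr]
  | _ :: _, [], _ => by simp [Pa.pr]
  | k :: N, t :: l, h => mul_mem ((em (k ∈ J)).elim (Pa.x_mem · t) fun e => by
      rw [show t = 0 from h 0 (by simp) e, h0]; exact one_mem _) (pr_mem h0 N l fun i hi => h (i + 1) (by simpa))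

theorem sh2 {S : Subgroup G} (m : s ∈ S) (n : h ∈ 𝐍 S) (o : Eo h) (e : E2 (s * h)) : h ∈ S := by
  have : ∀ N : ℕ, (s * h) ^ N * (h ^ N)⁻¹ ∈ S := fun N => by
    induction N with
    | zero => simp
    | succ N ih =>
      rw [show (s * h) ^ (N + 1) * (h ^ (N + 1))⁻¹ = s * (h * ((s * h) ^ N * (h ^ N)⁻¹) * h⁻¹) by rw [pow_succ', pow_succ']; group]
      exact mul_mem m (conj_mem_of_norm n ih)
  obtain ⟨k, e⟩ := e2_pow e
  exact eo_mem o (n := k) (by simpa [e] using this (2 ^ k))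

theorem tr_one (e : g * t = t * g) : g * t * g⁻¹ = t * 1 := by rw [mul_one, fix_of e]

namespace Oc
variable (F : Oc K G)

theorem fixS (q : Tw F.X h a b) (m : s ∈ F.S) (e : h * s * h⁻¹ = s)
    (H : ∀ k < 12, k ∉ J → ∃ w, w + 1 ≠ 0 ∧ h * F.X k 1 * h⁻¹ = F.X k (w * 1)) : s ∈ F.U J := by
  obtain ⟨l, i, rfl⟩ := Pa.nf_iff.1 (F.nfS m)
  rw [pr_cj q _ _ (by decide)] at e
  have := F.inj _ _ (by simp [i]) i e
  refine pr_mem F.x0 _ _ fun k j n => ?_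
  have r : Pa.R.getD k 0 = k := by clear n; revert k; decide
  obtain ⟨w, o, v⟩ := H k j (r ▸ n)
  have y := congrArg (fun l => l.getD k 0) this
  have j' : k < l.length := i ▸ j
  simp only [List.getD_eq_getElem?_getD, List.getElem?_zipWith, List.getElem?_eq_getElem j, List.getElem?_eq_getElem j',
    Option.getD_some] at y r ⊢
  rw [r, ← mul_one (wt a b k), ← F.xinj j (v.symm.trans (q.2.2 k j 1))] at y
  exact (mul_eq_zero.1 (by linear_combination y + aa l[k] : (w + 1) * l[k] = 0)).resolve_left o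

theorem cSH (m : s ∈ F.S) (e : s ∈ 𝐂 F.Hz) : s ∈ F.U [6, 7] := by
  obtain ⟨μ, h0, h1, h2, h3, h4, h5, h6, -⟩ := exw F.big
  obtain ⟨h, i, q⟩ := F.exz h0
  obtain ⟨a0, a1, a2, a3, a4, a5, -, -, a8, a9, a10, a11⟩ := q.act 1
  refine F.fixS q m (cfix' e i) fun k l n => ?_
  interval_cases k
  exacts [⟨_, h2, a0⟩, ⟨_, h4, a1⟩, ⟨_, h3, a2⟩, ⟨_, h1, a3⟩, ⟨_, h3, a4⟩, ⟨_, h1, a5⟩, by simp at n, by simp at n, ⟨_, h5, a8⟩,
    ⟨_, h5, a9⟩, ⟨_, h6, a10⟩, ⟨_, h6, a11⟩]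

theorem cBH (m : y ∈ F.B) (e : y ∈ 𝐂 F.Hz) : ∃ s ∈ F.U [6, 7], ∃ h ∈ F.Hz, y = s * h := by
  obtain ⟨s, p, h, q, rfl | ⟨u, i, rfl⟩⟩ := F.brB m
  · exact ⟨s, F.cSH p (by simpa using mul_mem e (inv_mem (mem_cent.2 fun k l => F.Hab l.1 q.1 : h ∈ 𝐂 F.Hz))), h, q, rfl⟩
  obtain ⟨μ, h0, h1, -⟩ := ex3 F.big
  obtain ⟨k, j, r⟩ := F.exz h0
  have l : F.n * (u * (k * u⁻¹ * k⁻¹)) * F.n⁻¹ = h⁻¹ * (s⁻¹ * (k * s * k⁻¹)) * h⁻¹⁻¹ * (k * k) := by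
    calc _ = (s * h)⁻¹ * (s * h * F.n * u * k * (s * h * F.n * u)⁻¹) * (s * h) * (F.n * k⁻¹ * F.n⁻¹) := by group
      _ = h⁻¹ * (s⁻¹ * (k * s * k⁻¹)) * h⁻¹⁻¹ * (h⁻¹ * k * h⁻¹⁻¹ * k) := by rw [cfix e j, F.nH (inv_mem j)]; group
      _ = _ := by rw [fix_of (F.Hab (inv_mem (mem_inf.1 q).1) j.1)]
  have kk := mul_mem (mem_inf.1 j).1 j.1
  have := eo_one (F.Hod.elt j.1) (F.SH kk (sh2 (conj_mem_of_norm (inv_mem (F.HU q.1 _)) (mul_mem (inv_mem p)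
    (conj_mem_of_norm (F.HU j.1 _) p))) (F.HU kk _) (F.Hod.elt kk) (l ▸ (F.pS.elt (mul_mem (F.uS i)
      (conj_mem_of_norm (F.HU j.1 _) (inv_mem (F.uS i))))).conj _)))
  have v := (r.act 1).2.2.2.1
  rw [this, one_mul, inv_one, mul_one, mul_one] at v
  exact (h1 (F.xinj (by decide) v).symm).elim

theorem ue (m : u ∈ F.S) : ∃ c, ∀ d, ⁅u, F.X 4 d⁆ = F.X 7 (c * d) := by
  obtain ⟨a0, _, rfl, a1, _, rfl, a2, _, rfl, a3, _, rfl, a4, _, rfl, a5, _, rfl, a6, _, rfl, a7, _, rfl, a8, _, rfl, a9, _, rfl, a10, _, rfl, a11, _, rfl, rfl⟩ := F.nfS m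
  exact ⟨a11, fun d => F.eq [a0, a1, a2, a3, a4, a5, a6, a7, a8, a9, a10, a11, d]⟩

theorem act (m : g ∈ 𝐍 F.S) : ∃ H I φ f : K → K, (∀ c, g * F.X 7 c * g⁻¹ = F.X 7 (H c)) ∧
    (∀ c, g * F.X 4 c * g⁻¹ = F.X 4 (I c) * F.X 7 (φ c)) ∧ ∀ c d, H (c * d) = f c * I d := by
  choose H hH using fun c => F.mZ (conj_mem_of_norm (F.nZ' m) (F.x 7 c))
  choose I φ hI using fun c => F.mW (conj_mem_of_norm (F.nW m) (F.x 4 c))
  choose f hf using fun c => F.ue (conj_mem_of_norm m (F.x 11 c))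
  refine ⟨H, I, φ, f, hH, hI, fun c d => F.xinj (k := 7) (by decide) ?_⟩
  rw [← hH, ← (F.eq [c, d] : ⁅F.X 11 c, F.X 4 d⁆ = F.X 7 (c * d)), cj_comm', hI, cmr, hf,
    commutatorElement_eq_one_iff_mul_comm.2 (F.bz (F.SB (conj_mem_of_norm m (F.x 11 c))) _)]
  simp

theorem tor (n : a ≠ 0) : ∃ h ∈ F.H, ∀ c, h * F.X 7 c * h⁻¹ = F.X 7 (a * c) :=
  let ⟨h, m, e⟩ := F.ex17 n one_ne_zero; ⟨h, m, fun c => by simpa using (e c).2.2.2.2⟩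

theorem cZ (e : ∀ c, g * F.X 7 c * g⁻¹ = F.X 7 c) : g ∈ 𝐂 F.Z := cU (by simpa using fun c => of_fix (e c))

theorem b2a (f : Fu F.L t (F.X 7 1)) : ∃ x ∈ 𝐍 F.S ⊓ 𝐂 F.Z, ∃ c, c ≠ 0 ∧ x * t * x⁻¹ = t * F.X 7 c := by
  obtain ⟨g, n, a⟩ := F.b1 f
  obtain ⟨H, I, φ, r, hH, -, k⟩ := F.act n
  have inj : ∀ c d, H c = H d → c = d := fun c d i => F.xinj (k := 7) (by decide) (conj_inj g (by simpa [hH] using congrArg (F.X 7) i))
  have H0 : H 0 = 0 := F.x1 (k := 7) (by decide) (by rw [← hH, F.x0]; simp)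
  have H1 : H 1 ≠ 0 := fun i => one_ne_zero (inj _ _ (i.trans H0.symm))
  obtain ⟨l, l0, l1, -⟩ := ex3 F.big
  have r1 : r 1 ≠ 0 := left_ne_zero_of_mul (k 1 1 ▸ (mul_one (1 : K)).symm ▸ H1)
  have s : ∀ c, H (l * c) = r l / r 1 * H c := fun c => by rw [k, ← one_mul c, k, one_mul]; field_simp
  generalize r l / r 1 = w at s
  have w0 : w ≠ 0 := fun i => l0 (inj _ _ (by simpa [i, H0] using s 1))
  have w1 : 1 + w ≠ 0 := fun i => l1 (inj _ _ (by rw [← mul_one l, s]; linear_combination H 1 * i - aa (H 1)))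
  obtain ⟨u, u1, u2⟩ := F.tor l0
  obtain ⟨v, v1, v2⟩ := F.tor (inv_ne_zero w0)
  have su : ∀ c, ∃ d, H d = c := fun c => by
    obtain ⟨d, i⟩ := F.mZ (conj_mem_of_norm' (F.nZ' n) (F.x 7 c))
    exact ⟨d, F.xinj (k := 7) (by decide) (by rw [← hH, ← i]; group)⟩
  have cz : ∀ c, g * u * g⁻¹ * F.X 7 c * (g * u * g⁻¹)⁻¹ = F.X 7 (w * c) := fun c => by
    obtain ⟨d, rfl⟩ := su c
    rw [← s, ← hH, ← hH, ← u2]; group
  have ct : g * u * g⁻¹ * t * (g * u * g⁻¹)⁻¹ = t * F.X 7 (1 + w) := by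
    have : g * u * g⁻¹ * (t * F.X 7 1) * (g * u * g⁻¹)⁻¹ = t * F.X 7 1 := by
      rw [← a]
      calc _ = g * (u * t * u⁻¹) * g⁻¹ := by group
        _ = _ := by rw [fix_of (f.Lt (F.HL u1))]
    rw [← conj_mul, cz, mul_one] at this
    rw [F.xa 7, ← mul_assoc, ← this, mul_assoc _ (F.X 7 w), F.xx 7, mul_one]
  exact ⟨v * (g * u * g⁻¹), mem_inf.2 ⟨mul_mem (F.HU v1 _) (mul_mem (mul_mem n (F.HU u1 _)) (inv_mem n)), F.cZ fun c => by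
    rw [cj2, cz, v2, inv_mul_cancel_left₀ w0]⟩, _, mul_ne_zero (inv_ne_zero w0) w1, by
    rw [tr_mul (tr_one (f.Lt (F.HL v1))) ct, one_mul, v2]⟩

theorem b2c (f : Fu F.L t (F.X 7 1)) : ∃ x ∈ 𝐍 F.S ⊓ 𝐂 F.Z ⊓ 𝐂 (Ot F.L t), x * t * x⁻¹ = t * F.X 7 1 := by
  obtain ⟨x, m, c, c0, e⟩ := F.b2a f
  obtain ⟨l, l0, -, l1, -⟩ := ex3 F.big
  obtain ⟨h, h1, h2⟩ := F.tor l0
  obtain ⟨k, k1, k2⟩ := F.tor (inv_ne_zero (mul_ne_zero l1 c0))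
  have i := tr_cj (g := x⁻¹) (by rw [inv_inv]; exact tr_inv' e (mem_cent.1 m.2 _ (F.x 7 c)).symm (F.xx 7 c)) (f.Lt (F.HL h1))
  have j := tr_cj (tr_mul e i) (f.Lt (F.HL k1))
  rw [h2, cfix m.2 (F.x 7 _), ← F.xa 7, k2, show ((l + 1) * c)⁻¹ * (c + l * c) = 1 by field_simp; ring] at j
  have n : ∀ {h}, h ∈ F.H → h ∈ 𝐍 (𝐍 F.S ⊓ 𝐂 F.Z) := fun i =>
    zp_norm.1 (norm_inf_cent (zp_norm.2 (le_norm_self _ (F.HU i _))) (zp_norm.2 (F.HU i _)))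
  refine ⟨_, ⟨conj_mem_of_norm (n k1) (mul_mem m (conj_mem_of_norm (n h1) (inv_mem m))),
    conj_mem_of_norm (le_norm_self _ (L_ot (F.HL k1))) ?_⟩, j⟩
  simpa only [commutatorElement_def, mul_assoc] using
    cm_mem (norm_le_norm_cent _ (F.gO (F.h2 f) e (cent_le_norm _ m.2))) (L_ot (t := t) (F.HL h1))

theorem cmH (f : Hy F.L t) (m : x ∈ 𝐍 F.S ⊓ 𝐂 F.Z) (e : x * t * x⁻¹ = t * F.X 7 c) (i : h ∈ F.Hz) : ⁅x, h⁆ ∈ F.S := by
  obtain ⟨H, I, φ, r, hH, hI, k⟩ := F.act m.1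
  have q : ∀ d, r 1 * I d = d := fun d => F.xinj (k := 7) (by decide) (by rw [← k, ← hH, one_mul, cfix m.2 (F.x 7 d)])
  have I1 : I 1 ≠ 0 := right_ne_zero_of_mul (q 1 ▸ one_ne_zero)
  obtain ⟨s, s1, h', j, l⟩ := F.bW (conj_mem_of_norm (F.gB f e (cent_le_norm _ m.2)) (F.HB i))
    (conj_mem_of_norm (conj_mem_of_norm (le_norm_self _ (F.nW m.1)) (F.HU i.1 _)) (F.x 4 1)) one_ne_zero
  obtain ⟨μ, p⟩ := F.tz i
  obtain ⟨ν, p'⟩ := F.tz j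
  obtain ⟨d, o⟩ := F.sW s1 (ν * σ ν * I 1)
  have : x * h * x⁻¹ * (x * F.X 4 1 * x⁻¹) * (x * h * x⁻¹)⁻¹ = x * (h * F.X 4 1 * h⁻¹) * x⁻¹ := by group
  rw [l, (p.act 1).2.2.2.2.1, hI, hI, cj2, ← conj_mul (b := h'), (p'.act _).2.2.2.2.1, (p'.act _).2.2.2.2.2.2.2.1, ← conj_mul, o,
    fix_of (F.bz (F.SB s1) _)] at this
  have v := q (μ * σ μ * 1)
  have w := q 1
  generalize I (μ * σ μ * 1) = a1, I 1 = a2, φ 1 = a3, φ (μ * σ μ * 1) = a4 at *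
  have := F.co [a1, a2, a3, a4, ν, d] 4 this (ν * σ ν * a2 + a1)
  obtain rfl : ν = μ := n_inj (by linear_combination r 1 * this - v - ν * σ ν * w - aa (μ * σ μ))
  rw [commutatorElement_def, l, F.uniq j.1 i.1 p' p, mul_inv_cancel_right]
  exact s1

theorem sc (e : E2 p) (l : k < 12) (H : ∀ c, p * F.X k c * p⁻¹ = F.X k (a * c)) : a = 1 := by
  have : ∀ N : ℕ, p ^ N * F.X k 1 * (p ^ N)⁻¹ = F.X k (a ^ N) := fun N => by
    induction N with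
    | zero => simp
    | succ N ih => rw [pow_succ', cj2, ih, H, pow_succ']
  obtain ⟨N, e⟩ := e2_pow e
  exact pw_one (F.xinj l (by simpa [e] using (this (2 ^ N)).symm))

theorem hc (m : p ∈ 𝐂 F.Hz) (i : h ∈ F.Hz) (x : G) : p * (h * x * h⁻¹) * p⁻¹ = h * (p * x * p⁻¹) * h⁻¹ := by
  rw [← cj2, ← mem_cent.1 m h i, cj2]

theorem cI0 (m : p ∈ 𝐍 F.S) (n : p ∈ 𝐂 F.Hz) (z : p ∈ 𝐂 F.Z) (e : E2 p) : p ∈ 𝐂 F.I := by
  choose I φ hI using fun c => F.mW (conj_mem_of_norm (F.nW m) (F.x 4 c))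
  have q : ∀ w, w ≠ 0 → I w = w * I 1 ∧ φ w = φ 1 := fun w w0 => by
    obtain ⟨μ, μ0, rfl⟩ := n_sur' w0
    obtain ⟨h, i, r⟩ := F.exz μ0
    have := F.hc n i (F.X 4 1)
    rw [(r.act _).2.2.2.2.1, hI, hI, ← conj_mul, (r.act _).2.2.2.2.1, (r.act _).2.2.2.2.2.2.2.1, mul_one] at this
    generalize I (μ * σ μ) = a1, I 1 = a2, φ 1 = a3, φ (μ * σ μ) = a4 at *
    exact ⟨eq_of_add (F.co [a1, a2, a3, a4, μ] 4 this _), eq_of_add (F.co [a1, a2, a3, a4, μ] 7 this _)⟩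
  have φ0 := av0 F.big (fun a b => by
    have := hI (a + b)
    rw [F.xa 4, ← conj_mul, hI, hI] at this
    generalize I (a + b) = a1, I a = a2, I b = a3, φ (a + b) = a4, φ a = a5, φ b = a6 at *
    exact eq_of_add (F.co [a1, a2, a3, a4, a5, a6] 7 this.symm _)) fun c w => (q c w).2
  have h4 : ∀ c, p * F.X 4 c * p⁻¹ = F.X 4 (I 1 * c) := fun c => by
    by_cases w : c = 0
    · simp [w, F.x0]
    · rw [hI, φ0, F.x0, mul_one, (q c w).1, mul_comm]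
  rw [F.sc e (by decide) h4] at h4
  choose f J g hJ using fun c => F.mI (conj_mem_of_norm (F.nI m) (F.x 5 c))
  have q : ∀ μ, μ ≠ 0 → f μ = μ * σ μ * f 1 ∧ J μ = μ * J 1 ∧ g μ = g 1 := fun μ μ0 => by
    obtain ⟨h, i, r⟩ := F.exz μ0
    have := F.hc n i (F.X 5 1)
    rw [(r.act _).2.2.2.2.2.1, hJ, hJ, ← conj_mul, ← conj_mul, (r.act _).2.2.2.2.1, (r.act _).2.2.2.2.2.1,
      (r.act _).2.2.2.2.2.2.2.1, mul_one] at this
    generalize f μ = a1, f 1 = a2, J μ = a3, J 1 = a4, g μ = a5, g 1 = a6 at *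
    exact ⟨eq_of_add (F.co [a1, a2, a3, a4, a5, a6, μ] 4 this _), eq_of_add (F.co [a1, a2, a3, a4, a5, a6, μ] 5 this _),
      eq_of_add (F.co [a1, a2, a3, a4, a5, a6, μ] 7 this _)⟩
  have ad : ∀ a b, f (a + b) = f a + f b ∧ g (a + b) = g a + g b := fun a b => by
    have := hJ (a + b)
    rw [F.xa 5, ← conj_mul, hJ, hJ] at this
    generalize f (a + b) = a1, f a = a2, f b = a3, g (a + b) = a4, g a = a5, g b = a6, J (a + b) = a7, J a = a8, J b = a9 at *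
    exact ⟨eq_of_add (F.co [a1, a2, a3, a4, a5, a6, a7, a8, a9] 4 this.symm _),
      eq_of_add (F.co [a1, a2, a3, a4, a5, a6, a7, a8, a9] 7 this.symm _)⟩
  have h5 : ∀ c, p * F.X 5 c * p⁻¹ = F.X 5 (J 1 * c) := fun c => by
    by_cases w : c = 0
    · simp [w, F.x0]
    · rw [hJ, av1 F.big (fun a b => (ad a b).1) fun c w => (q c w).1, av0 F.big (fun a b => (ad a b).2) fun c w => (q c w).2.2,
        F.x0, F.x0, mul_one, one_mul, (q c w).2.1, mul_comm]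
  rw [F.sc e (by decide) h5] at h5
  exact cU (by simpa using ⟨fun c => of_fix (by simpa using h4 c), fun c => of_fix (by simpa using h5 c),
    fun c => (mem_cent.1 z _ (F.x 7 c)).symm⟩)

theorem nHz : F.n ∈ 𝐍 F.Hz := mem_norm_of_cj_le (cj_le_iff.2 fun _ m => mem_cj_inv.2 (F.nH m ▸ inv_mem m))

theorem exP (f : Fu F.L t (F.X 7 1)) : ∃ p ∈ 𝐂 F.V ⊓ 𝐂 F.Hz ⊓ 𝐂 (Ot F.L t), p * t * p⁻¹ = t * F.X 7 1 := by
  obtain ⟨x, m, e⟩ := F.b2c f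
  have HS : F.Hz ≤ 𝐍 F.S := fun h m => F.HU m.1 _
  have i := sup_inf_cent_of_comm_le (K := zpowers x ⊔ F.S) (N := F.S) (A := F.Hz) le_sup_right HS
    (cop2' (F.Hod.le inf_le_left) F.pS) (.inr F.pS.nil.sol) (le_centMod.1 (sup_le (zpowers_le.2 (mem_centMod.2 ⟨m.1.1, fun h => F.cmH f.toHy m.1 e⟩))
      (le_centMod.2 ⟨le_norm_self _, comm_le_left HS⟩))).2
  obtain ⟨s, s1, y, y1, rfl⟩ := (mem_sup_norm' (inf_le_left.trans (sup_le (zp_norm.2 m.1.1) (le_norm_self _)))).1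
    (i.ge (mem_sup_left (mem_zpowers x)))
  have j : y ∈ 𝐍 F.S ⊓ 𝐂 F.Z ⊓ 𝐂 (Ot F.L t) ⊓ 𝐂 F.Hz := ⟨by
    simpa using mul_mem (inv_mem (⟨⟨le_norm_self _ s1, F.BZ (F.SB s1)⟩, L_ot (F.SL s1)⟩ : s ∈ 𝐍 F.S ⊓ 𝐂 F.Z ⊓ 𝐂 (Ot F.L t))) m, y1.2⟩
  have e' := tr_mul (tr_one (f.Lt (inv_mem (F.SL s1)))) e
  rw [inv_mul_cancel_left, one_mul, fix_of (F.bz (inv_mem (F.SB s1)) 1)] at e'
  obtain ⟨l, r⟩ := odd_pow y
  replace e' := tr_odd e' (mem_cent.1 j.1.1.2 _ (F.x 7 1)).symm (F.xx 7 1) l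
  replace j := pow_mem j (2 * l + 1)
  generalize y ^ (2 * l + 1) = p at *
  obtain ⟨u, u1, h, h1, q⟩ := F.cBH (y := p * F.n * p⁻¹ * F.n⁻¹)
    (mul_mem (conj_mem_of_norm (F.gB f.toHy e' (cent_le_norm _ j.1.1.2)) F.nB) (inv_mem F.nB))
    (cm_mem' j.2 (norm_le_norm_cent _ F.nHz))
  have o : F.n * p * F.n⁻¹ ∈ 𝐍 F.S := by
    rw [show F.n * p * F.n⁻¹ = (p * F.n * p⁻¹ * F.n⁻¹)⁻¹ * p by group, q]
    exact mul_mem (inv_mem (mul_mem (le_norm_self _ (F.uS u1)) (HS h1))) j.1.1.1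
  have c1 := F.cI0 j.1.1.1 j.2 j.1.1.2 r
  have c2 := F.cI0 o (conj_mem_of_norm (norm_le_norm_cent _ F.nHz) j.2)
    (conj_mem_of_norm (norm_le_norm_cent _ (F.nN _)) j.1.1.2) (r.conj _)
  have c3 : ∀ k ∈ [4, 5, 7], ∀ c, p * (F.n * F.X k c * F.n⁻¹) = F.n * F.X k c * F.n⁻¹ * p := fun k l c => by
    rw [← F.nn p, conj_mul, conj_mul, mem_cent.1 c2 _ (Pa.x_mem l c)]
  refine ⟨p, ⟨⟨cU ?_, j.2⟩, j.1.2⟩, e'⟩
  simp only [List.forall_mem_cons, List.not_mem_nil, IsEmpty.forall_iff, implies_true, and_true, F.nx] at c3 ⊢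
  exact ⟨fun c => (mem_cent.1 c1 _ (F.x 4 c)).symm, fun c => (mem_cent.1 c1 _ (F.x 5 c)).symm, c3.2.2, c3.2.1, c3.1⟩

end Oc
end CF.Of
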