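/-
Standard subgroups of type `²F₄(q)`: a translation centralising `B`.
-/
import Cfsg.Agent.Of.J1
set_option autoImplicit false
set_option linter.unusedSectionVars false
set_option synthInstance.maxSize 100000
set_option synthInstance.maxHeartbeats 200000

namespace CF.Of
open Subgroup Cfsg CF.BG CF.Sig CF.Ab2 CF.Rd
open scoped commutatorElement

local notation "σ" => Pa.Ti.σ

variable {K : Type*} [Field K] [Pa.Ti K] [Finite K] {G : Type*} [Group G] [Finite G] {g h h' s u x y t p q v b : G} {a c d μ ν : K}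
  {I J : List ℕ} {B M N R V : Subgroup G} {k : ℕ}

theorem perf (e : B ≤ ⁅B, B⁆) (m : p ∈ 𝐍 M) (n : B ≤ 𝐍 M) (i : p ∈ centMod B N) (j : B ≤ centMod N M) : p ∈ centMod B M := by
  have i := (le_centMod.1 (zpowers_le.2 i)).2
  have j : ⁅⁅zpowers p, B⁆, B⁆ ≤ M := (commutator_mono i le_rfl).trans (commutator_comm B N ▸ (le_centMod.1 j).2)
  exact mem_centMod.2 ⟨m, fun b l => cm_symm (three_subgroup n n (zp_norm.2 m) (by rwa [commutator_comm B (zpowers p)]) j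
    (commutator_mem_commutator (e l) (mem_zpowers p)))⟩

theorem eqv (b q p : G) : ⁅b * q * b⁻¹, p⁆ = b * (⁅q, p⁆ * (p * ⁅q, ⁅p⁻¹, b⁻¹⁆⁆ * p⁻¹)) * b⁻¹ := by
  simp only [commutatorElement_def]; group

theorem cm1 (e : x * y = y * x) : ⁅x, y⁆ = 1 := commutatorElement_eq_one_iff_mul_comm.2 e
theorem of_cm1 (e : ⁅x, y⁆ = 1) : x * y = y * x := commutatorElement_eq_one_iff_mul_comm.1 e

namespace Oc
variable (F : Oc K G)

theorem BΦV : F.B ≤ centMod F.Φ F.V := F.B_le' (fun s m => mem_centMod.2 ⟨(F.nrm _ _) m, fun _ => F.cmm _ _ _ m⟩)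
  (zp_norm.1 (norm_centMod (zp_norm.2 (F.nN _)) (zp_norm.2 (F.nN _))))

theorem CV : F.B ⊓ 𝐂 F.V = F.Φ := le_antisymm (fun _ m => F.cV (F.uS (F.CW m.1.1 (cent_anti (Pa.U_mono (by decide)) m.2)))
  fun k l => (mem_cent.1 m.2 k l).symm) (le_inf ((F.US _).trans F.SB) (F.cen _ _))

theorem VH (m : v ∈ F.V) (n : v ∈ 𝐂 F.Hz) : v ∈ F.Z := by
  obtain ⟨a, _, rfl, c, _, rfl, rfl⟩ := F.nf (F.cSH (F.uS m) n)
  obtain rfl := F.cm [a, c] 6 m a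
  exact F.mem [c]

theorem yH (c : K) : F.X 6 c ∈ 𝐂 F.Hz := mem_cent.2 fun _ m => let ⟨_, p⟩ := F.tz m; of_fix (p.act c).2.2.2.2.2.2.1

/-- a translation acting trivially on `V` and `B / V` -/
structure P1 (t p : G) : Prop where
  cV : p ∈ 𝐂 F.V
  cH : p ∈ 𝐂 F.Hz
  cO : p ∈ 𝐂 (Ot F.L t)
  tr : p * t * p⁻¹ = t * F.X 7 1
  cB : p ∈ centMod F.B F.V

theorem p1 (f : Fu F.L t (F.X 7 1)) : ∃ p, F.P1 t p := by
  obtain ⟨p, m, e⟩ := F.exP f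
  have n := F.gB f.toHy e (cent_le_norm _ (cent_anti (Pa.U_mono (by decide)) m.1.1))
  exact ⟨p, m.1.1, m.1.2, m.2, e, perf (N := F.Φ) F.Bp (cent_le_norm _ m.1.1) F.BV (F.CV ▸ mem_centMod.2
    ⟨zp_norm.1 (norm_inf_cent (zp_norm.2 n) (zp_norm.2 (cent_le_norm _ m.1.1))), fun b l =>
      ⟨cm_mem n l, cm_mem' m.1.1 (norm_le_norm_cent _ (F.BV l))⟩⟩) F.BΦV⟩

variable {F}

namespace P1
variable (P : F.P1 t p)
include P

theorem cZ : p ∈ 𝐂 F.Z := cent_anti (Pa.U_mono (by decide)) P.cV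

theorem bV (m : b ∈ F.B) : ⁅b, p⁆ ∈ F.V := cm_symm ((mem_centMod.1 P.cB).2 b m)

theorem ev (m : b ∈ F.B) (n : q ∈ F.Q) : ∃ z ∈ F.Z, ⁅b * q * b⁻¹, p⁆ = b * ⁅q, p⁆ * b⁻¹ * z := by
  have := cm_symm (F.VQ ((mem_centMod.1 (inv_mem P.cB)).2 _ (inv_mem m)) n)
  exact ⟨_, this, by rw [eqv, cfix P.cZ this, ← conj_mul, cfix (F.BZ m) this]⟩

theorem ΦZ : F.Φ ≤ Cm F.Z p := Pa.U_le fun k l c => ⟨(F.nrm _ _) (Pa.x_mem l c), by
  by_cases e : k = 6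
  · subst e
    exact F.VH (P.bV (F.SB (F.x 6 c))) (cm_mem (le_norm_self _ (F.yH c)) P.cH)
  · rw [cm1 (mem_cent.1 P.cV _ (Pa.x_mem (by simpa [e] using l) c))]; exact one_mem _⟩

theorem xW (a : K) : ⁅F.X 2 a, p⁆ ∈ F.W := F.Z2S (F.uS (P.bV (F.SB (F.x 2 a)))) fun s m => cm_symm (by
  obtain ⟨z, i, e⟩ := P.ev (F.SB m) (F.x 2 a)
  have j : ⁅s, F.X 2 a⁆ ∈ F.Φ := F.cmm _ _ _ m (F.x 2 a (J := [2]))
  have l := P.bV (F.SB (F.x 2 a))
  rw [cj_eq s, cml, cfix (F.CV.ge j).2 l] at e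
  rw [commutatorElement_def s, eq_mul_inv_of_mul_eq e.symm, mul_assoc ⁅F.X 2 a, p⁆]
  exact conj_mem_of_norm ((F.nrm _ [7]) l) (mul_mem (P.ΦZ j).2 (inv_mem i)))

theorem hc (i : h ∈ F.Hz) (x : G) : ⁅h * x * h⁻¹, p⁆ = h * ⁅x, p⁆ * h⁻¹ := by rw [cj_comm', cfix' P.cH i]

theorem adj (f : Hy F.L t) : ∃ p, F.P1 t p ∧ ∀ a, ⁅F.X 2 a, p⁆ ∈ F.Z := by
  choose I φ e using fun a => F.mW (P.xW a)
  have y : F.X 6 (I 1) ∈ F.Φ := F.x 6 _
  refine ⟨F.X 6 (I 1) * p, ⟨mul_mem (F.CV.ge y).2 P.cV, mul_mem (F.yH _) P.cH, mul_mem (L_ot (F.uL y)) P.cO, by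
    rw [tr_mul (tr_one (f.Lt (F.uL y))) P.tr, one_mul, fix_of (F.bz (F.CV.ge y).1 1)], mul_mem (mem_centMod.2
      ⟨F.BV (F.CV.ge y).1, fun b l => cm_symm ((mem_centMod.1 (F.BΦV l)).2 _ y)⟩) P.cB⟩, fun a => ?_⟩
  by_cases n : a = 0
  · simp [n, F.x0]
  obtain ⟨μ, μ0, rfl⟩ := n_sur' n
  obtain ⟨h, i, r⟩ := F.exz μ0
  have := P.hc i (F.X 2 1)
  rw [(r.act _).2.2.1, mul_one] at this
  rw [cmr, this, e, ← conj_mul (b := h), (r.act _).2.2.2.2.1, (r.act _).2.2.2.2.2.2.2.1]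
  generalize I 1 = a, φ 1 = b
  exact F.mem [μ, a, b]

variable (e : ∀ a, ⁅F.X 2 a, p⁆ ∈ F.Z)
include e

theorem QZ : F.Q ≤ Cm F.Z p := by
  have n : ∀ b ∈ F.B, ∀ q ∈ F.Q ⊓ Cm F.Z p, b * q * b⁻¹ ∈ F.Q ⊓ Cm F.Z p := fun b m q l => by
    obtain ⟨z, i, e⟩ := P.ev m l.1
    have := conj_mem_of_norm (F.BQ m) l.1
    exact ⟨this, (F.nrm _ _) this, e ▸ mul_mem (conj_mem_of_norm (cent_le_norm _ (F.BZ m)) l.2.2) i⟩
  have a : ∀ k ∈ [4, 5, 6, 7, 8, 10], ∀ c, F.X k c ∈ F.Q ⊓ Cm F.Z p := fun k l c => ⟨F.le (Pa.x_mem l c), P.ΦZ (Pa.x_mem l c)⟩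
  have a2 : ∀ c, F.X 2 c ∈ F.Q ⊓ Cm F.Z p := fun c => ⟨F.x 2 c, (F.nrm Pa.R _) (F.x 2 c), e c⟩
  have a11 : ∀ c, F.X 11 c ∈ F.Q ⊓ Cm F.Z p := fun c => (F.nx c).1 ▸ n _ F.nB _ (a2 c)
  have a9 : ∀ c, F.X 9 c ∈ F.Q ⊓ Cm F.Z p := fun c => by
    have i : (F.X 2 (c * c * σ c))⁻¹ * ((F.X 0 c)⁻¹ * F.X 11 1 * (F.X 0 c)⁻¹⁻¹ * (F.X 11 1)⁻¹ * (F.X 9 c)⁻¹) ∈ F.Φ := F.mem [c]
    have := mul_mem (inv_mem (mul_mem (a2 (c * c * σ c)) (Pa.U_le a i))) (mul_mem (n _ (inv_mem (F.SB (F.x 0 c))) _ (a11 1)) (inv_mem (a11 1)))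
    simpa [mul_assoc] using this
  have a3 : ∀ c, F.X 3 c ∈ F.Q ⊓ Cm F.Z p := fun c => (F.nx c).2.2.2.2.2.2.2.1 ▸ n _ F.nB _ (a9 c)
  refine (Pa.U_le fun k l => ?_ : F.Q ≤ F.Q ⊓ Cm F.Z p).trans inf_le_right
  by_cases i : k ∈ [4, 5, 6, 7, 8, 10]
  · exact a k i
  obtain rfl | rfl | rfl | rfl : k = 2 ∨ k = 3 ∨ k = 9 ∨ k = 11 := by simp at l i; omega
  exacts [a2, a3, a9, a11]

theorem lam {x : K → G} (m : ∀ c, x c ∈ F.Q) (ad : ∀ a b, ∃ v ∈ F.V, x (a + b) = x a * x b * v) :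
    ∃ κ : K → K, (∀ c, p * x c * p⁻¹ = x c * F.X 7 (κ c)) ∧ (∀ a b, κ (a + b) = κ a + κ b) ∧
      ((∀ c, c ≠ 0 → ∃ h ∈ F.Hz, h * x 1 * h⁻¹ = x c) → ∀ c, p * x c * p⁻¹ = x c) := by
  choose κ H using fun c => F.mZ (P.QZ e (inv_mem (m c))).2
  have q : ∀ c, p * x c * p⁻¹ = x c * F.X 7 (κ c) := fun c => by
    rw [← H, commutatorElement_def]; group
  have ad' : ∀ a b, κ (a + b) = κ a + κ b := fun a b => by
    obtain ⟨v, i, j⟩ := ad a b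
    have := q (a + b)
    rw [j, ← conj_mul, ← conj_mul, q, q, cfix P.cV i, mul_assoc _ v, F.bz (F.SB (F.uS i)), mul_assoc (x a), ← mul_assoc (F.X 7 _),
      ← F.bz (F.QB (m b)), mul_assoc (x b), ← F.xa 7, ← mul_assoc, ← mul_assoc, mul_left_inj, mul_right_inj] at this
    exact F.xinj (by decide) this.symm
  refine ⟨κ, q, ad', fun o c => ?_⟩
  rw [q, av0 F.big ad' fun c n => ?_, F.x0, mul_one]
  obtain ⟨h, i, j⟩ := o c n
  have := F.hc P.cH i (x 1)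
  rw [j, q, q, ← conj_mul, j, cfix (F.BZ (F.HB i)) (F.x 7 _), mul_right_inj] at this
  exact F.xinj (by decide) this

theorem nZ : ⁅F.n, p⁆ ∈ F.Z := F.VH (P.bV F.nB) (cm_mem (norm_le_norm_cent _ F.nHz) P.cH)

theorem acts : ∃ κ : K → K, (∀ a b, κ (a + b) = κ a + κ b) ∧ (∀ c, p * F.X 6 c * p⁻¹ = F.X 6 c * F.X 7 (κ c)) ∧
    ∀ k ∈ [2, 3, 4, 5, 7, 8, 9, 10, 11], ∀ c, p * F.X k c * p⁻¹ = F.X k c := by
  obtain ⟨κ, h1, h2, -⟩ := P.lam e (F.x 6 ·) fun a b => ⟨F.X 7 (a * σ b), F.x 7 _, F.eq [a, b]⟩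
  obtain ⟨-, -, -, h3⟩ := P.lam e (F.x 2 ·) fun a b => ⟨1, one_mem _, F.eq [a, b]⟩
  obtain ⟨-, -, -, h4⟩ := P.lam e (F.x 3 ·) fun a b => ⟨F.X 4 (a * σ b), F.x 4 _, F.eq [a, b]⟩
  replace h3 := h3 fun c n => let ⟨μ, μ0, q⟩ := n_sur' n; let ⟨h, i, r⟩ := F.exz μ0; ⟨h, i, by rw [(r.act 1).2.2.1, mul_one, q]⟩
  replace h4 := h4 fun c n => let ⟨h, i, r⟩ := F.exz n; ⟨h, i, by rw [(r.act 1).2.2.2.1, mul_one]⟩
  have q : ∀ x ∈ F.Q, p * x * p⁻¹ = x → p * (F.n * x * F.n⁻¹) * p⁻¹ = F.n * x * F.n⁻¹ := fun x m r => by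
    rw [show p * (F.n * x * F.n⁻¹) * p⁻¹ = ⁅F.n, p⁆⁻¹ * (F.n * (p * x * p⁻¹) * F.n⁻¹) * ⁅F.n, p⁆⁻¹⁻¹ by
      simp only [commutatorElement_def]; group, r,
      cfix' (F.BZ (conj_mem_of_norm (le_norm_self _ F.nB) (F.QB m))) (inv_mem (P.nZ e))]
  have h9 := fun c => q _ (F.x 3 c) (h4 c)
  have h11 := fun c => q _ (F.x 2 c) (h3 c)
  simp only [F.nx] at h9 h11
  refine ⟨κ, h2, h1, ?_⟩
  simp only [List.forall_mem_cons, List.not_mem_nil, IsEmpty.forall_iff, implies_true, and_true]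
  exact ⟨h3, h4, fun c => cfix P.cV (F.x 4 c), fun c => cfix P.cV (F.x 5 c), fun c => cfix P.cV (F.x 7 c),
    fun c => cfix P.cV (F.x 8 c), h9, fun c => cfix P.cV (F.x 10 c), h11⟩

theorem cQ (f : Hy F.L t) : p ∈ 𝐂 F.Q := by
  obtain ⟨κ, ad, h6, H⟩ := P.acts e
  suffices k0 : ∀ c, κ c = 0 from cU fun k l c => of_fix (by
    by_cases i : k = 6
    · rw [i, h6, k0, F.x0, mul_one]
    · exact H k (by simpa [i] using l) c)
  simp only [List.forall_mem_cons, List.not_mem_nil, IsEmpty.forall_iff, implies_true, and_true, ← MulAut.conj_apply] at H h6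
  obtain ⟨h2, h3, h4, h5, h7, h8, h9, h10, h11⟩ := H
  have y : ∀ u, ∃ a c, MulAut.conj p (F.X 0 u) = F.X 0 u * (F.X 4 a * F.X 5 (κ u) * F.X 7 c) ∧
      ∀ r, κ (σ r * u) = r * κ u := fun u => by
    obtain ⟨a, b, c, d, e, i⟩ := F.mV (P.bV (inv_mem (F.SB (F.x 0 u))))
    have j : MulAut.conj p (F.X 0 u) = F.X 0 u * (F.X 4 a * F.X 5 b * F.X 7 c * F.X 8 d * F.X 10 e) := by
      rw [← i, commutatorElement_def, MulAut.conj_apply]; group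
    have r1 := congrArg (MulAut.conj p) (F.eq [u] : F.X 2 1 * F.X 0 u = F.X 0 u * F.X 2 1)
    have r2 := congrArg (MulAut.conj p) (F.eq [u] : F.X 3 1 * F.X 0 u = F.X 0 u * F.X 2 u * F.X 3 1)
    have r3 := fun r => congrArg (MulAut.conj p) (F.eq [u, r] : F.X 9 r * F.X 0 u = F.X 0 u * F.X 2 (r * u * σ u) *
      F.X 3 (r * σ u) * F.X 4 (r * σ r * u * u * σ u) * F.X 6 (σ r * u) * F.X 9 r)
    simp only [map_mul, j, h2, h3, h4, h6, h9] at r1 r2 r3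
    obtain rfl := F.co [u, a, b, c, d, e] 7 r1 e
    obtain rfl := F.co [u, a, b, c, d] 7 r2 d
    have r4 : ∀ r, κ (σ r * u) = r * b := fun r => by
      have := r3 r
      generalize κ (σ r * u) = w at *
      exact eq_of_add (F.co [u, a, b, c, r, w] 7 this _)
    obtain rfl : κ u = b := by simpa using r4 1
    exact ⟨a, c, by simpa [F.x0] using j, r4⟩
  choose A φ y k using y
  have h1 : ∀ u, MulAut.conj p (F.X 1 u) = F.X 1 u * F.X 4 (κ u) := fun u => by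
    obtain ⟨u, rfl⟩ := n_sur u
    rw [← (F.eq [u] : F.X 0 u * F.X 0 u = F.X 1 (u * σ u)), map_mul, y, mul_comm u, k]
    generalize A u = a, κ u = b, φ u = c
    exact F.eq [u, a, b, c]
  have φ0 := av0 (f := φ) F.big (fun a b => by
    have := congrArg (MulAut.conj p) (F.eq [a, b] : F.X 0 a * F.X 0 b = F.X 0 (a + b) * F.X 1 (a * σ b))
    simp only [map_mul, y, h1] at this
    generalize A a = a1, A b = a2, A (a + b) = a3, κ a = a4, κ b = a5, κ (a + b) = a6, φ a = a7, φ b = a8, φ (a + b) = a9,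
      κ (a * σ b) = a10 at this
    exact eq_of_add (F.co [a, b, a1, a2, a3, a4, a5, a6, a7, a8, a9, a10] 7 this.symm _)) fun c n => by
    obtain ⟨μ, rfl⟩ := σ_sur c
    obtain ⟨h, i, r⟩ := F.exz (μ := μ) (by rintro rfl; simp at n)
    have := F.hc P.cH i (F.X 0 1)
    simp only [← MulAut.conj_apply p, y, (r.act _).1, mul_one] at this
    simp only [← conj_mul (b := h), r.act, mul_one] at this
    generalize A (σ μ) = a1, A 1 = a2, κ (σ μ) = a3, κ 1 = a4, φ (σ μ) = a5, φ 1 = a6 at this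
    exact eq_of_add (F.co [μ, a1, a2, a3, a4, a5, a6] 7 this _)
  simp only [φ0, F.x0, mul_one] at y
  have cm : ∀ {g p : G} x, MulAut.conj (g * p * g⁻¹) (g * x * g⁻¹) = g * MulAut.conj p x * g⁻¹ := fun x => by simp [mul_assoc]
  have t3 := tr_cj P.tr (f.Lt F.mL)
  have b3 := fun c => cm (g := F.m) (p := p) (F.X 6 c)
  have b4 := fun c => cm (g := F.m) (p := p) (F.X 7 c)
  have b7 := fun c => cm (g := F.m) (p := p) (F.X 4 c)
  have b8 := fun c => cm (g := F.m) (p := p) (F.X 2 c)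
  have b9 := fun c => cm (g := F.m) (p := p) (F.X 0 c)
  have b10 := fun c => cm (g := F.m) (p := p) (F.X 1 c)
  simp only [h1, h2, h4, h6, h7, y, ← conj_mul (b := F.m), F.mx] at t3 b3 b4 b7 b8 b9 b10
  generalize F.m * p * F.m⁻¹ = β at *
  have t7 := tr_cj t3 (f.Lt F.nL)
  have c3 := fun c => cm (g := F.n) (p := β) (F.X 9 c)
  have c4 := fun c => cm (g := F.n) (p := β) (F.X 10 c)
  have c7 := fun c => cm (g := F.n) (p := β) (F.X 7 c)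
  simp only [b7, b9, b10, ← conj_mul (b := F.n), F.nx] at t7 c3 c4 c7
  generalize F.n * β * F.n⁻¹ = γ at *
  have q : ∀ x y, MulAut.conj β (MulAut.conj γ x) = MulAut.conj γ (MulAut.conj β y) →
      (γ * β)⁻¹ * (β * γ) * x * ((γ * β)⁻¹ * (β * γ))⁻¹ = y := fun x y e => by
    simp only [MulAut.conj_apply] at e
    calc _ = (γ * β)⁻¹ * (β * (γ * x * γ⁻¹) * β⁻¹) * (γ * β) := by group
      _ = _ := by rw [e]; group
  rw [← MulAut.conj_apply] at t3 t7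
  obtain ⟨z, z1, s, s1, r⟩ := F.dc (f.nA (mem_cent1.2 (of_fix (q t t (by
    simp only [t3, t7, map_mul, b10, c4, mul_assoc, mul_right_inj]
    generalize κ 1 = a
    exact F.eq [a]))))) (cU (by
    simp only [List.forall_mem_cons, List.not_mem_nil, IsEmpty.forall_iff, implies_true, and_true]
    exact ⟨fun c => of_fix (q _ _ (by simp only [map_mul, b4, b7, c4])), fun c => of_fix (q _ _ (by simp only [b7, c7]))⟩))
  have w : ∀ u, s * F.X 3 u * s⁻¹ = F.X 3 u * F.X 7 (κ (κ u)) := fun u => by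
    have := q (F.X 3 u) (F.X 3 u * F.X 7 (κ (κ u))) (by
      simp only [map_mul, b3, b7, b8, c3, c4, c7]
      generalize κ u = b, A u = c
      generalize κ b = a
      exact F.eq [u, a, b, c])
    rwa [← r, cj2, cfix z1 (conj_mem_of_norm (le_norm_self _ (F.uL s1)) (F.xL 3 u))] at this
  obtain ⟨a0, _, rfl, a1, _, rfl, a2, _, rfl, a3, _, rfl, a4, _, rfl, a5, _, rfl, a6, _, rfl, a7, _, rfl, a8, _, rfl, a9, _, rfl, a10, _, rfl, rfl⟩ := F.nfQ2 s1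
  have w1 := w 1
  generalize κ (κ 1) = w0 at w1
  obtain rfl := F.co [a0, a1, a2, a3, a4, a5, a6, a7, a8, a9, a10, w0] 2 w1 a0
  obtain rfl := F.co [a1, a2, a3, a4, a5, a6, a7, a8, a9, a10, w0] 5 w1 a6
  have w2 : ∀ u, κ (κ u) = a8 * u := fun u => by
    have := w u
    generalize κ (κ u) = w0 at this
    exact eq_of_add (F.co [a1, a2, a3, a4, a5, a7, a8, a9, a10, w0, u] 7 this _)
  have w3 : ∀ r, r * κ (κ 1) = a8 * r ^ 2 := fun r => by rw [← w2, ← σσ, ← mul_one (σ (σ r)), k, k]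
  obtain ⟨r, r0, -, r1, -⟩ := ex3 F.big
  have w4 : κ (κ 1) = 0 := (mul_eq_zero.1 (by linear_combination w3 r - r ^ 2 * w3 1 + aa (r ^ 2 * κ (κ 1)) :
    r * (r + 1) * κ (κ 1) = 0)).resolve_left (mul_ne_zero r0 r1)
  obtain ⟨l, i⟩ := σ_sur (κ 1)
  rw [← i, ← mul_one (σ l), k, ← i] at w4
  intro c
  obtain ⟨c, rfl⟩ := σ_sur c
  rw [← mul_one (σ c), k, ← i, show l = 0 by simpa using w4, map_zero, mul_zero]

end P1

theorem j0 (F : Oc K G) (f : Fu F.L t (F.X 7 1)) : ∃ x ∈ 𝐂 F.B ⊓ 𝐂 (Ot F.L t), E2 x ∧ x * t * x⁻¹ = t * F.X 7 1 := by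
  obtain ⟨p, P⟩ := F.p1 f
  obtain ⟨p, P, e⟩ := P.adj f.toHy
  have q := P.cQ e f.toHy
  have i := perf (N := F.Z) (M := ⊥) F.Bp (by simp [norm_bot]) (by simp [norm_bot]) (mem_centMod.2 ⟨cent_le_norm _ P.cZ, fun b l =>
    F.cQ (F.uS (cm_symm (P.bV l))) fun k j => (mem_cent.1 (cm_mem' q (norm_le_norm_cent _ (F.BQ l))) k j).symm⟩)
    (centMod_bot F.Z ▸ F.BZ)
  rw [centMod_bot] at i
  obtain ⟨l, r⟩ := odd_pow p
  exact ⟨_, pow_mem (mem_inf.2 ⟨i, P.cO⟩) _, r, tr_odd P.tr (mem_cent.1 P.cZ _ (F.x 7 1)).symm (F.xx 7 1) l⟩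

end Oc
end CF.Of
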