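/-
Standard subgroups of type `²F₄(q)`: the doubled octagon over a quadratic ring.
-/
import Cfsg.Agent.Of.J2
set_option autoImplicit false
set_option linter.unusedSectionVars false

namespace CF.Of
open Subgroup Cfsg CF.BG CF.Sig CF.Ab2 CF.Rd
open scoped commutatorElement QuadraticAlgebra

local notation "σ" => Pa.Ti.σ

variable {K : Type*} [Field K] [Pa.Ti K] [Finite K] {G : Type*} [Group G] [Finite G] {t : G} {ε γ δ : K}

/-- the quadratic ring -/
abbrev Rn (δ : K) := QuadraticAlgebra K δ 1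

/-- the twisted product -/
def Mu (ε γ : K) (α β : Rn δ) : Rn δ :=
  ⟨σ α.re * β.re + σ α.im * (ε * β.re + γ * β.im), σ α.re * β.im + σ α.im * (β.re + (1 + ε) * β.im)⟩

/-- the twist -/
def Th (ε : K) (α : Rn δ) : Rn δ := ⟨σ α.re + ε * σ α.im, σ α.im⟩

theorem ra (α : Rn δ) : α + α = 0 := by ext <;> exact aa _
theorem Mu_one (β : Rn δ) : Mu ε γ 1 β = β := by ext <;> simp [Mu]
theorem Mu_eq (α β : Rn δ) : Mu ε δ α β = Th ε α * β := by ext <;> simp [Mu, Th] <;> ring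

theorem Th_mul (h : σ δ + δ + ε + ε ^ 2 = 0) (α β : Rn δ) : Th ε (α * β) = Th ε α * Th ε β := by
  ext <;> simp [Th]
  · linear_combination σ α.im * σ β.im * (h - aa δ - aa (ε ^ 2))
  · linear_combination -aa (ε * σ α.im * σ β.im)

theorem two_sol {f : K → K} (ad : ∀ a b, f (a + b) = f a + f b) (k : ∀ a, f a = 0 → a = 0 ∨ a = 1) (v : K) :
    ∃ a b, ∀ e, f e = v → e = a ∨ e = b := by
  by_cases h : ∃ a, f a = v
  · obtain ⟨a, rfl⟩ := h
    exact ⟨a, a + 1, fun e p => (k (e + a) (by rw [ad, p, aa])).imp eq_of_add fun q => by linear_combination q - aa a⟩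
  · exact ⟨0, 0, fun e p => (h ⟨e, p⟩).elim⟩

theorem ex_d (ε : K) : ∃ d, ε = d + σ d ∨ ε = d + σ d + 1 := by
  have φ := Finite.equivFin K
  have k : ∀ x : K, x + σ x ≠ 1 := fun x e => by
    have e' := congrArg σ e
    rw [map_add, σσ, map_one] at e'
    rcases mul_eq_zero.1 (by linear_combination e' - e + aa x : x * (x + 1) = 0) with h | h
    · simp [h] at e
    · rw [eq_of_add h, map_one, aa] at e; exact zero_ne_one e
  obtain ⟨d, e⟩ := Finite.surjective_of_injective (f := fun x : K => x + σ x + if φ x < φ (x + 1) then 0 else 1) (fun x y e => by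
    have z : x + σ x = y + σ y → (φ x < φ (x + 1) ↔ φ y < φ (y + 1)) → x = y := fun p q =>
      (σfix (c := x + y) (by rw [map_add]; linear_combination p - aa x + aa (σ y))).elim eq_of_add fun r => by
        obtain rfl : x = y + 1 := by linear_combination r - aa y
        rw [add_assoc, aa, add_zero] at q
        rcases lt_trichotomy (φ y) (φ (y + 1)) with l | l | l
        exacts [(lt_asymm l (q.2 l)).elim, by simpa using φ.injective l, (lt_asymm l (q.1 l)).elim]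
    beta_reduce at e
    split_ifs at e with p q q
    exacts [z (by simpa using e) (iff_of_true p q), (k (x + y) (by rw [map_add]; linear_combination e + aa y + aa (σ y))).elim,
      (k (x + y) (by rw [map_add]; linear_combination -e + aa x + aa (σ x))).elim, z (by simpa using e) (iff_of_false p q)]) ε
  refine ⟨d, ?_⟩
  beta_reduce at e
  split_ifs at e
  exacts [.inl (by rw [← e, add_zero]), .inr e.symm]

theorem swp {P Q : Rn δ → G} (hP : ∀ α β, P (α + β) = P α * P β) (hQ : ∀ α β, Q (α + β) = Q α * Q β)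
    (c : ∀ α β, Commute (P α) (Q β)) {a b : G} {u u' : Rn δ} (e : u' * u = 1) (aP : ∀ α, ⁅a, P α⁆ = Q (α * u'))
    (aQ : ∀ α, Commute a (Q α)) (bQ : ∀ α, ⁅b, Q α⁆ = P (α * u)) (bP : ∀ α, Commute b (P α)) (α : Rn δ) :
    a * b * a * P α * (a * b * a)⁻¹ = Q (α * u') ∧ a * b * a * Q α * (a * b * a)⁻¹ = P (α * u) := by
  have p0 : P 0 = 1 := by simpa using hP 0 0
  have q0 : Q 0 = 1 := by simpa using hQ 0 0
  constructor
  · rw [cj2, cj2, cj_eq a (P α), aP, ← conj_mul (b := b), fix_of (bP _), cj_eq b, bQ, mul_assoc α, e, mul_one, (c _ _).eq, mul_assoc (Q _), ← hP,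
      ra, p0, mul_one, fix_of (aQ _)]
  · rw [cj2, cj2, fix_of (aQ _), cj_eq b, bQ, ← conj_mul, fix_of (aQ _), cj_eq a, aP, mul_assoc α, mul_comm u, e, mul_one,
      ← (c _ _).eq, mul_assoc, ← hQ, ra, q0, mul_one]

/-- commuting directions -/
abbrev Cd (i j : Fin 16) : Prop := j = 1 + i ∨ j = 3 + i ∨ i.1 % 2 = 1 ∧ (j = 2 + i ∨ j = 4 + i)
/-- directions at distance five -/
abbrev R5 (i j k : Fin 16) : Prop := j = 5 + i ∧ k = (if i.1 % 2 = 1 then 2 else 3) + i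
/-- directions at distance six -/
abbrev R6 (i j a b c : Fin 16) : Prop := i.1 % 2 = 1 ∧ j = 6 + i ∧ a = 2 + i ∧ b = 3 + i ∧ c = 4 + i

/-- the doubled octagon -/
structure Rg (t : G) (ε γ : K) (W : Fin 16 → Rn δ → G) : Prop where
  add : ∀ i α β, W i (α + β) = W i α * W i β
  inj : ∀ i : Fin 16, i.1 % 2 = 1 → ∀ α, W i α = 1 → α = 0
  tW : ∀ i α, t * W i α * t⁻¹ = W i ⟨α.re + α.im, α.im⟩
  cd : ∀ i j, Cd i j → ∀ α β, Commute (W i α) (W j β)
  c4 : ∀ i : Fin 16, i.1 % 2 = 0 → ∀ β, Commute (W i 1) (W (4 + i) β) ∧ Commute (W i β) (W (4 + i) 1)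
  r5 : ∀ i j k, R5 i j k → ∀ α β, ⁅W i α, W j β⁆ = W k (α * β)
  r6 : ∀ i j a b c, R6 i j a b c → ∀ α β, ⁅W i α, W j β⁆ = W a (Mu ε γ α β) * W b (α * β) * W c (Mu ε γ β α)

/-- the two halves of the doubled octagon -/
structure Hf (t : G) (Y : Bool → Fin 16 → K → G) : Prop where
  add : ∀ b i c d, Y b i (c + d) = Y b i c * Y b i d
  inj : ∀ b (i : Fin 16), i.1 % 2 = 1 → Y b i 1 ≠ 1
  tY : ∀ b i c, t * Y b i c * t⁻¹ = Y (!b) i c
  cd : ∀ i j, j = i ∨ Cd i j ∨ Cd j i → ∀ b b' c d, Commute (Y b i c) (Y b' j d)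
  r5 : ∀ i j k, R5 i j k ∨ R5 j i k → ∀ b c d, ⁅Y b i c, Y b j d⁆ = Y b k (c * d) ∧ Commute (Y b i c) (Y (!b) j d)

namespace Rg
variable {W : Fin 16 → Rn δ → G} (J : Rg t ε γ W) {α β : Rn δ}
include J

theorem w0 (i : Fin 16) : W i 0 = 1 := by simpa using J.add i 0 0
theorem sq (i : Fin 16) (α : Rn δ) : W i α * W i α = 1 := by rw [← J.add, ra, J.w0]
theorem inj' (i : Fin 16) (e : W i α = W i β) (h : i.1 % 2 = 1 := by decide) : α = β := by
  linear_combination J.inj i h (α + β) (by rw [J.add, e, J.sq]) - ra β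

theorem cm (i j : Fin 16) (α β : Rn δ) (h : j = i ∨ Cd i j ∨ Cd j i := by decide) : Commute (W i α) (W j β) := by
  rcases h with rfl | h | h
  exacts [by rw [Commute, SemiconjBy, ← J.add, ← J.add, add_comm], J.cd _ _ h _ _, (J.cd _ _ h _ _).symm]

theorem k0 (i j : Fin 16) (h : j = i ∨ Cd i j ∨ Cd j i := by decide) : ⁅W i α, W j β⁆ = 1 := cm1 (J.cm i j α β h)

theorem k4 (i j : Fin 16) (h : i.1 % 2 = 0 ∧ j = 4 + i ∨ j.1 % 2 = 0 ∧ i = 4 + j := by decide) : Commute (W i β) (W j 1) := by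
  rcases h with ⟨h, rfl⟩ | ⟨h, rfl⟩
  exacts [(J.c4 _ h _).2, (J.c4 _ h _).1.symm]

theorem k5 (i j k : Fin 16) (h : R5 i j k ∨ R5 j i k := by decide) : ⁅W i α, W j β⁆ = W k (α * β) := by
  rcases h with h | h
  exacts [J.r5 _ _ _ h _ _, by rw [← commutatorElement_inv, J.r5 _ _ _ h, inv_sq (J.sq _ _), mul_comm]]

theorem tri (a b c : Fin 16) (h : Cd a b ∧ Cd a c ∧ Cd b c := by decide) {x y z x' y' z' : Rn δ} :
    W a x * W b y * W c z * (W a x' * W b y' * W c z') = W a (x + x') * W b (y + y') * W c (z + z') := by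
  rw [J.add, J.add, J.add, ((J.cd _ _ h.2.1 _ _).mul_left (J.cd _ _ h.2.2 _ _)).symm.mul_mul_mul_comm,
    (J.cd _ _ h.1 _ _).symm.mul_mul_mul_comm]

theorem k6 (i j a b c : Fin 16) (h : R6 i j a b c := by decide) :
    ⁅W i α, W j β⁆ = W a (Mu ε γ α β) * W b (α * β) * W c (Mu ε γ β α) := J.r6 _ _ _ _ _ h _ _

theorem k6' (i j a b c : Fin 16) (h : R6 i j a b c := by decide) :
    ⁅W j β, W i α⁆ = W a (Mu ε γ α β) * W b (α * β) * W c (Mu ε γ β α) := by
  rw [← commutatorElement_inv, J.k6 i j a b c h, inv_sq]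
  rw [J.tri a b c (by obtain ⟨h, -, rfl, rfl, rfl⟩ := h; revert i; decide), ra, ra, ra, J.w0, J.w0, J.w0, mul_one, mul_one]

theorem key (big : 4 < Nat.card K) : γ = δ ∧ δ = ε + σ ε := by
  obtain ⟨a, b, p⟩ := two_sol (f := fun e : K => e * e + e) (fun a b => by linear_combination aa (a * b))
    (fun a h => (mul_eq_zero.1 (by linear_combination h : a * (a + 1) = 0)).imp_right eq_of_add) δ
  obtain ⟨c, d, q⟩ := two_sol (f := fun e : K => σ e + e) (fun a b => by rw [map_add]; ring) (fun a h => σfix (eq_of_add h)) ε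
  obtain ⟨e, h1, h2, h3, h4⟩ := ex_not big a b c d
  have n1 : e * e + e + δ ≠ 0 := fun h => (p e (eq_of_add h)).elim h1 h2
  have n2 : σ e + e + ε ≠ 0 := fun h => (q e (eq_of_add h)).elim h3 h4
  obtain ⟨u', uu⟩ : ∃ u' : Rn δ, u' * ⟨e, 1⟩ = 1 := ⟨⟨(e + 1) * (e * e + e + δ)⁻¹, (e * e + e + δ)⁻¹⟩, by
    have := mul_inv_cancel₀ n1
    generalize (e * e + e + δ)⁻¹ = N at *
    ext <;> simp
    · linear_combination this
    · linear_combination aa ((e + 1) * N)⟩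
  obtain ⟨u, hu⟩ : ∃ u : Rn δ, u = ⟨e, 1⟩ := ⟨_, rfl⟩
  rw [← hu] at uu
  have s1 := swp (J.add 1) (J.add 3) (fun _ _ => J.cm 1 3 _ _) uu (fun _ => by rw [J.k5 6 1 3, mul_comm]) (fun _ => J.cm 6 3 u' _)
    (fun _ => by rw [J.k5 14 3 1, mul_comm]) (fun _ => J.cm 14 1 u _)
  have s2 := swp (J.add 11) (J.add 9) (fun _ _ => J.cm 11 9 _ _) uu (fun _ => by rw [J.k5 6 11 9, mul_comm]) (fun _ => J.cm 6 9 u' _)
    (fun _ => by rw [J.k5 14 9 11, mul_comm]) (fun _ => J.cm 14 11 u _)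
  have z10 := fix_of (((J.k4 6 10 (β := u')).mul_left (J.k4 14 10 (β := u))).mul_left (J.k4 6 10 (β := u')))
  have z2 := fix_of (((J.k4 6 2 (β := u')).mul_left (J.k4 14 2 (β := u))).mul_left (J.k4 6 2 (β := u')))
  generalize W 6 u' * W 14 u * W 6 u' = w at *
  have A : ∀ α β, ⁅⁅W 3 α, W 9 β⁆, W 10 1⁆ = W 7 (Mu ε γ α β) := fun α β => by
    rw [J.k6 3 9 5 6 7, cml, cml, J.k0 7 10, cm1 (J.k4 6 10), J.k5 5 10 7]; simp
  have w7 : ∀ α β, w * W 7 (Mu ε γ α β) * w⁻¹ = W 13 (Mu ε γ (α * u) (β * u)) := fun α β => by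
    rw [← A, cj_comm', cj_comm', (s1 _).2, (s2 _).2, z10, J.k6' 11 1 13 14 15, cml, cml, J.k0 13 10, cm1 (J.k4 14 10), J.k5 15 10 13,
      fix_of ((J.cm 13 13 _ _).mul_left (J.cm 14 13 _ _))]; simp
  have w7' : ∀ β, w * W 7 β * w⁻¹ = W 13 (Mu ε γ u (β * u)) := fun β => by simpa only [Mu_one, one_mul] using w7 1 β
  have q1 := J.inj' 13 ((w7 ⟨0, 1⟩ 1).symm.trans (w7' _))
  have e1 := congrArg (·.re) q1
  have e2 := congrArg (·.im) q1
  simp [hu, Mu] at e1 e2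
  have r1 : σ δ + δ + ε + ε ^ 2 = 0 := by have := Pa.Ti.ch (K := K); grind
  obtain rfl : γ = δ := eq_of_add ((mul_eq_zero.1 (show (γ + δ) * (σ e + e + ε) = 0 by
    have := Pa.Ti.ch (K := K); grind)).resolve_right n2)
  obtain ⟨l, -, -, -, n3⟩ := ex3 big
  have w5 : ∀ β, w * W 5 β * w⁻¹ = W 15 (Mu ε γ u (β * u)) := fun β => by
    rw [← one_mul β, ← J.k5 2 7 5, cj_comm', z2, w7', J.k5 2 13 15, one_mul, one_mul]
  have q2 := (conj_mul (a := ⁅W 1 ⟨l, 0⟩, W 7 1⁆) (b := w) (c := ⁅W 1 1, W 7 ⟨l, 0⟩⁆)).symm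
  rw [cj_comm', cj_comm', (s1 _).1, (s1 _).1, w7', w7', J.k6' 13 3 15 0 1, J.k6' 13 3 15 0 1, J.tri 15 0 1, J.k6 1 7 3 4 5,
    J.k6 1 7 3 4 5, J.tri 3 4 5, mul_one, one_mul, ra, J.w0, mul_one, ← conj_mul, (s1 _).2, w5,
    show ∀ x y : Rn γ, Mu ε γ u (1 * u) * (x * y) + Mu ε γ u (x * u) * (1 * y) = 0 from fun x y => by
      rw [Mu_eq, Mu_eq]; linear_combination ra (Th ε u * u * x * y), J.w0, mul_one] at q2
  have q3 := congrArg (fun x => ⁅x, W 4 1⁆) q2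
  simp only [cml, J.k0 1 4, J.k5 15 4 1, fix_of (J.cm 1 1 _ _), mul_one, mul_inv_cancel, one_mul] at q3
  have q4 := J.inj' 1 q3
  simp only [Mu_eq, Th_mul r1, one_mul, mul_one, show Th ε (1 : Rn γ) = 1 by ext <;> simp [Th]] at q4
  have q5 : Th ε u * (⟨l, 0⟩ + Th ε ⟨l, 0⟩) * (u * u) = Th ε (Th ε u) * Th ε u * (⟨l, 0⟩ + Th ε ⟨l, 0⟩) := by
    linear_combination u * q4 + Th ε (Th ε u) * Th ε u * (⟨l, 0⟩ + Th ε ⟨l, 0⟩) * uu
  have e3 := congrArg (·.im) q5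
  simp [hu, Th, σσ] at e3
  exact ⟨rfl, eq_of_add ((mul_eq_zero.1 (show (γ + (ε + σ ε)) * (σ l + l) = 0 by
    have := Pa.Ti.ch (K := K); grind)).resolve_right n3)⟩

theorem split (big : 4 < Nat.card K) : ∃ Y : Bool → Fin 16 → K → G, Hf t Y ∧ (∀ i c, Y true i c * Y false i c = W i ⟨c, 0⟩) ∧
    (∀ b c, ∃ α, ∀ i, Y b i c = W i α) ∧ ((∀ i j a b c, R6 i j a b c → ∀ x u v, Commute (Y x i u) (Y (!x) j v)) ∨
      ∀ i j a b c, R6 i j a b c → ∀ x u v, ⁅Y x i u, Y x j v⁆ = Y x b (u * v) ∧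
        ⁅Y x i u, Y (!x) j v⁆ = Y (!x) a (σ u * v) * Y x c (u * σ v)) := by
  obtain ⟨rfl, e⟩ := J.key big
  obtain ⟨d, h⟩ := ex_d ε
  have := Pa.Ti.ch (K := K)
  have h2 : γ = d + d ^ 2 := by rcases h with rfl | rfl <;> simp only [e, map_add, σσ, map_one] <;> grind
  let f : Bool → K → Rn γ := fun b c => ⟨c * (d + if b then 0 else 1), c⟩
  have m1 : ∀ b u v, f b u * f b v = f b (u * v) := fun b u v => by cases b <;> ext <;> simp [f] <;> grind
  have m2 : ∀ b u v, f b u * f (!b) v = 0 := fun b u v => by cases b <;> ext <;> simp [f] <;> grind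
  have m3 : ∀ b u v, f (!b) u * f b v = 0 := fun b u v => by rw [mul_comm, m2]
  refine ⟨fun b i c => W i (f b c), ⟨fun b i u v => ?_, fun b i o e => one_ne_zero (congrArg (·.im) (J.inj i o _ e)), fun b i c => ?_,
    fun i j h _ _ _ _ => J.cm i j _ _ h, fun i j k h b u v => ⟨by rw [J.k5 i j k h, m1], of_cm1 (by rw [J.k5 i j k h, m2, J.w0])⟩⟩,
    fun i c => ?_, fun b c => ⟨_, fun _ => rfl⟩, h.imp (fun h i j a b c r x u v => ?_) fun h i j a b c r x u v => ?_⟩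
  · rw [← J.add]; congr 1; ext <;> simp [f, add_mul]
  · rw [J.tW]; congr 1; cases b <;> ext <;> simp [f] <;> grind
  · rw [← J.add]; congr 1; ext <;> simp [f] <;> grind
  · have T : ∀ x u, Th ε (f x u) = f x (σ u) := fun x u => by cases x <;> ext <;> simp [f, Th] <;> grind
    exact of_cm1 (by simp only [J.k6 i j a b c r, Mu_eq, T, m2, m3, J.w0, mul_one])
  · have T : ∀ x u, Th ε (f x u) = f (!x) (σ u) := fun x u => by cases x <;> ext <;> simp [f, Th] <;> grind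
    simp only [J.k6 i j a b c r, Mu_eq, T, m1, m2, m3, J.w0, mul_one, one_mul, Bool.not_not, mul_comm (σ v), and_self]

end Rg
end CF.Of
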