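/-
Standard subgroups of type `²F₄(q)`: the group of type `F₄`.
-/
import Cfsg.Agent.Of.R4
import Cfsg.Agent.BN.TwF4
import Cfsg.Agent.Chev.CT2
set_option autoImplicit false
set_option linter.unusedSectionVars false
set_option synthInstance.maxSize 100000
set_option synthInstance.maxHeartbeats 200000

namespace CF.Of
open Subgroup Cfsg CF.BG CF.Sig CF.Ab2 CF.Rd CF.Chev CF.BN Cfsg.Lie
open scoped commutatorElement

local notation "σ" => Pa.Ti.σ

variable {K : Type*} [Field K] [Pa.Ti K] [Finite K] {G : Type*} [Group G] [Finite G] {t : G}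

/-- the simple reflections -/
def rf (i : Fin 4) (r : Fin 48) : Fin 48 := ⟨chevF4.reflectRoot i r % 48, Nat.mod_lt _ (by decide)⟩

theorem rf_eq (i : Fin 4) (r : Fin 48) : rf i r = cF4.sref i r :=
  Fin.ext ((congrArg (· % 48) (linkF4.reflectRoot_eq i r)).trans (Nat.mod_eq_of_lt (cF4.sref i r).2))

theorem rf_sur (l : List (Fin 4)) : Function.Surjective fun r => l.foldr rf r := by
  induction l with
  | nil => exact Function.surjective_id
  | cons i l ih => simp only [List.foldr_cons, rf_eq]; exact (cF4.sref i).surjective.comp ih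

theorem rel (l : List (Fin 4)) (τ : StRep cF4 K G) : ∃ τ' : StRep cF4 K G, ∀ r c, τ'.x r c = τ.x (l.foldr rf r) c := by
  induction l generalizing τ with
  | nil => exact ⟨τ, fun _ _ => rfl⟩
  | cons i l ih =>
    obtain ⟨τ', h⟩ := ih (τ.map (MulAut.conj (τ.n (cF4.simple i) 1)).toMonoidHom)
    refine ⟨τ', fun r c => (h r c).trans ((τ.n_conj _ 1 _ c).trans ?_)⟩
    have := Pa.Ti.ch (K := K)
    rw [List.foldr_cons, rf_eq, cF4.refl_simple, one_zpow]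
    rcases cF4.eta_eq (cF4.simple i) (l.foldr rf r) with e | e <;> simp [e, CharTwo.neg_eq]

/-- two roots lie in a common subsystem of rank two -/
def adm (r s : Fin 48) : Prop := s ≠ r ∧ s ≠ cF4.neg r ∧ ∃ i j : Fin 4, ∀ k, k ≠ i → k ≠ j → cF4.vec r k = 0 ∧ cF4.vec s k = 0

/-- length and direction of the roots -/
def tb4 (r : ℕ) : Bool × Fin 16 := ([(13, false, 1), (14, false, 4), (17, true, 13), (19, false, 11), (20, false, 15), (21, true, 7),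
  (22, true, 9), (23, true, 4), (24, true, 12), (25, true, 1), (26, true, 15), (27, false, 7), (28, false, 3), (30, true, 5),
  (33, false, 12), (34, false, 9)].lookup r).getD (true, 0)

/-- a long and a short direction at distance six -/
abbrev B2 (i j a c : Fin 16) : Prop := R6 i j a (3 + i) c ∨ R6 j i c (3 + j) a

/-- the commutator table -/
abbrev Ok (p q : Bool × Fin 16) (l : List ((Bool × Fin 16) × ℕ × ℕ)) : Prop :=
  l = [] ∧ (q.2 = p.2 ∨ Cd p.2 q.2 ∨ Cd q.2 p.2) ∨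
  q.1 = !p.1 ∧ l = [] ∧ ((∃ k, R5 p.2 q.2 k ∨ R5 q.2 p.2 k) ∨ p.2 = 4 ∧ q.2 = 12 ∨ p.2 = 12 ∧ q.2 = 4) ∨
  q.1 = p.1 ∧ (∃ k, l = [((p.1, k), 1, 1)] ∧ ((R5 p.2 q.2 k ∨ R5 q.2 p.2 k) ∨ R6 p.2 q.2 (2 + p.2) k (4 + p.2) ∨
    R6 q.2 p.2 (2 + q.2) k (4 + q.2))) ∨
  p.1 = true ∧ q.1 = false ∧ (∃ a c, l = [((false, a), 1, 1), ((true, c), 2, 1)] ∧ B2 p.2 q.2 a c) ∨
  p.1 = false ∧ q.1 = true ∧ ∃ a c, l = [((false, a), 1, 1), ((true, c), 1, 2)] ∧ B2 q.2 p.2 a c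

theorem ok4 : ∀ r s : Fin 48, adm r s → Ok (tb4 s) (tb4 r) ((nz 2 (chevF4.commTerms r s)).map fun c => (tb4 c.1, c.2.2)) := by
  unfold adm; decide +kernel

theorem wd {y : ℕ → K → G} (h : ∀ r, y r 0 = 1) (l : List (Fin 48 × ℤ × ℕ × ℕ)) (t u : K) :
    ((l.map (evT (-t) u)).map fun p => y p.1 p.2).prod =
      ((nz 2 (l.map (Prod.map Fin.val id))).map fun c => y c.1 (t ^ c.2.2.1 * u ^ c.2.2.2)).prod := by
  have := Pa.Ti.ch (K := K)
  induction l with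
  | nil => rfl
  | cons c l ih =>
    have z := CharP.intCast_eq_zero_iff K 2 c.2.1
    rw [List.map_cons, List.map_cons, List.prod_cons, ih]
    by_cases e : c.2.1 % 2 = 0
    · simp [nz, e, evT, z.2 (Int.dvd_of_emod_eq_zero e), h]
    · have : (c.2.1 : K) = 1 := by
        rw [← Int.emod_add_mul_ediv c.2.1 2, Int.emod_two_ne_zero.1 e]; simp [two0]
      simp [nz, e, evT, this, CharTwo.neg_eq]

theorem cm_sw {x y : G} (a : x * x = 1) (b : y * y = 1) : y * x = x * y * ⁅y, x⁆ := by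
  rw [commutatorElement_def, ← mul_assoc, ← mul_assoc, ← mul_assoc, mul_assoc x, b, mul_one, a, one_mul, inv_sq a, inv_sq b]

namespace Hf
variable {Y : Bool → Fin 16 → K → G} (H : Hf t Y) (h6 : ∀ i j a b c, R6 i j a b c → ∀ x u v, ⁅Y x i u, Y x j v⁆ = Y x b (u * v) ∧
  ⁅Y x i u, Y (!x) j v⁆ = Y (!x) a (σ u * v) * Y x c (u * σ v)) (θ : K →+* K) (hσ : ∀ c, σ c = θ c ^ 2)
include H

theorem y0 (b : Bool) (i : Fin 16) : Y b i 0 = 1 := add_zero' (H.add b i)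
theorem sq (b : Bool) (i : Fin 16) (c : K) : Y b i c * Y b i c = 1 := by rw [← H.add, aa, H.y0]

include h6 hσ

theorem ok {p q : Bool × Fin 16} {l : List ((Bool × Fin 16) × ℕ × ℕ)} (h : Ok p q l) (c u : K) :
    ⁅Y p.1 p.2 (if p.1 then θ u else u), Y q.1 q.2 (if q.1 then θ c else c)⁆ =
      (l.map fun x => Y x.1.1 x.1.2 (if x.1.1 then θ (c ^ x.2.1 * u ^ x.2.2) else c ^ x.2.1 * u ^ x.2.2)).prod := by
  have := Pa.Ti.ch (K := K)
  have e : ∀ c, σ (θ c) = c := fun c => by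
    have := σσ c
    rw [hσ, hσ c, map_pow, ← hσ] at this
    exact frobenius_inj K 2 this
  have o : ∀ x c d, Commute (Y x 4 c) (Y (!x) 12 d) := fun x c d => by
    rw [← mul_one d, ← (h6 9 15 11 12 13 (by decide) _ _ _).1]
    exact of_fix (by rw [cj_comm', fix_of (H.r5 4 9 7 (by decide) _ _ _).2, fix_of (H.r5 4 15 1 (by decide) _ _ _).2])
  have b2 : ∀ i j a k, B2 i j a k → ∀ c u, ⁅Y true i (θ u), Y false j c⁆ = Y false a (c * u) * Y true k (θ (c ^ 2 * u)) ∧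
      ⁅Y false j c, Y true i (θ u)⁆ = Y false a (c * u) * Y true k (θ (c ^ 2 * u)) := fun i j a k h c u => by
    have z : Commute (Y false a (c * u)) (Y true k (θ (c ^ 2 * u))) := H.cd _ _ (by
      rcases h with ⟨h, -, rfl, -, rfl⟩ | ⟨h, -, rfl, -, rfl⟩ <;> clear * - h <;> revert h <;> decide +revert) _ _ _ _
    have z' := inv_sq ((sq_tw z.symm (H.sq _ _ _)).trans (H.sq _ _ _))
    refine (and_iff_left_of_imp fun h => by rw [← commutatorElement_inv, h, z']).2 (h.elim (fun h => ?_) fun h => ?_)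
    · exact (h6 _ _ _ _ _ h true _ _).2.trans (by rw [e, mul_comm u, hσ, map_mul, map_pow, mul_comm (θ u)]; rfl)
    · rw [← commutatorElement_inv, ← z', inv_inj]
      exact (h6 _ _ _ _ _ h false _ _).2.trans (by rw [e, hσ, ← map_pow, ← map_mul]; exact z.eq.symm)
  obtain ⟨x, i⟩ := p
  obtain ⟨x', j⟩ := q
  rcases h with ⟨rfl, h⟩ | ⟨rfl, rfl, ⟨k, h⟩ | ⟨rfl, rfl⟩ | ⟨rfl, rfl⟩⟩ | ⟨rfl, k, rfl, h⟩ | ⟨rfl, rfl, a, k, rfl, h⟩ |
    ⟨rfl, rfl, a, k, rfl, h⟩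
  · exact cm1 (H.cd _ _ h _ _ _ _)
  · exact cm1 (H.r5 _ _ _ h _ _ _).2
  · exact cm1 (o _ _ _)
  · exact cm1 (by simpa using (o (!x) _ _).symm.eq)
  · have : ∀ c u, ⁅Y x' i u, Y x' j c⁆ = Y x' k (c * u) := fun c u => by
      rcases h with h | h | h
      exacts [mul_comm c u ▸ (H.r5 _ _ _ h _ _ _).1, mul_comm c u ▸ (h6 _ _ _ _ _ h _ _ _).1, by
        rw [← commutatorElement_inv, (h6 _ _ _ _ _ h _ _ _).1, inv_sq (H.sq _ _ _)]]
    cases x' <;> simp [this]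
  · simpa using (b2 _ _ _ _ h c u).1
  · simpa [mul_comm c, mul_comm (θ c)] using (b2 _ _ _ _ h u c).2

theorem f4 : ∃ ρ : StRep cF4 K G, ρ.x 47 1 ≠ 1 ∧ ∀ r c, t * ρ.x r c * t⁻¹ = ρ.x (iF4.f r) (θ c ^ iF4.lam r) := by
  have := Pa.Ti.ch (K := K)
  obtain ⟨τ, h⟩ := exists_rep_of_rels (ρ := repF4 K) (linkF4.faithful_gpRep K) r3_repF4 tor_injective_F4 (by decide +kernel)
    (y := fun r c => Y (tb4 r).1 (tb4 r).2 (if (tb4 r).1 then θ c else c)) (fun i j r _ c u => by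
      rw [← H.add]; cases (tb4 r).1 <;> simp) fun i j r s hr hs n1 n2 c u => by
      rw [commWord_eq_evT, wd (y := fun r c => Y (tb4 r).1 (tb4 r).2 (if (tb4 r).1 then θ c else c)) (by simp [H.y0]),
        ← show chevF4.commTerms r s = (cF4.commTerms r s).map (Prod.map Fin.val id) from linkF4.commTerms_eq n1 n2]
      have := H.ok h6 θ hσ (ok4 r s ⟨n1, n2, i, j, fun k p q => ⟨hr k (by simp [p, q]), hs k (by simp [p, q])⟩⟩) c u
      rw [List.map_map] at this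
      exact (cm_sw (H.sq _ _ _) (H.sq _ _ _)).trans (congrArg _ this)
  replace h : ∀ r : Fin 48, (∃ i j : Fin 4, ∀ k, k ≠ i → k ≠ j → cF4.vec r k = 0) →
      ∀ c, τ.x r c = Y (tb4 r).1 (tb4 r).2 (if (tb4 r).1 then θ c else c) :=
    fun r ⟨i, j, p⟩ => h i j r fun k n => p k (fun e => n (.inl e)) fun e => n (.inr e)
  obtain ⟨ρ, e⟩ := rel [1, 0, 2, 1, 0, 2, 3, 2, 1, 0, 2] τ
  obtain ⟨τ1, e1⟩ := rel [2, 0, 1, 2, 3, 2, 0, 1, 2, 0, 1] (ρ.map (MulAut.conj t).toMonoidHom)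
  obtain ⟨τ2, e2⟩ := rel [2, 0, 1, 2, 3, 2, 0, 1, 2, 0, 1] (iF4.twist (ρ.comap θ))
  obtain rfl : τ1 = τ2 := StRep.ext_simple fun r m c => by
    obtain ⟨p1, p2, p3, p4, p5⟩ := (by decide +kernel : ∀ r : Fin 48, (∃ i, r = cF4.simple i ∨ r = cF4.neg (cF4.simple i)) →
      ∀ r', r' = [2, 0, 1, 2, 3, 2, 0, 1, 2, 0, 1].foldr rf r → ∀ s, s = [1, 0, 2, 1, 0, 2, 3, 2, 1, 0, 2].foldr rf (iF4.f r') →
      [1, 0, 2, 1, 0, 2, 3, 2, 1, 0, 2].foldr rf r' = r ∧ tb4 s = (!(tb4 r).1, (tb4 r).2) ∧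
      iF4.lam r' = (if (tb4 r).1 then 1 else 2) ∧ (∃ i j : Fin 4, ∀ k, k ≠ i → k ≠ j → cF4.vec r k = 0) ∧
      ∃ i j : Fin 4, ∀ k, k ≠ i → k ≠ j → cF4.vec s k = 0) r (let ⟨i, _, p⟩ := m; ⟨i, p⟩) _ rfl _ rfl
    rw [e1, e2, Isog.twist_x, StRep.comap_x, e, h _ p5, p2, p3]
    refine (congrArg (fun x => t * x * t⁻¹) ((e _ c).trans (by rw [p1, h _ p4]))).trans ?_
    rw [H.tY]
    have := σσ c
    rw [hσ, hσ c] at this
    cases (tb4 r).1 <;> simp [frobenius_inj K 2 this]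
  refine ⟨ρ, by rw [e, h _ (by decide +kernel), map_one, ite_self]; exact H.inj _ _ (by decide +kernel), fun r c => ?_⟩
  obtain ⟨r, rfl⟩ := rf_sur [2, 0, 1, 2, 3, 2, 0, 1, 2, 0, 1] r
  exact ((e1 r c).symm.trans (e2 r c)).trans (by rw [Isog.twist_x, StRep.comap_x, map_pow])

end Hf
end CF.Of
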