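/-
Standard subgroups of type `²F₄(q)`: the map `j` on the class of the central involution.
-/
import Cfsg.Agent.Of.J2
set_option autoImplicit false
set_option linter.unusedSectionVars false
set_option synthInstance.maxSize 100000
set_option synthInstance.maxHeartbeats 200000

namespace CF.Of
open Subgroup Cfsg CF.BG CF.Sig CF.Ab2 CF.Rd
open scoped commutatorElement

local notation "σ" => Pa.Ti.σ

variable {K : Type*} [Field K] [Pa.Ti K] [Finite K] {G : Type*} [Group G] [Finite G] {g h h' s u x y t p q v l : G} {a b c d μ ν : K}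
  {j : G → G} {k : ℕ}

namespace Oc
variable (F : Oc K G)

theorem ex47 (p : a ≠ 0) (q : b ≠ 0) : ∃ h ∈ F.H, ∀ c, h * F.X 4 c * h⁻¹ = F.X 4 (a * c) ∧ h * F.X 7 c * h⁻¹ = F.X 7 (b * c) := by
  obtain ⟨h, m, e⟩ := F.ex17 (div_ne_zero (σne p) q) (div_ne_zero (σne q) p)
  have := σne p
  have := σne q
  refine ⟨h, m, fun c => ⟨(e c).2.2.1.trans ?_, (e c).2.2.2.2.trans ?_⟩⟩ <;> congr 1 <;> simp only [map_div₀, σσ] <;> field_simp

theorem e4 (c d : K) : F.X 11 c * F.X 4 d * (F.X 11 c)⁻¹ = F.X 4 d * F.X 7 (c * d) := F.eq [c, d]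

theorem cl7 (n : c ≠ 0) : Cl F.L (F.X 7 1) (F.X 7 c) := let ⟨h, m, e⟩ := F.tor n; ⟨h, F.HL m, by rw [e, mul_one]⟩

theorem cl4 (n : c ≠ 0) (d : K) : Cl F.L (F.X 7 1) (F.X 4 c * F.X 7 d) := by
  have := ((F.cl7 n).cj F.mL).cj (F.xL 11 (d / c))
  rwa [(F.mx c).2.2.2.2.2.2.2.1, F.e4, div_mul_cancel₀ _ n] at this

theorem clW (m : v ∈ F.W) (n : v ≠ 1) : Cl F.L (F.X 7 1) v := by
  obtain ⟨c, d, rfl⟩ := F.mW m
  by_cases k : c = 0
  · subst k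
    rw [F.x0, one_mul] at n ⊢
    exact F.cl7 fun i => n (i ▸ F.x0 7)
  · exact F.cl4 k d

theorem ncl : ¬ Cl F.L (F.X 7 1) 1 := fun ⟨_, _, k⟩ => F.z1 (by simpa using k)

theorem WW : ∀ v ∈ F.W, v * v = 1 := fun _ m => F.sqV (F.le m)

theorem ZA (f : Hy F.L t) (m : v ∈ F.V) : t * v * (t * v) = 1 := by
  rw [mul_assoc, ← mul_assoc v, f.Lt (F.uL m), mul_assoc, F.sqV m, mul_one, f.tt]

section
variable (J : J0 F.L t (F.X 7 1) j) (f : H2 F.L t)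
include J

theorem j1 : j 1 = 1 := J.j0 1 F.ncl

theorem jc {R : Subgroup G} (l : R ≤ F.L) (m : v ∈ 𝐂 R) : j v ∈ 𝐂 R := mem_cent.2 fun x k => J.cen (l k) (mem_cent.1 m x k)

include f

theorem tW (m : v ∈ F.W) : j v * t * (j v)⁻¹ = t * v := by
  by_cases n : v = 1
  · rw [n, F.j1 J]; simp
  · exact J.tj f.toHy (F.clW m n)

theorem xW (m : v ∈ F.W) : j v ∈ Xs F.L t F.W F.Q2 :=
  ⟨⟨⟨F.jc J (F.UL _) ((F.cen _ _) m), F.jc J (F.UL _) ((F.cen _ _) m)⟩, J.oj v⟩, v, m, F.tW J f m⟩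

theorem xZ (c : K) : j (F.X 7 c) ∈ Xs F.L t F.Z F.Q :=
  ⟨⟨⟨F.jc J (F.UL _) ((F.cen [7] _) (F.x 7 c)), F.jc J (F.UL _) ((F.cen [7] _) (F.x 7 c))⟩, J.oj _⟩, _, F.x 7 c,
    F.tW J f (F.x 7 c)⟩

theorem col0 : ∃ a ∈ F.W, j (F.X 4 1) * j (F.X 7 1) = j (F.X 4 1 * F.X 7 1) * a ∨
    j (F.X 4 1) * j (F.X 7 1) = j (F.X 4 1 * F.X 7 1) * (t * a) := by
  have mz : F.X 7 1 ∈ F.W := F.x 7 1
  have mb : F.X 4 1 ∈ F.W := F.x 4 1
  refine f.dif (F.UL _) F.WW F.N2 (F.xW J f (mul_mem mb mz)) (mul_mem (F.xW J f mb) (F.xW J f mz)) (J.e2 _)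
    (e2_mul (f.nilX (F.UL _) F.WW F.N2) (F.xW J f mb) (F.xW J f mz) (J.e2 _) (J.e2 _)) ?_
  rw [F.tW J f (mul_mem mb mz), tr_mul (F.tW J f mb) (F.tW J f mz), cfix (F.xW J f mb).1.1.2 mz]

theorem sqz : ∃ k, j (F.X 7 1) * j (F.X 7 1) = F.X 7 k := by
  have x := F.xZ J f 1
  obtain ⟨v, m, i | i⟩ := f.dec2 (F.UL _) F.ZZ F.N1 (tr_sq J.xt (J.cen (F.xL 7 1) rfl).symm (F.xx 7 1)) (mul_mem x x).1.1.1
    (J.x2.mul J.x2 rfl)
  · exact (F.mZ m).imp fun _ k => i.trans k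
  · exact (F.z1 (tr_ne J.xt (mem_cent.1 x.1.1.2 v m).symm (by rw [← i, mul_assoc]))).elim

end

theorem exJ1 (f : Fu F.L t (F.X 7 1)) : ∃ j, J0 F.L t (F.X 7 1) j ∧ ∃ a ∈ F.W, j (F.X 4 1) * j (F.X 7 1) = j (F.X 4 1 * F.X 7 1) * a := by
  obtain ⟨x, a, p, k⟩ := F.j0 f
  obtain ⟨j, J, rfl⟩ := exJ a p k
  have g := F.h2 f
  obtain ⟨v, m, i | i⟩ := F.col0 J g
  · exact ⟨j, J, v, m, i⟩
  obtain ⟨j', J', r⟩ := exJ (x := j (F.X 7 1) * t) (u := F.X 7 1) (mul_mem a ⟨cent_anti inf_le_left f.tC, t_ot⟩)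
    (e2_mul (g.nilX (F.UL _) F.ZZ F.N1) (F.xZ J g 1) ⟨⟨⟨cent_anti (F.UL _) f.tC, cent_anti (F.UL _) f.tC⟩, t_ot⟩, 1, one_mem _,
      by simp⟩ p (e2_of_sq f.tt)) (by rw [← k]; group)
  have s : ∀ v, Cl F.L (F.X 7 1) v → j' v = j v * t := by
    rintro _ ⟨l, n, rfl⟩
    rw [J'.cj l n, J.cj l n, r, ← conj_mul, fix_of (f.Lt n)]
  have mz : F.X 7 1 ∈ F.W := F.x 7 1
  refine ⟨j', J', v * F.X 7 1, mul_mem m mz, ?_⟩
  have := tr_inv' J.xt (J.cen (F.xL 7 1) rfl).symm (F.xx 7 1)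
  rw [r, s _ (F.cl4 one_ne_zero 1), s _ (by simpa [F.x0] using F.cl4 one_ne_zero 0), mul_assoc (j _) t (v * _), ← mul_assoc t v,
    ← mul_assoc (j _) (t * v), ← i]
  calc _ = j (F.X 4 1) * j (F.X 7 1) * ((j (F.X 7 1))⁻¹ * t * j (F.X 7 1) * t) := by group
    _ = _ := by rw [this, ← f.Lt (F.xL 7 1), mul_assoc (F.X 7 1), f.tt, mul_one]

/-- the doubling map on lines -/
structure Jl (t : G) (j : G → G) : Prop extends J0 F.L t (F.X 7 1) j where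
  h2 : H2 F.L t
  sq : ∀ v, j v * j v = 1
  add : ∀ c d, j (F.X 7 (c + d)) = j (F.X 7 c) * j (F.X 7 d)
  zb : ∀ c d, j (F.X 4 c * F.X 7 d) = j (F.X 4 c) * j (F.X 7 d)
  bz : ∀ c d, j (F.X 4 c) * j (F.X 7 d) = j (F.X 7 d) * j (F.X 4 c)

theorem exJl (f : Fu F.L t (F.X 7 1)) : ∃ j, F.Jl t j := by
  obtain ⟨j, J, _, m1, a⟩ := F.exJ1 f
  have g := F.h2 f
  obtain ⟨k, s⟩ := F.sqz J g
  obtain ⟨α, β, rfl⟩ := F.mW m1
  have cw : ∀ v ∈ F.W, ∀ w ∈ F.W, w * j v = j v * w := fun v m => mem_cent.1 (F.xW J g m).1.1.2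
  have ez : ∀ c d, F.X 11 c * j (F.X 7 d) * (F.X 11 c)⁻¹ = j (F.X 7 d) := fun c d => fix_of (J.cen (F.xL 11 c) (F.eq [c, d]))
  have eb : ∀ c d, F.X 11 c * j (F.X 4 d) * (F.X 11 c)⁻¹ = j (F.X 4 d * F.X 7 (c * d)) := fun c d => by rw [← J.cj _ (F.xL 11 c), F.e4]
  have em : F.X 11 1 * j (F.X 4 1 * F.X 7 1) * (F.X 11 1)⁻¹ = j (F.X 4 1) := by
    rw [← J.cj _ (F.xL 11 1)]; exact congrArg j (F.eq ([] : List K))
  have wz : ∀ c, F.m * j (F.X 7 c) * F.m⁻¹ = j (F.X 4 c) := fun c => by rw [← J.cj _ F.mL, (F.mx c).2.2.2.2.2.2.2.1]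
  have wb : F.m * j (F.X 4 1) * F.m⁻¹ = j (F.X 7 1) := by rw [← J.cj _ F.mL, (F.mx 1).2.2.2.2.1]
  have a' : j (F.X 7 1) * j (F.X 4 1) = j (F.X 4 1 * F.X 7 1) * (F.X 4 β * F.X 7 α) := by
    have := congrArg (fun x => F.m * x * F.m⁻¹) a
    simp only [← conj_mul (b := F.m) (a := j _), wz, wb, ← J.cj _ F.mL] at this
    simp only [← conj_mul (b := F.m), F.mx] at this
    rw [this, (F.eq ([] : List K) : F.X 7 1 * F.X 4 1 = F.X 4 1 * F.X 7 1), (F.eq [α, β] : F.X 7 α * F.X 4 β = F.X 4 β * F.X 7 α)]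
  have e1 : k = α := F.xinj (k := 7) (by decide) (mul_left_cancel (a := j (F.X 4 1)) (by
    have := congrArg (fun x => F.X 11 1 * x * (F.X 11 1)⁻¹) a
    simp only [← conj_mul (b := F.X 11 1) (a := j _), ez, eb, em, one_mul] at this
    rw [← s, ← mul_assoc, a, mul_assoc, cw _ (F.x 7 1) _ m1, ← mul_assoc, this, mul_assoc, mul_right_inj]
    exact F.eq [α, β]))
  have e2 : k = β := F.xinj (k := 7) (by decide) (mul_left_cancel (a := j (F.X 4 1)) (by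
    have := congrArg (fun x => F.X 11 1 * x * (F.X 11 1)⁻¹) a'
    simp only [← conj_mul (b := F.X 11 1) (a := j _), ez, eb, em, one_mul] at this
    rw [← cw _ (F.x 4 1) _ (F.x 7 k), ← s, mul_assoc, a', ← mul_assoc, this, mul_assoc, mul_right_inj]
    exact F.eq [α, β]))
  subst e1; subst e2
  have r : ∀ c d, c ≠ 0 → d ≠ 0 → j (F.X 4 c) * j (F.X 7 d) = j (F.X 4 c * F.X 7 d) * (F.X 4 (c * k) * F.X 7 (d * k)) ∧
      j (F.X 4 c) * j (F.X 7 d) = j (F.X 7 d) * j (F.X 4 c) := fun c d c0 d0 => by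
    obtain ⟨h, m, e⟩ := F.ex47 c0 d0
    have i := congrArg (fun x => h * x * h⁻¹) a
    have i' := congrArg (fun x => h * x * h⁻¹) (a.trans a'.symm)
    simp only [← conj_mul (b := h) (a := j _), ← J.cj _ (F.HL m)] at i i'
    simp only [← conj_mul (b := h), e, mul_one] at i i'
    exact ⟨i, i'⟩
  have r' : ∀ d, d ≠ 0 → j (F.X 4 1 * F.X 7 d) = j (F.X 4 1) * j (F.X 7 d) * (F.X 4 k * F.X 7 (d * k)) := fun d d0 => by
    rw [(r 1 d one_ne_zero d0).1, one_mul, mul_assoc, F.WW _ (mul_mem (F.x 4 _) (F.x 7 _)), mul_one]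
  have w : ∀ c d, c ≠ 0 → d ≠ 0 → c + d ≠ 0 → j (F.X 7 (c + d)) * (F.X 4 k * F.X 7 (c * k)) = j (F.X 7 c) * j (F.X 7 d) :=
    fun c d c0 d0 n => by
      have := eb (c + d) 1
      rw [F.xa 11, cj2, eb, mul_one, mul_one, r' d d0, r' _ n, ← conj_mul, ← conj_mul, eb, ez, mul_one, r' c c0, mul_assoc, mul_assoc,
        mul_assoc, mul_assoc (j (F.X 4 1)), mul_right_inj, ← mul_assoc (F.X 4 k * _), cw _ (F.x 7 d) _ (mul_mem (F.x 4 _) (F.x 7 _)),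
        mul_assoc (j _), ← mul_assoc (j _), ← eq_mul_inv_iff_mul_eq] at this
      rw [this, mul_assoc, mul_right_inj]
      exact F.eq [c, d, k]
  obtain rfl : k = 0 := by
    obtain ⟨c, c0, -, c1, -⟩ := ex3 F.big
    have i := w c 1 c0 one_ne_zero c1
    have := congrArg (fun x => F.X 11 1 * x * (F.X 11 1)⁻¹) i
    simp only [← conj_mul (b := F.X 11 1) (a := j _), ez] at this
    rw [← i, mul_right_inj] at this
    exact F.co [c, k] 7 this k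
  simp only [mul_zero, F.x0, mul_one] at r w s
  have sq : ∀ v, j v * j v = 1 := fun v => by
    by_cases n : Cl F.L (F.X 7 1) v
    · obtain ⟨l, m, rfl⟩ := n
      rw [J.cj l m, conj_mul, s]; simp
    · rw [J.j0 v n, mul_one]
  refine ⟨j, J, g, sq, fun c d => ?_, fun c d => ?_, fun c d => ?_⟩ <;> by_cases c0 : c = 0 <;> by_cases d0 : d = 0 <;>
    try simp only [c0, d0, F.x0, F.j1 J, add_zero, zero_add, mul_one, one_mul]
  · by_cases n : c + d = 0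
    · rw [n, eq_of_add n, sq, F.x0, F.j1 J]
    · exact w c d c0 d0 n
  exacts [(r c d c0 d0).1.symm, (r c d c0 d0).2]

end Oc
end CF.Of
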