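/-
Standard subgroups of type `²F₄(q)`: the doubling of `V` is elementary abelian.
-/
import Cfsg.Agent.Of.J3
set_option autoImplicit false
set_option linter.unusedSectionVars false
set_option synthInstance.maxSize 100000
set_option synthInstance.maxHeartbeats 200000

namespace CF.Of
open Subgroup Cfsg CF.BG CF.Sig CF.Ab2 CF.Rd
open scoped commutatorElement

local notation "σ" => Pa.Ti.σ

variable {K : Type*} [Field K] [Pa.Ti K] [Finite K] {G : Type*} [Group G] [Finite G] {g g' h h' s u x y t p q v w l : G}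
  {a b c d μ ν : K} {j : G → G} {k : ℕ}

/-- translations by elements of `N` -/
def Tr (t : G) (V N : Subgroup G) : Subgroup G where
  carrier := {v | v ∈ V ∧ ∃ g ∈ N ⊓ 𝐂 V, g * t * g⁻¹ = t * v}
  one_mem' := ⟨one_mem _, 1, one_mem _, by simp⟩
  mul_mem' := by
    rintro a b ⟨i, g, m, e⟩ ⟨j, g', m', e'⟩
    exact ⟨mul_mem i j, g * g', mul_mem m m', by rw [tr_mul e e', cfix m.2 j]⟩
  inv_mem' := by
    rintro a ⟨i, g, m, e⟩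
    refine ⟨inv_mem i, g⁻¹, inv_mem m, eq_mul_inv_of_mul_eq ?_⟩
    rw [← cfix (inv_mem m : g⁻¹ ∈ N ⊓ 𝐂 V).2 i, conj_mul, ← e]; group

theorem cm_sq (a : x * x = 1) (b : y * y = 1) : ⁅x, y⁆ = x * y * (x * y) := by
  rw [commutatorElement_def, inv_sq a, inv_sq b, ← mul_assoc]

namespace Oc
variable (F : Oc K G)

/-- the points of the ovoid -/
def Ov (v : G) : Prop := ∃ b ∈ F.B, ∃ c, v = b * F.X 4 c * b⁻¹

/-- the doubling of `V` -/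
def M (j : G → G) : Subgroup G := F.V ⊔ closure (j '' {v | F.Ov v})

theorem HN (m : h ∈ F.H) : h ∈ 𝐍 F.B := by
  rw [show F.B = F.L ⊓ 𝐂 F.Z from le_antisymm (le_inf inf_le_left F.BZ) (inf_le_inf_left _ (cent_le_cent1 (F.x 7 1)))]
  exact zp_norm.1 (norm_inf_cent (zp_norm.2 (le_norm_self _ (F.HL m))) (zp_norm.2 (F.HU m _)))

theorem VV' (m : v ∈ F.V) : v ∈ 𝐂 F.V := (F.cen _ _) m

variable {F}

theorem Ov.V (o : F.Ov v) : v ∈ F.V := let ⟨_, m, c, e⟩ := o; e ▸ conj_mem_of_norm (F.BV m) (F.x 4 c)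

theorem Ov.cj (o : F.Ov v) (m : g ∈ F.B) : F.Ov (g * v * g⁻¹) :=
  let ⟨b, i, c, e⟩ := o; ⟨g * b, mul_mem m i, c, by rw [e, cj2]⟩

theorem Ov.hj (o : F.Ov v) (m : h ∈ F.H) : F.Ov (h * v * h⁻¹) := by
  obtain ⟨b, i, c, rfl⟩ := o
  obtain ⟨_, _, p⟩ := F.Hx h m
  exact ⟨_, conj_mem_of_norm (F.HN m) i, _, by rw [← p.2.2 4 (by decide) c]; group⟩

theorem ov4 (c : K) : F.Ov (F.X 4 c) := ⟨1, one_mem _, c, by simp⟩
theorem ov10 (c : K) : F.Ov (F.X 10 c) := (F.nx c).2.2.1 ▸ (ov4 c).cj F.nB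

namespace Jl
variable (J : F.Jl t j)
include J

theorem j1 : j 1 = 1 := F.j1 J.toJ0
theorem Lt (m : x ∈ F.L) : x * t = t * x := J.h2.Lt m
theorem inv (v : G) : (j v)⁻¹ = j v := inv_sq (J.sq v)
theorem m7 (c : K) : F.m * j (F.X 7 c) * F.m⁻¹ = j (F.X 4 c) := by rw [← J.cj _ F.mL, (F.mx c).2.2.2.2.2.2.2.1]
theorem m4 (c : K) : F.m * j (F.X 4 c) * F.m⁻¹ = j (F.X 7 c) := by rw [← J.cj _ F.mL, (F.mx c).2.2.2.2.1]
theorem m10 (c : K) : F.m * j (F.X 10 c) * F.m⁻¹ = j (F.X 1 c) := by rw [← J.cj _ F.mL, (F.mx c).2.2.2.2.2.2.2.2.2.2]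
theorem m1 (c : K) : F.m * j (F.X 1 c) * F.m⁻¹ = j (F.X 10 c) := by rw [← J.cj _ F.mL, (F.mx c).2.1]
theorem n4 (c : K) : F.n * j (F.X 4 c) * F.n⁻¹ = j (F.X 10 c) := by rw [← J.cj _ F.nL, (F.nx c).2.2.1]
theorem n10 (c : K) : F.n * j (F.X 10 c) * F.n⁻¹ = j (F.X 4 c) := by rw [← J.cj _ F.nL, (F.nx c).2.2.2.2.2.2.2.2.1]
theorem b7 (m : g ∈ F.B) (c : K) : g * j (F.X 7 c) * g⁻¹ = j (F.X 7 c) := fix_of (J.cen m.1 (F.bz m c))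
theorem add4 (c d : K) : j (F.X 4 (c + d)) = j (F.X 4 c) * j (F.X 4 d) := by simp only [← J.m7, J.add, conj_mul]
theorem add10 (c d : K) : j (F.X 10 (c + d)) = j (F.X 10 c) * j (F.X 10 d) := by simp only [← J.n4, J.add4, conj_mul]
theorem add1 (c d : K) : j (F.X 1 (c + d)) = j (F.X 1 c) * j (F.X 1 d) := by simp only [← J.m10, J.add10, conj_mul]
theorem t7 (c : K) : j (F.X 7 c) * t * (j (F.X 7 c))⁻¹ = t * F.X 7 c := F.tW J.toJ0 J.h2 (F.x 7 c)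

theorem tv (o : F.Ov v) : j v * t * (j v)⁻¹ = t * v := by
  obtain ⟨b, i, c, rfl⟩ := o
  rw [J.cj _ i.1]
  exact tr_cj (F.tW J.toJ0 J.h2 (F.x 4 c)) (J.Lt i.1)

theorem vz (o : F.Ov v) (d : K) : Commute (j v) (j (F.X 7 d)) := by
  obtain ⟨b, i, c, rfl⟩ := o
  rw [J.cj _ i.1, ← J.b7 i, Commute, SemiconjBy, conj_mul, conj_mul, J.bz]

theorem sv (m : s ∈ F.S) (c : K) : ∃ d, s * j (F.X 4 c) * s⁻¹ = j (F.X 4 c) * j (F.X 7 d) :=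
  let ⟨d, e⟩ := F.sW m c; ⟨d, by rw [← J.cj _ (F.SL m), e, J.zb]⟩

theorem qv (o : F.Ov v) (m : q ∈ F.Q) : ∃ d, q * j v * q⁻¹ = j v * j (F.X 7 d) := by
  obtain ⟨b, i, c, rfl⟩ := o
  obtain ⟨d, e⟩ := J.sv (F.uS (conj_mem_of_norm' (F.BQ i) m)) c
  exact ⟨d, by rw [J.cj _ i.1, ← J.b7 i, conj_mul, ← e]; group⟩

theorem vΦ (o : F.Ov v) : j v ∈ 𝐂 F.Φ := F.jc J.toJ0 (F.UL _) ((F.cen _ _) o.V)

theorem cv (o : F.Ov v) (o' : F.Ov w) : ⁅j v, j w⁆ ∈ F.Z := by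
  by_cases n : v = 1
  · simp [n, J.j1]
  have cV : ∀ {v}, F.Ov v → j v ∈ 𝐂 F.V := fun o => cent_anti (Pa.U_mono (by decide)) (J.vΦ o)
  have r := tr_mul (J.tv o) (J.tv o')
  rw [cfix (cV o) o'.V] at r
  have m := mul_mem o.V o'.V
  refine J.h2.inv_dec (F.UL _) F.ZZ F.N1 (cm_sq (J.sq v) (J.sq w) ▸ tr_sq r (mem_cent.1 (mul_mem (cV o) (cV o')) _ m).symm (F.sqV m))
    (mem_cent.2 fun q i => of_fix ?_) (J.oj v) (J.tv o) n (cent_anti (Pa.U_mono (by decide)) (cV o)) (by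
      simp only [commutatorElement_def, mul_inv_rev, J.inv, ← mul_assoc, J.sq, one_mul])
  obtain ⟨c, e⟩ := J.qv o i
  obtain ⟨d, e'⟩ := J.qv o' i
  have z : Commute (j (F.X 7 c)) (j (F.X 7 d)) := by rw [Commute, SemiconjBy, ← J.add, ← J.add, add_comm]
  rw [cj_comm', e, e', cml, cm1 ((J.vz o' c).symm.mul_right z), cmr, cm1 (J.vz o d)]
  simp

theorem mem (o : F.Ov v) : j v ∈ F.M j := mem_sup_right (subset_closure ⟨v, o, rfl⟩)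
theorem VM (m : v ∈ F.V) : v ∈ F.M j := mem_sup_left m

omit J in
theorem M_le {N : Subgroup G} (p : F.V ≤ N) (q : ∀ v, F.Ov v → j v ∈ N) : F.M j ≤ N :=
  sup_le p ((closure_le _).2 (by rintro _ ⟨v, o, rfl⟩; exact q v o))

theorem MX : F.M j ≤ Xs F.L t F.V F.Φ := M_le (fun v m => ⟨⟨⟨(F.cen _ _) m, F.VV' m⟩, L_ot (F.uL m)⟩, 1, one_mem _,
  tr_one (J.Lt (F.uL m))⟩) fun v o => ⟨⟨⟨J.vΦ o, cent_anti (Pa.U_mono (by decide)) (J.vΦ o)⟩, J.oj v⟩, v, o.V, J.tv o⟩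

theorem MV (m : g ∈ F.M j) : g ∈ 𝐂 F.V := (J.MX m).1.1.2
theorem MZ (m : g ∈ F.M j) : g ∈ 𝐂 F.Z := cent_anti (Pa.U_mono (by decide)) (J.MV m)

theorem nM (l : g ∈ F.L) (p : g ∈ 𝐍 F.V) (q : ∀ v, F.Ov v → F.Ov (g * v * g⁻¹)) : g ∈ 𝐍 (F.M j) :=
  mem_norm_of_cj_le (cj_le_iff.2 (M_le (fun _ m => mem_cj_inv.2 (J.VM (conj_mem_of_norm p m)))
    fun v o => mem_cj_inv.2 (J.cj g l v ▸ J.mem (q v o))))

theorem BM (m : g ∈ F.B) : g ∈ 𝐍 (F.M j) := J.nM m.1 (F.BV m) fun _ o => o.cj m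
theorem HM (m : h ∈ F.H) : h ∈ 𝐍 (F.M j) := J.nM (F.HL m) (F.HU m _) fun _ o => o.hj m

theorem mem7 (c : K) : j (F.X 7 c) ∈ F.M j := by
  have := mul_mem (J.mem (ov4 c)) (J.mem ((ov4 c).cj (F.SB (F.x 11 1))))
  rwa [F.e4, J.zb, ← mul_assoc, J.sq, one_mul, one_mul] at this

theorem cM (m : g ∈ F.M j) (m' : g' ∈ F.M j) : ⁅g, g'⁆ ∈ F.Z := by
  have i : ∀ {g}, (∀ v, F.Ov v → ⁅j v, g⁆ ∈ F.Z) → g ∈ F.M j → F.M j ≤ Cm F.Z g := fun e n => M_le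
    (fun v l => ⟨(F.nrm _ _) l, by rw [cm1 (mem_cent.1 (J.MV n) v l)]; exact one_mem _⟩)
    fun v o => ⟨cent_le_norm _ (J.MZ (J.mem o)), e v o⟩
  exact (i (fun v o => cm_symm (i (fun w o' => J.cv o' o) (J.mem o) m').2) m' m).2

theorem sM (m : g ∈ F.M j) : g * g ∈ F.Z := by
  have : ∀ g ∈ closure (j '' {v | F.Ov v}), g * g ∈ F.Z := fun g m => by
    induction m using closure_induction with
    | mem x m => obtain ⟨v, -, rfl⟩ := m; rw [J.sq]; exact one_mem _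
    | one => simp
    | mul x y p q a b =>
      rw [show x * y * (x * y) = x * x * ⁅x⁻¹, y⁆ * (y * y) by simp only [commutatorElement_def]; group]
      exact mul_mem (mul_mem a (J.cM (inv_mem (mem_sup_right p)) (mem_sup_right q))) b
    | inv x _ a => simpa using inv_mem a
  obtain ⟨v, p, x, q, rfl⟩ := (mem_sup_norm' (norm_of_cent fun x i => J.MV (mem_sup_right i))).1 m
  rw [mem_cent.1 (J.MV (mem_sup_right q)) v p, sq_tw (mem_cent.1 (J.MV (mem_sup_right q)) v p) (F.sqV p)]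
  exact this x q

theorem eM (m : g ∈ F.M j) : E2 g := e2_of_pow (n := 2) (by
  rw [show 2 ^ 2 = 2 * 2 from rfl, pow_mul, pow_two g, pow_two, F.ZZ _ (J.sM m)])

theorem tM (m : t ∈ F.M j) : False := by
  have := J.sM (mul_mem (J.mem (ov4 1)) m)
  rw [← mul_assoc, (J.inv _ ▸ J.tv (ov4 1) :), ← J.Lt (F.xL 4 1), mul_assoc, J.h2.tt, mul_one] at this
  exact one_ne_zero (F.cm ([] : List K) 4 this 1)

theorem dif (m : g ∈ F.M j) (m' : g' ∈ F.M j) (e : g * t * g⁻¹ = g' * t * g'⁻¹) : ∃ v ∈ F.V, g' = g * v := by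
  obtain ⟨v, i, r | r⟩ := J.h2.dif (F.UL _) (fun _ => F.sqV) F.N3 (J.MX m) (J.MX m') (J.eM m) (J.eM m') e
  · exact ⟨v, i, r⟩
  · exact (J.tM (by simpa [r] using mul_mem (mul_mem (inv_mem m) m') (inv_mem (J.VM i)))).elim

theorem sq4 (m : g ∈ F.M j) (e : g * t * g⁻¹ = t * F.X 5 c) : g * g = 1 := by
  obtain ⟨μ, h0, -, h1, -⟩ := ex3 F.big
  obtain ⟨h, i, r⟩ := F.exb h0
  obtain ⟨v, l, o⟩ := J.dif m (conj_mem_of_norm (J.HM i) m) (by rw [tr_cj e (J.Lt (F.HL i)), (r.act c).2.2.2.2.2.1, e])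
  obtain ⟨d, q⟩ := F.mZ (J.sM m)
  have := (r.act d).2.2.2.2.2.2.2.1
  rw [← q, ← conj_mul, o, sq_tw (mem_cent.1 (J.MV m) v l) (F.sqV l), q] at this
  rw [q, (mul_eq_zero.1 (by linear_combination aa d - F.xinj (by decide) this : (μ + 1) * d = 0)).resolve_left h1, F.x0]

theorem cu (m : u ∈ F.U [0, 1]) (a d : K) : ⁅u, j (F.X 10 d)⁆ ∈ F.M j ⊓ 𝐂₁ (j (F.X 4 a)) ∧
    ⁅u, j (F.X 10 d)⁆ * t * ⁅u, j (F.X 10 d)⁆⁻¹ = t * ⁅u, F.X 10 d⁆ := by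
  have o := (ov10 d).cj (F.SB (F.uS m))
  have z := J.cM (J.mem (ov4 a)) (J.mem (ov10 d))
  have e : ⁅u, j (F.X 10 d)⁆ = j (u * F.X 10 d * u⁻¹) * j (F.X 10 d) := by rw [J.cj _ (F.uL m), commutatorElement_def, J.inv]
  refine ⟨⟨cm_mem (J.BM (F.SB (F.uS m))) (J.mem (ov10 d)), mem_cent1.2 (of_cm1 ?_).symm⟩, ?_⟩
  · rw [e, cmr, cfix (J.MZ (J.mem o)) z, J.cj _ (F.uL m), ← fix_of (J.cen (F.uL m) (mem_cent.1 ((F.cen _ [4]) m) _ (F.x 4 a)).symm),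
      ← cj_comm', fix_of (J.cen (F.uL m) (mem_cent.1 ((F.cen _ [4]) m) _ (F.x 4 a)).symm), cfix (F.BZ (F.SB (F.uS m))) z, F.ZZ _ z]
  · rw [e, tr_mul (J.tv o) (J.tv (ov10 d)), cfix (J.MV (J.mem o)) (F.x 10 d), commutatorElement_def, inv_sq (F.xx 10 d)]

theorem c8 (m : g ∈ F.M j) (e : g * t * g⁻¹ = t * F.X 8 c) (a : K) : g ∈ 𝐂₁ (j (F.X 4 a)) := by
  have i : ∀ {u}, u ∈ F.U [0, 1] → ⁅u, F.X 10 1⁆ ∈ Tr t F.V (F.M j ⊓ 𝐂₁ (j (F.X 4 a))) := fun m =>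
    ⟨cm_mem (F.BV (F.SB (F.uS m))) (F.x 10 1), _, ⟨(J.cu m a 1).1, J.MV (J.cu m a 1).1.1⟩, (J.cu m a 1).2⟩
  have a4 : ∀ c, F.X 4 c ∈ Tr t F.V (F.M j ⊓ 𝐂₁ (j (F.X 4 a))) := fun c => ⟨F.x 4 c, _, ⟨⟨J.mem (ov4 c),
    mem_cent1.2 (by rw [← J.add4, ← J.add4, add_comm])⟩, J.MV (J.mem (ov4 c))⟩, J.tv (ov4 c)⟩
  have a7 : ∀ c, F.X 7 c ∈ Tr t F.V (F.M j ⊓ 𝐂₁ (j (F.X 4 a))) := fun c => ⟨F.x 7 c, _, ⟨⟨J.mem7 c,
    mem_cent1.2 (J.bz a c).symm⟩, J.MV (J.mem7 c)⟩, J.t7 c⟩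
  have a5 : ∀ c, F.X 5 c ∈ Tr t F.V (F.M j ⊓ 𝐂₁ (j (F.X 4 a))) := fun c => by
    rw [show F.X 5 c = F.X 4 (σ c) * ⁅F.X 1 c, F.X 10 1⁆ * F.X 7 c from F.eq [c]]
    exact mul_mem (mul_mem (a4 _) (i (F.x 1 c))) (a7 _)
  have l : F.X 8 c * ⁅F.X 0 c, F.X 10 1⁆⁻¹ ∈ F.I := F.mem [c]
  obtain ⟨-, g', p, q⟩ : F.X 8 c ∈ Tr t F.V (F.M j ⊓ 𝐂₁ (j (F.X 4 a))) := by
    simpa only [inv_mul_cancel_right] using
      mul_mem (Pa.U_le (by simp only [List.forall_mem_cons]; exact ⟨a4, a5, a7, by simp⟩) l) (i (F.x 0 c))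
  obtain ⟨v, o, rfl⟩ := J.dif p.1.1 m (q.trans e.symm)
  exact mul_mem p.1.2 (mem_cent1.2 (mem_cent.1 (J.MV (J.mem (ov4 a))) v o))

theorem c37 (a d : K) : Commute (j (F.X 4 a)) (j (F.X 10 d)) := by
  by_cases n : d = 0
  · simp [n, F.x0, J.j1]
  obtain ⟨u, rfl⟩ : ∃ u, a = σ u * d := let ⟨u, e⟩ := σ_sur (a / d); ⟨u, by rw [e, div_mul_cancel₀ _ n]⟩
  obtain ⟨⟨p, q⟩, r⟩ := J.cu (F.x 1 u) (σ u * d) d
  have m := mul_mem p (mul_mem (J.mem (ov4 (σ u * d))) (J.mem7 (u * σ d)))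
  have e := tr_mul r (tr_mul (J.tv (ov4 (σ u * d))) (J.t7 (u * σ d)))
  rw [cfix (J.MV (J.mem (ov4 _))) (F.x 7 _), cfix (J.MV p) (mul_mem (F.x 4 _) (F.x 7 _)),
    show ⁅F.X 1 u, F.X 10 d⁆ * (F.X 4 (σ u * d) * F.X 7 (u * σ d)) = F.X 5 (u * d) from F.eq [u, d]] at e
  have i := J.sq4 m e
  have e' := tr_cj e (J.Lt F.nL)
  rw [(F.nx _).2.2.2.1] at e'
  have l := mem_cent1.1 (J.c8 (conj_mem_of_norm (J.BM F.nB) m) e' d)
  rw [← J.n10 d, conj_mul, conj_mul, mul_left_inj, mul_right_inj] at l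
  have z := J.vz (ov10 d) (u * σ d)
  have z' : Commute (j (F.X 7 (u * σ d))) ⁅F.X 1 u, j (F.X 10 d)⁆ := by
    rw [commutatorElement_def, ← J.cj _ (F.xL 1 u), J.inv]
    exact (J.vz ((ov10 d).cj (F.SB (F.x 1 u))) _).symm.mul_right z.symm
  rw [sq_tw (Commute.mul_left (mem_cent1.1 q).symm z') (by rw [← J.zb, J.sq])] at i
  have y : Commute (j (F.X 10 d)) ⁅F.X 1 u, j (F.X 10 d)⁆ := by
    rw [commutatorElement_def, J.inv] at i ⊢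
    exact (show Commute _ _ from (of_cm1 ((cm_sq (by rw [conj_mul, J.sq]; simp) (J.sq _)).trans i)).symm).mul_right rfl
  have := (y.inv_right.mul_right (show Commute _ _ from l.symm)).mul_right z.inv_right
  rw [inv_mul_cancel_left, mul_inv_cancel_right] at this
  exact this.symm

theorem ab (m : g ∈ F.M j) (m' : g' ∈ F.M j) : Commute g g' := by
  have i : ∀ c v, F.Ov v → Commute (j (F.X 4 c)) (j v) := by
    rintro c _ ⟨b, o, d, rfl⟩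
    have z : ∀ c d, Commute (j (F.X 4 c)) (j (F.X 4 d)) := fun c d => by rw [Commute, SemiconjBy, ← J.add4, ← J.add4, add_comm]
    obtain ⟨s, p, h, q, rfl | ⟨u, l, rfl⟩⟩ := F.brB o <;> obtain ⟨μ, r⟩ := F.tz q
    · obtain ⟨e, y⟩ := F.sW p (μ * σ μ * d)
      rw [cj2, (r.act d).2.2.2.2.1, y, J.zb]
      exact (z _ _).mul_right (J.bz _ _)
    · obtain ⟨e, y⟩ := J.sv (inv_mem p) c
      rw [cj2, cj2, cj2, cfix ((F.cen _ [4]) l) (F.x 4 d), (F.nx d).2.2.1, (r.act d).2.2.2.2.2.2.2.2.2.2.1, J.cj _ (F.SL p),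
        ← cj_inv y, inv_inv, Commute, SemiconjBy, conj_mul, conj_mul, ((J.c37 _ _).mul_left (J.vz (ov10 _) e).symm).eq]
  have l : ∀ v, F.Ov v → F.M j ≤ 𝐂₁ (j v) := fun v o => M_le (fun w p => mem_cent1.2 (mem_cent.1 (J.MV (J.mem o)) w p))
    fun w p => by
      obtain ⟨b, q, c, rfl⟩ := p
      have := i c _ (o.cj (inv_mem q))
      rw [J.cj _ (inv_mem (mem_inf.1 q).1), inv_inv] at this
      rw [J.cj _ q.1, mem_cent1, ← cj_inv (rfl : b⁻¹ * j v * b⁻¹⁻¹ = _), inv_inv, conj_mul, conj_mul, this.eq]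
  exact mem_cent1.1 (M_le (fun v p => mem_cent1.2 (mem_cent.1 (J.MV m') v p)) (fun v o => mem_cent1_comm.1 (l v o m')) m)

theorem el (m : g ∈ F.M j) : g * g = 1 := by
  have : ∀ g ∈ closure (j '' {v | F.Ov v}), g * g = 1 := fun g m => by
    induction m using closure_induction with
    | mem x m => obtain ⟨v, -, rfl⟩ := m; exact J.sq v
    | one => simp
    | mul x y p q a b => rw [sq_tw (J.ab (mem_sup_right q) (mem_sup_right p)) b, a]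
    | inv x _ a => rw [← mul_inv_rev, a, inv_one]
  obtain ⟨v, p, x, q, rfl⟩ := (mem_sup_norm' (norm_of_cent fun x i => J.MV (mem_sup_right i))).1 m
  rw [sq_tw (J.ab (mem_sup_right q) (J.VM p)) (this x q), F.sqV p]

end Jl
end Oc
end CF.Of
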