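/-
Standard subgroups of type `²F₄(q)`: the doubling of `X 5`.
-/
import Cfsg.Agent.Of.R1
set_option autoImplicit false
set_option linter.unusedSectionVars false
set_option synthInstance.maxSize 100000
set_option synthInstance.maxHeartbeats 200000

namespace CF.Of
open Subgroup Cfsg CF.BG CF.Sig CF.Ab2 CF.Rd
open scoped commutatorElement

local notation "σ" => Pa.Ti.σ

variable {K : Type*} [Field K] [Pa.Ti K] [Finite K] {G : Type*} [Group G] [Finite G] {g g' h h' s u x y t p q v w l r : G}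
  {a b c d μ ν : K} {j : G → G} {k : ℕ}

namespace Oc
variable (F : Oc K G)

/-- the torus centralising `X 5` -/
abbrev Hb : Subgroup G := F.H ⊓ 𝐂₁ (F.X 5 1)

theorem tb (p : Tb F.X h μ) (m : h ∈ F.H) : h ∈ F.Hb := ⟨m, mem_cent1.2 (of_fix (p.act 1).2.2.2.2.2.1)⟩

theorem N5 : 𝐍 F.L ⊓ 𝐂 (F.W ⊔ F.Hb) ≤ 𝐂 F.L ⊔ F.U [5] := F.cN le_sup_left (sup_le (F.UL _) (inf_le_left.trans F.HL)) fun s m e => by
  obtain ⟨μ, h0, h1, -, h3, -, h5, h6, h7, h8, h9⟩ := exw F.big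
  obtain ⟨h, i, q⟩ := F.exb h0
  obtain ⟨a0, a1, a2, a3, a4, -, a6, a7, a8, a9, a10, a11⟩ := q.act 1
  refine F.fixS q (F.uS m) (fix_of (e h (mem_sup_right (F.tb q i))).symm) fun k l n => ?_
  interval_cases k
  exacts [⟨_, h5, a0⟩, ⟨_, h6, a1⟩, ⟨_, h7, a2⟩, ⟨_, h8, a3⟩, ⟨_, h5, a4⟩, by simp at n, ⟨_, h9, a6⟩, ⟨_, h1, a7⟩,
    ⟨_, fun e => h7 (by rw [eq_of_add e, inv_one, aa]), a8⟩, ⟨_, h1, a9⟩, ⟨_, h3, a10⟩,
    ⟨_, fun e => h1 (pow_eq_zero_iff two_ne_zero |>.1 (by linear_combination e + aa μ)), a11⟩]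

/-- the doubling of `X 5` -/
structure J4 (t : G) (j : G → G) (E : K → G) (ε : K) : Prop extends F.Jl t j where
  EM : ∀ c, E c ∈ F.M j
  Et : ∀ c, E c * t * (E c)⁻¹ = t * F.X 5 c
  EQ : ∀ c, E c ∈ 𝐂 F.QI
  E8 : ∀ c d, F.X 11 d * E c = E c * F.X 11 d
  Em : ∀ c, F.m * E c * F.m⁻¹ = E c
  Eh : ∀ h ∈ F.H, ∀ c d, h * F.X 5 c * h⁻¹ = F.X 5 d → h * E c * h⁻¹ = E d
  Ea : ∀ c d, E (c + d) = E c * E d
  Y : ∀ u d, ⁅F.X 1 u, j (F.X 10 d)⁆ = j (F.X 4 (σ u * d)) * E (u * d) * j (F.X 7 (u * σ d)) * F.X 7 (ε * (u * σ d))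

variable {F}

namespace Jl
variable (J : F.Jl t j)
include J

theorem c27 (a d : K) : F.X 2 a * j (F.X 10 d) * (F.X 2 a)⁻¹ = j (F.X 10 d) * j (F.X 7 (a * d)) := by
  rw [← J.cj _ (F.xL 2 a), (F.eq [a, d] : F.X 2 a * F.X 10 d * (F.X 2 a)⁻¹ = F.X 10 d * F.X 7 (a * d)), ← (F.nx d).2.2.1, ← (F.nx _).2.2.2.2.2.1, conj_mul,
    J.cj _ F.nL, J.zb, ← conj_mul, J.cj _ F.nL, J.cj _ F.nL]

theorem cjY (n : s ∈ F.S) (e : s * F.X 10 d = F.X 10 d * s) (u a : K)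
    (m : (F.X 1 u * F.X 2 a)⁻¹ * (s * F.X 1 u * s⁻¹) ∈ F.U [3, 4, 5, 6, 7, 8, 9, 10]) :
    s * ⁅F.X 1 u, j (F.X 10 d)⁆ * s⁻¹ = ⁅F.X 1 u, j (F.X 10 d)⁆ * j (F.X 7 (a * d)) := by
  rw [cj_comm', fix_of (J.cen (F.SL n) e), ← mul_inv_cancel_left (F.X 1 u * F.X 2 a) (s * _ * _), cml,
    cm1 (J.cen (F.uL m) (mem_cent.1 ((F.cen _ [10]) m) _ (F.x 10 d)).symm), mul_one, mul_inv_cancel, one_mul, cml,
    commutatorElement_def (F.X 2 a), J.c27, (J.vz (ov10 d) _).eq, mul_inv_cancel_right, J.b7 (F.SB (F.x 1 u))]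
  exact (J.ab (J.mem7 _) (J.cu (F.x 1 u) 0 d).1.1).eq

theorem g4 : ∃ g ∈ F.M j ⊓ 𝐂 F.Hb ⊓ 𝐂 F.QI, g * t * g⁻¹ = t * F.X 5 1 ∧ ∃ e, F.m * g * F.m⁻¹ = g * F.X 5 e := by
  obtain ⟨⟨p, -⟩, r⟩ := J.cu (F.x 1 1) 0 1
  have m := mul_mem p (mul_mem (J.mem (ov4 1)) (J.mem7 1))
  have e := tr_mul r (tr_mul (J.tv (ov4 1)) (J.t7 1))
  rw [cfix (J.MV (J.mem (ov4 _))) (F.x 7 _), cfix (J.MV p) (mul_mem (F.x 4 _) (F.x 7 _)),
    show ⁅F.X 1 1, F.X 10 1⁆ * (F.X 4 1 * F.X 7 1) = F.X 5 1 from F.eq ([] : List K)] at e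
  generalize ⁅F.X 1 1, j (F.X 10 1)⁆ * _ = x at m e
  have HV : F.Hb ≤ 𝐍 F.V := fun h m => F.HU m.1 _
  have i := sup_inf_cent_of_comm_le (K := zpowers x ⊔ F.V) (N := F.V) (A := F.Hb) le_sup_right HV
    (cop2' (F.Hod.le inf_le_left) (F.pS.le (F.US _))) (.inr (F.pS.le (F.US _)).nil.sol) (le_centMod.1 (sup_le (zpowers_le.2
      (mem_centMod.2 ⟨cent_le_norm _ (J.MV m), fun h i => by
        obtain ⟨v, l, o⟩ := J.dif m (conj_mem_of_norm (J.HM i.1) m) (by rw [tr_cj e (J.Lt (F.HL i.1)), fix_of (mem_cent1.1 i.2), e])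
        refine cm_symm ?_
        rwa [commutatorElement_def, o, cfix (J.MV m) l]⟩)) (le_centMod.2 ⟨le_norm_self _, comm_le_left HV⟩))).2
  obtain ⟨s, s1, y, y1, rfl⟩ := (mem_sup_norm' (inf_le_left.trans (sup_le (zp_norm.2 (cent_le_norm _ (J.MV m))) (le_norm_self _)))).1
    (i.ge (mem_sup_left (mem_zpowers x)))
  replace m : y ∈ F.M j := by simpa using mul_mem (inv_mem (J.VM s1)) m
  have e' := tr_mul (tr_one (J.Lt (inv_mem (F.uL s1)))) e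
  rw [inv_mul_cancel_left, one_mul, cfix (inv_mem (F.VV' s1)) (F.x 5 1)] at e'
  have e2 := tr_cj e' (J.Lt F.mL)
  rw [(F.mx 1).2.2.2.2.2.1] at e2
  have nb : F.m ∈ 𝐍 F.Hb := zp_norm.1 (norm_inf (zp_norm.2 F.Hm) (zp_norm.2 (cj_eq_self.1 (by rw [cj_cent1, (F.mx 1).2.2.2.2.2.1]))))
  have yW : y ∈ 𝐂 (F.W ⊔ F.Hb) := (cent_sup _ _).ge ⟨cent_anti (Pa.U_mono (by decide)) (J.MV m), y1.2⟩
  obtain ⟨c, _, q, rfl⟩ := F.nf (J.h2.inv_dec (F.UL _) (fun _ m => F.sqV (F.le m)) F.N5 (tr_inv e' e2) (mul_mem (inv_mem yW)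
    (conj_mem_of_norm (norm_le_norm_cent _ (zp_norm.1 (norm_sup (zp_norm.2 (F.mN _)) (zp_norm.2 nb)))) yW)) (J.MX m).1.2 e'
    (fun i => one_ne_zero (F.x1 (by decide) i)) (cent_anti (Pa.U_mono (by decide)) (J.MV m)) (by
      rw [mul_inv_rev, inv_inv, mul_inv_cancel_left, inv_sq (J.el m),
        inv_sq (x := F.m * y * F.m⁻¹) (by rw [conj_mul, J.el m]; simp)]))
  rw [mul_one, inv_mul_eq_iff_eq_mul] at q
  have yΦ := (J.MX m).1.1.1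
  have o : ∀ k ∈ [4, 5, 6, 7, 8, 10], ∀ d, y * (F.m * F.X k d * F.m⁻¹) = F.m * F.X k d * F.m⁻¹ * y := fun k l d => by
    rw [eq_mul_inv_of_mul_eq q.symm]
    refine Commute.mul_left ?_ (Commute.inv_left (mem_cent.1 ((F.cen [1, 2, 3, 4, 5, 6, 7, 8, 10] [5])
      (conj_mem_of_norm (F.mN _) (F.le (Pa.x_mem l d)))) _ (F.x 5 c)))
    rw [Commute, SemiconjBy, conj_mul, conj_mul, mem_cent.1 yΦ _ (Pa.x_mem l d)]
  refine ⟨y, ⟨⟨m, y1.2⟩, cU fun k l d => ?_⟩, e', c, q⟩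
  by_cases i : k ∈ [4, 5, 6, 7, 8, 10]
  · exact (mem_cent.1 yΦ _ (Pa.x_mem i d)).symm
  simp only [List.forall_mem_cons, F.mx] at o
  obtain rfl | rfl | rfl : k = 1 ∨ k = 2 ∨ k = 3 := by simp at l i; omega
  exacts [o.2.2.2.2.2.1 d, o.2.2.2.2.1 d, o.2.2.1 d]

theorem g5 : ∃ g ∈ F.M j ⊓ 𝐂 F.Hb ⊓ 𝐂 F.QI, g * t * g⁻¹ = t * F.X 5 1 ∧ (∀ d, F.X 11 d * g = g * F.X 11 d) ∧ F.m * g = g * F.m ∧
    ∃ ε, ⁅F.X 1 1, j (F.X 10 1)⁆ = j (F.X 4 1) * g * j (F.X 7 1) * F.X 7 ε := by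
  obtain ⟨g, m, e, f, em⟩ := J.g4
  obtain ⟨⟨p, -⟩, r⟩ := J.cu (F.x 1 1) 0 1
  have m4 := J.mem (ov4 1)
  obtain ⟨v, i, q⟩ := J.dif (mul_mem (mul_mem m4 m.1.1) (J.mem7 1)) p (by
    rw [r, tr_mul (tr_mul (J.tv (ov4 1)) e) (J.t7 1), cfix (J.MV m4) (F.x 5 1), cfix (J.MV (mul_mem m4 m.1.1)) (F.x 7 1)]
    exact congrArg _ (F.eq ([] : List K)))
  have z : F.X 1 1 * ⁅F.X 1 1, j (F.X 10 1)⁆ * (F.X 1 1)⁻¹ = ⁅F.X 1 1, j (F.X 10 1)⁆ := by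
    conv_rhs => rw [← inv_sq (J.el p), commutatorElement_inv]
    simp only [commutatorElement_def, inv_sq (F.xx 1 1), ← mul_assoc, F.xx 1, one_mul, J.inv]
  rw [q, ← conj_mul, ← conj_mul, ← conj_mul, cfix' m.2 (F.x 1 1), J.b7 (F.SB (F.x 1 1)),
    fix_of (J.cen (F.xL 1 1) (F.eq ([] : List K))), mul_right_inj] at z
  obtain ⟨a, b, c, d, e', rfl⟩ := F.mV i
  obtain rfl := F.co [a, b, c, d, e'] 5 z e'
  obtain rfl := F.co [a, b, c, d] 4 z d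
  have w : ∀ d, F.X 11 d * g * (F.X 11 d)⁻¹ = g * F.X 7 (a * d) := fun d => by
    have := J.cjY (F.x 11 d) (F.eq [d] : _ = F.X 10 1 * _) 1 d (F.mem [d])
    rw [q, ← conj_mul, ← conj_mul, ← conj_mul, J.b7 (F.SB (F.x 11 d)), ← J.cj _ (F.xL 11 d), F.e4, J.zb, mul_one,
      show F.X 11 d * (F.X 4 a * F.X 5 b * F.X 7 c * F.X 8 0 * F.X 10 0) * (F.X 11 d)⁻¹ =
        F.X 7 (a * d) * (F.X 4 a * F.X 5 b * F.X 7 c * F.X 8 0 * F.X 10 0) from F.eq [a, b, c, d], mul_assoc _ _ (j (F.X 7 d)),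
      (J.ab (J.VM i) (J.mem7 d)).eq, ← mul_assoc, ← mul_assoc _ (j _), mul_left_inj, mul_assoc _ (j _) (F.X 7 _),
      (J.ab (J.mem7 1) (J.VM (F.x 7 _))).eq, mul_assoc _ (j _) (j _), (J.ab (J.mem7 1) (J.mem7 d)).eq, ← mul_assoc, ← mul_assoc _ (j _),
      mul_left_inj, mul_assoc, mul_assoc, mul_assoc (j (F.X 4 1)), mul_right_inj, (J.ab m.1.1 (J.mem7 d)).eq, mul_right_inj] at this
    rw [eq_mul_inv_of_mul_eq this, inv_sq (F.xx 7 _)]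
  obtain rfl : a = 0 := by
    obtain ⟨μ, h0, -, h1, -⟩ := ex3 F.big
    obtain ⟨h, i, r⟩ := F.exb h0
    have := w (μ ^ 2 * 1)
    rw [← (r.act 1).2.2.2.2.2.2.2.2.2.2.2, ← cfix' m.1.2 (F.tb r i), conj_inv (b := h), conj_mul, conj_mul, w, ← conj_mul,
      (r.act _).2.2.2.2.2.2.2.1, mul_right_inj] at this
    exact (mul_eq_zero.1 (by linear_combination aa (a * μ) - F.xinj (by decide) this : μ * (μ + 1) * a = 0)).resolve_left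
      (mul_ne_zero h0 h1)
  simp only [zero_mul, F.x0, mul_one, one_mul] at w q
  have w' : ∀ d, Commute (F.X 11 d) g := fun d => of_fix (w d)
  have w0 : Commute (F.m * F.X 11 1 * F.m⁻¹) g := by
    rw [eq_mul_inv_of_mul_eq em.symm]
    refine Commute.mul_right ?_ (Commute.inv_right ?_)
    · rw [Commute, SemiconjBy, conj_mul, conj_mul, (w' 1).eq]
    · rw [← (F.mx f).2.2.2.2.2.1, Commute, SemiconjBy, conj_mul, conj_mul, (F.eq [f] : F.X 11 1 * F.X 5 f = F.X 5 f * F.X 11 1)]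
  refine ⟨g * F.X 5 b, mul_mem m ⟨⟨J.VM (F.x 5 b), mem_cent.2 fun h i => ?_⟩, (F.cen [5] _) (F.x 5 b)⟩, by
    rw [tr_mul e (tr_one (J.Lt (F.xL 5 b)))]; simp, fun d => (w' d).mul_right (F.eq [b, d]), ?_, c, ?_⟩
  · obtain ⟨_, _, p⟩ := F.Hx h i.1
    have := F.xinj (by decide) ((p.2.2 5 (by decide) 1).symm.trans (fix_of (mem_cent1.1 i.2)))
    exact of_fix (by rw [p.2.2 5 (by decide), ← mul_one (wt _ _ _), this, one_mul])
  · refine Commute.mul_right ?_ (of_fix (F.mx b).2.2.2.2.2.1)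
    rw [F.mi] at w0
    exact F.m3 ▸ ((w' 1).mul_left w0).mul_left (w' 1)
  · rw [q, mul_assoc _ (j _), ← mul_assoc (j _) (F.X 5 b), (J.ab (J.mem7 1) (J.VM (F.x 5 b))).eq]
    simp only [mul_assoc]

theorem exJ4 : ∃ E ε, F.J4 t j E ε := by
  obtain ⟨g, m, e, e8, em, ε, Y⟩ := J.g5
  let E : K → G := fun c => j (F.X 4 (σ c)) * ⁅F.X 1 c, j (F.X 10 1)⁆ * (j (F.X 7 c) * F.X 7 (ε * c))⁻¹
  have y : ∀ u d, u ≠ 0 → d ≠ 0 → ∃ h ∈ F.H, h * F.X 5 1 * h⁻¹ = F.X 5 (u * d) ∧ ⁅F.X 1 u, j (F.X 10 d)⁆ =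
      j (F.X 4 (σ u * d)) * (h * g * h⁻¹) * j (F.X 7 (u * σ d)) * F.X 7 (ε * (u * σ d)) := fun u d p q => by
    obtain ⟨h, i, r⟩ := F.ex17 p q
    have := congrArg (fun x => h * x * h⁻¹) Y
    simp only [cj_comm', ← conj_mul (b := h), ← J.cj _ (F.HL i), r, mul_one] at this
    exact ⟨h, i, by rw [(r 1).2.2.2.1, mul_one], by rw [this, mul_comm ε]⟩
  have E0 : E 0 = 1 := by simp [E, F.x0, J.j1]
  have hE : ∀ h ∈ F.H, ∀ c, h * F.X 5 1 * h⁻¹ = F.X 5 c → h * g * h⁻¹ = E c := fun h i c r => by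
    obtain ⟨k, l, o, q⟩ := y c 1 (by rintro rfl; exact one_ne_zero (F.x1 (k := 5) (by decide) (by simpa [F.x0] using r))) one_ne_zero
    simp only [map_one, mul_one] at o q
    have := cfix' m.1.2 (g := k⁻¹ * h) (mem_inf.2 ⟨mul_mem (inv_mem l) i, mem_cent1.2 (of_fix (by rw [cj2, r, cj_inv o]))⟩)
    simp only [E, q, ← mul_assoc, J.sq, one_mul]
    nth_rewrite 2 [← this]; group
  have cs : ∀ {P : K → G → Prop}, P 0 1 → (∀ c, ∀ h ∈ F.H, h * F.X 5 1 * h⁻¹ = F.X 5 c → P c (h * g * h⁻¹)) → ∀ c, P c (E c) :=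
    fun p q c => (em' (c = 0)).elim (fun n => let ⟨h, i, r, _⟩ := y c 1 n one_ne_zero; hE h i c (mul_one c ▸ r) ▸
      q c h i (mul_one c ▸ r)) fun n => n ▸ E0 ▸ p
  have Y' : ∀ u d, ⁅F.X 1 u, j (F.X 10 d)⁆ = j (F.X 4 (σ u * d)) * E (u * d) * j (F.X 7 (u * σ d)) * F.X 7 (ε * (u * σ d)) :=
    fun u d => by
      by_cases p : u = 0
      · simp [p, E0, F.x0, J.j1]
      by_cases q : d = 0
      · simp [q, E0, F.x0, J.j1]
      obtain ⟨h, i, r, o⟩ := y u d p q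
      rw [o, hE h i _ r]
  have EM := cs (P := fun _ x => x ∈ F.M j) (one_mem _) fun c h i _ => conj_mem_of_norm (J.HM i) m.1.1
  refine ⟨E, ε, J, EM, cs (P := fun c x => x * t * x⁻¹ = t * F.X 5 c) (by simp [F.x0]) fun c h i r => r ▸ tr_cj e (J.Lt (F.HL i)),
    cs (P := fun _ x => x ∈ 𝐂 F.QI) (one_mem _) fun c h i _ => conj_mem_of_norm (norm_le_norm_cent _ (F.HU i _)) m.2,
    cs (P := fun _ x => ∀ d, F.X 11 d * x = x * F.X 11 d) (by simp) fun c h i _ d => ?_,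
    cs (P := fun _ x => F.m * x * F.m⁻¹ = x) (by simp) fun c h i r => ?_, fun h i => cs
      (P := fun c x => ∀ d, h * F.X 5 c * h⁻¹ = F.X 5 d → h * x * h⁻¹ = E d) (fun d r => by
        rw [F.x1 (k := 5) (c := d) (by decide) (by simpa [F.x0] using r.symm), E0]; simp)
      fun c k l r d o => by rw [← cj2]; exact hE _ (mul_mem i l) d (by rw [cj2, r, o]), fun c d => ?_, Y'⟩
  · obtain ⟨_, _, p⟩ := F.Hx _ (inv_mem i)
    rw [← cj_inv (p.2.2 11 (by decide) d), inv_inv, conj_mul, conj_mul, e8]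
  · have := hE _ (conj_mem_of_norm F.Hm i) c (by rw [cj2, cj2, cj_inv (F.mx 1).2.2.2.2.2.1, r, (F.mx c).2.2.2.2.2.1])
    rwa [cj2, cj2, cj_inv (fix_of em), ← hE h i c r] at this
  · have := Y' 1 (c + d)
    rw [J.add10, cmr, Y', Y', fix_of (J.ab (J.mem (ov10 c)) (Y' 1 d ▸ (J.cu (F.x 1 1) 0 d).1.1)).eq] at this
    simp only [map_one, one_mul, map_add, mul_add, J.add, J.add4] at this
    rw [F.xa 7] at this
    have z : ∀ {x y}, x ∈ F.M j → y ∈ F.M j → ∀ w, x * (y * w) = y * (x * w) := fun p q w => by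
      rw [← mul_assoc, (J.ab p q).eq, mul_assoc]
    simp only [mul_assoc, mul_right_inj] at this
    rw [z (J.VM (F.x 7 _)) (J.mem (ov4 d)), z (J.mem7 _) (J.mem (ov4 d)), z (EM c) (J.mem (ov4 d)), mul_right_inj,
      z (J.VM (F.x 7 _)) (EM d), z (J.mem7 _) (EM d), z (J.VM (F.x 7 _)) (J.mem7 _), ← mul_assoc (E c), mul_left_inj] at this
    exact this.symm

end Jl
end Oc
end CF.Of
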