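/-
Standard subgroups of type `²F₄(q)`: the commutators of the doubled elements.
-/
import Cfsg.Agent.Of.R2
set_option autoImplicit false
set_option linter.unusedSectionVars false
set_option synthInstance.maxSize 100000
set_option synthInstance.maxHeartbeats 200000

namespace CF.Of
open Subgroup Cfsg CF.BG CF.Sig CF.Ab2 CF.Rd
open scoped commutatorElement

local notation "σ" => Pa.Ti.σ

variable {K : Type*} [Field K] [Pa.Ti K] [Finite K] {G : Type*} [Group G] [Finite G] {g g' h h' s u x y t p q v w l r : G}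
  {a b c d μ ν ε : K} {j : G → G} {k : ℕ} {E : K → G}

theorem tj' (tt : t * t = 1) (e : g * t * g⁻¹ = t * v) (c : g * v = v * g) : t * g * t⁻¹ = g * v := by
  rw [inv_sq tt, c, ← inv_mul_cancel_left t v, ← e, inv_sq tt]; group

namespace Oc
variable (F : Oc K G)

/-- the doubling of `I` -/
abbrev D (j : G → G) : Subgroup G := F.M j ⊓ cj F.m (F.M j)

variable {F}

namespace J4
variable (J : F.J4 t j E ε)
include J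

theorem mM (m : x ∈ F.M j) : F.m * x * F.m⁻¹ ∈ cj F.m (F.M j) := conj_mem_cj.2 m
theorem ab' (m : x ∈ cj F.m (F.M j)) (n : y ∈ cj F.m (F.M j)) : Commute x y := by
  obtain ⟨x, p, rfl⟩ := mem_cj_iff.1 m
  obtain ⟨y, q, rfl⟩ := mem_cj_iff.1 n
  rw [Commute, SemiconjBy, conj_mul, conj_mul, (J.ab p q).eq]
theorem d4 (c : K) : j (F.X 4 c) ∈ F.D j := ⟨J.mem (ov4 c), J.m7 c ▸ J.mM (J.mem7 c)⟩
theorem d7 (c : K) : j (F.X 7 c) ∈ F.D j := ⟨J.mem7 c, J.m4 c ▸ J.mM (J.mem (ov4 c))⟩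
theorem dE (c : K) : E c ∈ F.D j := ⟨J.EM c, J.Em c ▸ J.mM (J.EM c)⟩
theorem dI (m : x ∈ F.I) : x ∈ F.D j := ⟨J.VM (F.le m), F.mm x ▸ J.mM (J.VM (F.le (conj_mem_of_norm (F.mN _) m)))⟩
theorem D10 (c : K) : j (F.X 10 c) ∈ 𝐂 (F.D j) := mem_cent.2 fun _ m => J.ab m.1 (J.mem (ov10 c))
theorem D1 (c : K) : j (F.X 1 c) ∈ 𝐂 (F.D j) := mem_cent.2 fun _ m => J.ab' m.2 (J.m10 c ▸ J.mM (J.mem (ov10 c)))
theorem X10 (c : K) : F.X 10 c ∈ 𝐂 (F.D j) := mem_cent.2 fun _ m => J.ab m.1 (J.VM (F.x 10 c))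
theorem X1 (c : K) : F.X 1 c ∈ 𝐂 (F.D j) :=
  mem_cent.2 fun _ m => J.ab' m.2 ((F.mx c).2.2.2.2.2.2.2.2.2.2 ▸ J.mM (J.VM (F.x 10 c)))
theorem DD (m : x ∈ F.D j) : x ∈ 𝐂 (F.D j) := mem_cent.2 fun _ n => J.ab n.1 m.1
theorem dY (u d : K) : ⁅F.X 1 u, j (F.X 10 d)⁆ ∈ F.D j :=
  J.Y u d ▸ mul_mem (mul_mem (mul_mem (J.d4 _) (J.dE _)) (J.d7 _)) (J.dI (F.x 7 _))

theorem Y' (u d : K) : ⁅F.X 10 u, j (F.X 1 d)⁆ = j (F.X 7 (σ u * d)) * E (u * d) * j (F.X 4 (u * σ d)) * F.X 4 (ε * (u * σ d)) := by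
  have := congrArg (fun x => F.m * x * F.m⁻¹) (J.Y u d)
  simpa only [cj_comm', ← conj_mul (b := F.m), J.m4, J.m7, J.m10, J.Em, F.mx] using this

theorem dY' (u d : K) : ⁅F.X 10 u, j (F.X 1 d)⁆ ∈ F.D j :=
  J.Y' u d ▸ mul_mem (mul_mem (mul_mem (J.d7 _) (J.dE _)) (J.d4 _)) (J.dI (F.x 4 _))

theorem t1' (c : K) : j (F.X 1 c) * t * (j (F.X 1 c))⁻¹ = t * F.X 1 c := by
  have := tr_cj (J.tv (ov10 c)) (J.Lt F.mL)
  rwa [J.m10, (F.mx c).2.2.2.2.2.2.2.2.2.2] at this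

theorem sw (m : x ∈ F.D j) (n : y ∈ F.D j) (w : G) : x * (y * w) = y * (x * w) := by rw [← mul_assoc, (J.ab m.1 n.1).eq, mul_assoc]
theorem cn (m : x ∈ F.D j) (w : G) : x * (x * w) = w := by rw [← mul_assoc, J.el m.1, one_mul]

theorem cQI : ⁅j (F.X 1 1), j (F.X 10 1)⁆ ∈ 𝐂 F.QI := by
  have e : ∀ x, ⁅j (F.X 1 1), j (F.X 10 1)⁆ * x = x * ⁅j (F.X 1 1), j (F.X 10 1)⁆ → ⁅j (F.X 1 1), j (F.X 10 1)⁆ * (F.m * x * F.m⁻¹) =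
      F.m * x * F.m⁻¹ * ⁅j (F.X 1 1), j (F.X 10 1)⁆ := fun x e => by
    rw [← commutatorElement_inv, ← J.m1, ← J.m10 1, ← cj_comm', J.m10, conj_inv, conj_mul, conj_mul, commutatorElement_inv,
      ← commutatorElement_inv, (show Commute _ _ from e).inv_left.eq]
  have e2 : ∀ d, ⁅j (F.X 1 1), j (F.X 10 1)⁆ * F.X 2 d = F.X 2 d * ⁅j (F.X 1 1), j (F.X 10 1)⁆ := fun d => (of_fix (by
    rw [cj_comm', J.c27, fix_of (J.cen (F.xL 2 d) (F.eq [d])), cmr, cm1 (mem_cent.1 (J.D1 1) _ (J.d7 _)).symm]; simp)).symm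
  have e1 : ∀ d, ⁅j (F.X 1 1), j (F.X 10 1)⁆ * F.X 1 d = F.X 1 d * ⁅j (F.X 1 1), j (F.X 10 1)⁆ := fun d => (of_fix (by
    rw [cj_comm', fix_of (J.cen (F.xL 1 d) (F.eq [d])), cj_eq (F.X 1 d), cmr, cm1 (mem_cent.1 (J.D1 1) _ (J.dY _ _)).symm, one_mul,
      cfix' (cm_mem (le_norm_self _ (J.D1 1)) (J.D10 1)) (J.dY _ _)])).symm
  refine cU fun k l d => ?_
  by_cases i : k ∈ [3, 4, 5, 6, 7]
  · have o := (F.cen [3, 4, 5, 6, 7] [1, 10]) (Pa.x_mem i d)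
    exact (of_fix (by rw [cj_comm', fix_of (J.cen (F.uL (Pa.x_mem l d)) (mem_cent.1 o _ (F.x 1 1)).symm),
      fix_of (J.cen (F.uL (Pa.x_mem l d)) (mem_cent.1 o _ (F.x 10 1)).symm)])).symm
  obtain rfl | rfl | rfl | rfl : k = 1 ∨ k = 2 ∨ k = 8 ∨ k = 10 := by simp at l i; omega
  exacts [e1 d, e2 d, (F.mx d).2.2.1 ▸ e _ (e2 d), (F.mx d).2.1 ▸ e _ (e1 d)]

theorem C1 : ∃ γ δ, ⁅j (F.X 1 1), j (F.X 10 1)⁆ =
    j (F.X 4 (1 + ε)) * E 1 * j (F.X 7 (1 + ε)) * (F.X 4 γ * F.X 5 δ * F.X 7 γ) := by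
  have tt := J.h2.tt
  have m := mul_mem (mul_mem (J.d4 (1 + ε)) (J.dE 1)) (J.d7 (1 + ε))
  have c := cm_mem (le_norm_self _ (J.D1 1)) (J.D10 1)
  have i : ⁅F.X 1 1, F.X 10 1⁆ = F.X 4 1 * F.X 5 1 * F.X 7 1 := F.eq ([] : List K)
  have i' : ⁅F.X 1 1, F.X 10 1⁆ ∈ F.D j := J.dI (F.mem ([] : List K))
  have e1 : t * ⁅j (F.X 1 1), j (F.X 10 1)⁆ * t⁻¹ = ⁅j (F.X 1 1), j (F.X 10 1)⁆ * (F.X 4 (1 + ε) * F.X 5 1 * F.X 7 (1 + ε)) := by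
    rw [cj_comm', tj' tt (J.t1' 1) (J.cen (F.xL 1 1) rfl).symm, tj' tt (J.tv (ov10 1)) (J.cen (F.xL 10 1) rfl).symm, cml, cmr, cmr,
      cfix (J.D10 1) i', cfix (J.D1 1) (mul_mem (J.dY _ _) i'), ← commutatorElement_inv (F.X 10 1) (j _), cfix (J.D10 1) (inv_mem (J.dY' _ _)),
      inv_sq (J.el (J.dY' _ _).1), ← mul_assoc, mem_cent.1 c _ (mul_mem (J.dY _ _) i'), mul_assoc, mul_right_inj, J.Y, J.Y', i]
    simp only [map_one, mul_one, mul_assoc]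
    rw [J.sw (J.dI (F.x 7 1)) (J.d7 1), J.sw (J.dI (F.x 5 1)) (J.d7 1), J.sw (J.dI (F.x 4 1)) (J.d7 1), J.sw (J.dI (F.x 7 ε)) (J.d7 1),
      J.cn (J.d7 1), J.sw (J.dI (F.x 7 1)) (J.dE 1), J.sw (J.dI (F.x 5 1)) (J.dE 1), J.sw (J.dI (F.x 4 1)) (J.dE 1),
      J.sw (J.dI (F.x 7 ε)) (J.dE 1), J.cn (J.dE 1), J.sw (J.dI (F.x 7 1)) (J.d4 1), J.sw (J.dI (F.x 5 1)) (J.d4 1),
      J.sw (J.dI (F.x 4 1)) (J.d4 1), J.sw (J.dI (F.x 7 ε)) (J.d4 1), J.cn (J.d4 1)]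
    exact F.eq [ε]
  have e2 := tr_mul (tr_mul (J.tv (ov4 (1 + ε))) (J.Et 1)) (J.t7 (1 + ε))
  rw [cfix (J.MV (J.d4 _).1) (F.x 5 1), cfix (J.MV (mul_mem (J.d4 _) (J.dE _)).1) (F.x 7 _)] at e2
  have o : F.X 4 (1 + ε) * F.X 5 1 * F.X 7 (1 + ε) ∈ F.I := F.mem [ε]
  have mq : j (F.X 4 (1 + ε)) * E 1 * j (F.X 7 (1 + ε)) ∈ 𝐂 F.QI := mul_mem (mul_mem (F.jc J.toJ0 (F.UL _) ((F.cen [4] _) (F.x 4 _)))
    (J.EQ 1)) (F.jc J.toJ0 (F.UL _) ((F.cen [7] _) (F.x 7 _)))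
  replace e2 := tj' tt e2 (mem_cent.1 (J.MV m.1) _ (F.le o)).symm
  have em : F.m * (j (F.X 4 (1 + ε)) * E 1 * j (F.X 7 (1 + ε))) * F.m⁻¹ = j (F.X 4 (1 + ε)) * E 1 * j (F.X 7 (1 + ε)) := by
    rw [← conj_mul, ← conj_mul, J.m4, J.m7, J.Em, mul_assoc, mul_assoc, J.sw (J.d7 _) (J.dE _), J.sw (J.d4 _) (J.dE _), J.bz]
  generalize j (F.X 4 (1 + ε)) * E 1 * j (F.X 7 (1 + ε)) = y at *
  obtain ⟨a, b, d, e⟩ := F.mI (J.h2.inv_dec (g := y * ⁅j (F.X 1 1), j (F.X 10 1)⁆) (F.UL _) (fun _ m => F.sqV (F.le m)) F.N4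
    (of_fix (by rw [← conj_mul, e1, e2, mul_assoc, ← mul_assoc _ ⁅_, _⁆, mem_cent.1 c _ (J.dI o), mul_assoc ⁅_, _⁆,
      F.sqV (F.le o), mul_one])).symm (mul_mem mq J.cQI) (J.oj _) (J.t1' 1) (fun i => one_ne_zero (F.x1 (by decide) i))
    (cent_anti (fun _ => J.dI) (J.D1 1)) (by
      rw [← conj_mul, cfix (J.D1 1) m, mul_inv_rev, inv_sq (J.el m.1), ← mem_cent.1 (inv_mem c) y m, mul_right_inj]
      simp only [commutatorElement_def, mul_inv_rev, J.inv, ← mul_assoc, J.sq, one_mul]))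
  have z : F.X 4 a * F.X 5 b * F.X 7 d ∈ F.I := F.mem [a, b, d]
  have q := congrArg (fun x => F.m * x * F.m⁻¹) e
  simp only [← conj_mul (b := F.m), em, cj_comm', J.m1, J.m10, F.mx] at q
  replace e : ⁅j (F.X 1 1), j (F.X 10 1)⁆ = y * (F.X 4 a * F.X 5 b * F.X 7 d) := by rw [← e, J.cn m]
  rw [← commutatorElement_inv, e, inv_sq (J.el (mul_mem m (J.dI z)).1), J.cn m] at q
  obtain rfl : a = d := eq_of_add (F.co [a, b, d] 4 q _)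
  exact ⟨a, b, e⟩

end J4

/-- the relations between the doubled elements -/
structure J5 (F : Oc K G) (t : G) (j : G → G) (E : K → G) (ε γ δ : K) : Prop extends F.J4 t j E ε where
  C : ∀ a b, ⁅j (F.X 1 a), j (F.X 10 b)⁆ = j (F.X 4 ((1 + ε) * (σ a * b))) * E (a * b) * j (F.X 7 ((1 + ε) * (a * σ b))) *
    (F.X 4 (γ * (σ a * b)) * F.X 5 (δ * (a * b)) * F.X 7 (γ * (a * σ b)))

theorem J4.exJ5 (J : F.J4 t j E ε) : ∃ γ δ, F.J5 t j E ε γ δ := by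
  obtain ⟨γ, δ, e⟩ := J.C1
  refine ⟨γ, δ, J, fun a b => ?_⟩
  by_cases p : a = 0
  · simp [p, F.x0, J.j1, add_zero' J.Ea]
  by_cases q : b = 0
  · simp [q, F.x0, J.j1, add_zero' J.Ea]
  obtain ⟨h, i, r⟩ := F.ex17 p q
  have := congrArg (fun x => h * x * h⁻¹) e
  simp only [cj_comm', ← conj_mul (b := h), ← J.cj _ (F.HL i), J.Eh h i 1 _ (r 1).2.2.2.1, r, mul_one] at this
  simpa only [mul_comm (σ a * b), mul_comm (a * σ b), mul_comm (a * b)] using this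

namespace J4
variable (J : F.J4 t j E ε)
include J

theorem y7E (e c : K) : F.X 9 e * E c * (F.X 9 e)⁻¹ = E c * j (F.X 7 (e * c)) := by
  have := J.cjY (F.x 9 e) (F.eq [e] : _ = F.X 10 1 * _) c (e * c) (F.mem [c, e])
  rw [J.Y, ← conj_mul, ← conj_mul, ← conj_mul, J.b7 (F.SB (F.x 9 e)), fix_of (F.bz (F.SB (F.x 9 e)) _),
    fix_of (J.cen (F.xL 9 e) (F.eq [e, c])), mul_assoc _ (F.X 7 _), (J.ab (J.VM (F.x 7 _)) (J.mem7 _)).eq,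
    ← mul_assoc _ (j _) (F.X 7 _), mul_left_inj, mul_assoc (j _ * E _) (j _) (j _), (J.ab (J.mem7 (c * _)) (J.mem7 _)).eq,
    ← mul_assoc (j _ * E _), mul_left_inj, mul_assoc (j _) (E _), mul_right_inj] at this
  simpa only [mul_one] using this

theorem y1E (e c : K) : F.X 0 e * E c * (F.X 0 e)⁻¹ = E c * j (F.X 4 (e * c)) := by
  have := congrArg (fun x => F.m * x * F.m⁻¹) (J.y7E e c)
  simpa only [← conj_mul (b := F.m), ← conj_inv (b := F.m), J.Em, J.m7, F.mx] using this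

theorem dec (e : K) : ∃ y ∈ F.D j, F.X 0 e * j (F.X 10 1) * (F.X 0 e)⁻¹ = j (F.X 10 1) * (F.n * E e * F.n⁻¹ * y) := by
  have o := (ov10 (F := F) 1).cj (F.SB (F.x 0 e))
  have m6 := conj_mem_of_norm (J.BM F.nB) (J.EM e)
  have t6 := tr_cj (J.Et e) (J.Lt F.nL)
  obtain ⟨a, b, c, r⟩ := F.mI (F.mem [e] : (F.X 10 1 * F.X 8 e)⁻¹ * (F.X 0 e * F.X 10 1 * (F.X 0 e)⁻¹) ∈ F.I)
  have m := mul_mem (mul_mem (J.d4 a) (J.dE b)) (J.d7 c)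
  obtain ⟨v, i, q⟩ := J.dif (mul_mem (J.mem (ov10 1)) (mul_mem m6 m.1)) (J.mem o) (by
    rw [J.tv o, tr_mul (J.tv (ov10 1)) (tr_mul t6 (tr_mul (tr_mul (J.tv (ov4 a)) (J.Et b)) (J.t7 c))), (F.nx e).2.2.2.1,
      cfix (J.MV (J.d4 _).1) (F.x 5 _), cfix (J.MV (mul_mem (J.d4 _) (J.dE _)).1) (F.x 7 _), ← r,
      cfix (J.MV m6) (F.mem [e]), cfix (J.MV (J.mem (ov10 1))) (F.mem [e])]
    group)
  rw [J.cj _ (F.xL 0 e)] at q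
  have n8 : ∀ c, F.n * F.X 11 c * F.n⁻¹ * (F.n * E e * F.n⁻¹) * (F.n * F.X 11 c * F.n⁻¹)⁻¹ = F.n * E e * F.n⁻¹ := fun c => by
    rw [conj_inv, conj_mul, conj_mul, fix_of (J.E8 _ _)]
  have n9 := congrArg (fun x => F.n * x * F.n⁻¹) (J.y7E 1 e)
  simp only [← conj_mul (b := F.n), ← conj_inv (b := F.n), F.nx, J.b7 F.nB, one_mul] at n8 n9
  have mq : j (F.X 4 a) * E b * j (F.X 7 c) ∈ 𝐂 F.QI := mul_mem (mul_mem (F.jc J.toJ0 (F.UL _) ((F.cen [4] _) (F.x 4 _)))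
    (J.EQ _)) (F.jc J.toJ0 (F.UL _) ((F.cen [7] _) (F.x 7 _)))
  generalize j (F.X 4 a) * E b * j (F.X 7 c) = y at *
  have k : ∀ s ∈ F.QI, ∀ d, s * (j (F.X 10 1) * (F.n * E e * F.n⁻¹)) * s⁻¹ = j (F.X 10 1) * (F.n * E e * F.n⁻¹) * j (F.X 7 d) →
      (F.X 0 e)⁻¹ * s * F.X 0 e * j (F.X 10 1) * ((F.X 0 e)⁻¹ * s * F.X 0 e)⁻¹ = j (F.X 10 1) * j (F.X 7 d) → s * v * s⁻¹ = v :=
    fun s l d h1 h2 => by
      have : s * (F.X 0 e * j (F.X 10 1) * (F.X 0 e)⁻¹) * s⁻¹ = F.X 0 e * j (F.X 10 1) * (F.X 0 e)⁻¹ * j (F.X 7 d) := by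
        rw [← J.b7 (F.SB (F.x 0 e)) d, conj_mul, ← h2]; group
      rwa [q, ← mul_assoc (j _), ← conj_mul, ← conj_mul, h1, cfix' mq l, mul_assoc _ v (j _), (J.ab (J.VM i) (J.mem7 d)).eq,
        ← mul_assoc _ (j _) v, mul_assoc _ y (j _), (J.ab m.1 (J.mem7 d)).eq, ← mul_assoc _ (j _) y, mul_right_inj] at this
  have k2 := k _ (F.x 2 1) 1 (by
    rw [← conj_mul, n8, J.c27, mul_one, mul_assoc, (J.ab (J.mem7 1) m6).eq, ← mul_assoc]) (by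
    rw [(F.eq [e] : (F.X 0 e)⁻¹ * F.X 2 1 * F.X 0 e = F.X 2 1), J.c27, mul_one])
  have k3 := k _ (F.x 3 1) e (by rw [← conj_mul, n9, fix_of (J.cen (F.xL 3 1) (F.eq ([] : List K))), ← mul_assoc]) (by
    rw [(F.eq [e] : (F.X 0 e)⁻¹ * F.X 3 1 * F.X 0 e = F.X 2 e * F.X 3 1), cj2, fix_of (J.cen (F.xL 3 1) (F.eq ([] : List K))), J.c27,
      mul_one])
  obtain ⟨a, b, c, d, f, rfl⟩ := F.mV i
  obtain rfl := F.co [a, b, c, d, f] 7 k2 f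
  obtain rfl := F.co [a, b, c, d] 7 k3 d
  exact ⟨_, mul_mem m (J.dI (F.mem [a, b, c] : F.X 4 a * F.X 5 b * F.X 7 c * F.X 8 0 * F.X 10 0 ∈ F.I)), by
    rw [q]; simp only [mul_assoc]⟩

theorem cE (e : K) (c : x ∈ 𝐂 (F.D j)) (p : F.X 0 e * x = x * F.X 0 e) (m : w ∈ F.D j)
    (q : F.X 0 e * ⁅x, j (F.X 10 1)⁆ * (F.X 0 e)⁻¹ = ⁅x, j (F.X 10 1)⁆ * w) : ⁅x, F.n * E e * F.n⁻¹⁆ = w := by
  obtain ⟨y, i, r⟩ := J.dec e
  rw [cj_comm', fix_of p, r, cmr, mul_right_inj, cmr, cm1 (mem_cent.1 c y i).symm, mul_one, mul_inv_cancel, mul_one] at q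
  rw [← cj_inv q, cfix (inv_mem (J.D10 1)) m]

theorem x1E (a f : K) : ⁅F.X 1 a, F.n * E f * F.n⁻¹⁆ = j (F.X 4 (a * f)) := J.cE f (J.X1 a) (F.eq [a, f]) (J.d4 _) (by
  rw [J.Y, ← conj_mul, ← conj_mul, ← conj_mul, J.b7 (F.SB (F.x 0 f)), fix_of (F.bz (F.SB (F.x 0 f)) _),
    fix_of (J.cen (F.xL 0 f) (F.eq [a, f])), J.y1E, mul_one, mul_one, mul_comm f]
  simp only [mul_assoc, mul_right_inj]
  rw [(J.ab (J.VM (F.x 7 _)) (J.d4 _).1).eq, J.sw (J.d7 _) (J.d4 _)])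

theorem J1x (a f : K) : ⁅j (F.X 1 a), F.X 8 f⁆ = j (F.X 4 (a * f)) := by
  have := congrArg (fun x => F.m * x * F.m⁻¹) (J.c27 f a)
  simp only [← conj_mul (b := F.m), ← conj_inv (b := F.m), J.m10, J.m7, F.mx] at this
  rw [← commutatorElement_inv, commutatorElement_def, this, ← mem_cent.1 (J.D1 a) _ (J.d4 _), mul_inv_cancel_right, J.inv,
    mul_comm]

end J4

theorem J5.J1E {γ δ : K} (J : F.J5 t j E ε γ δ) (a f : K) :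
    ⁅j (F.X 1 a), F.n * E f * F.n⁻¹⁆ = j (F.X 4 (a * f)) * F.X 4 (δ * (a * f)) :=
  J.cE f (J.D1 a) (J.cen (F.xL 0 f) (F.eq [a, f])) (mul_mem (J.d4 _) (J.dI (F.x 4 _))) (by
  rw [J.C, ← conj_mul, ← conj_mul, ← conj_mul, J.b7 (F.SB (F.x 0 f)), fix_of (J.cen (F.xL 0 f) (F.eq [a, f, ε])), J.y1E, mul_one,
    mul_one, mul_comm f, mul_assoc _ _ (j _ * _), J.sw (J.dI (F.mem [a, γ, δ])) (J.d4 _)]
  simp only [mul_assoc, mul_right_inj]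
  rw [J.sw (J.d7 _) (J.d4 _), mul_right_inj, mul_right_inj]
  exact F.eq [a, f, γ, δ])

end Oc
end CF.Of
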