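/-
Standard subgroups of type `²F₄(q)`: the doubled octagon.
-/
import Cfsg.Agent.Of.R3
import Cfsg.Agent.Of.R4
set_option autoImplicit false
set_option linter.unusedSectionVars false
set_option synthInstance.maxSize 100000
set_option synthInstance.maxHeartbeats 200000

namespace CF.Of
open Subgroup Cfsg CF.BG CF.Sig CF.Ab2 CF.Rd
open scoped commutatorElement QuadraticAlgebra

local notation "σ" => Pa.Ti.σ

variable {K : Type*} [Field K] [Pa.Ti K] [Finite K] {G : Type*} [Group G] [Finite G] {g x x' y y' t : G}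
  {ε γ δ : K} {j : G → G} {E : K → G} {D N : Subgroup G}

theorem bil (a : x ∈ 𝐂 D) (b : y ∈ 𝐂 D) (p : ⁅x', y⁆ ∈ D) (q : ⁅x', y'⁆ ∈ D) (r : ⁅x, y'⁆ ∈ D) :
    ⁅x * x', y * y'⁆ = ⁅x', y⁆ * ⁅x', y'⁆ * (⁅x, y⁆ * ⁅x, y'⁆) := by
  rw [cml, cmr, cmr, cfix b q, cfix b r, cfix a (mul_mem p q)]

theorem cj_inj (e : g * x * g⁻¹ = g * y * g⁻¹) : x = y := by simpa using e

namespace Oc
variable (F : Oc K G)

/-- the rotation -/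
abbrev ρ : G := F.n * F.m

theorem ρL : F.ρ ∈ F.L := mul_mem F.nL F.mL

theorem ρx (c : K) : F.ρ * F.X 0 c * F.ρ⁻¹ = F.X 3 c ∧ F.ρ * F.X 1 c * F.ρ⁻¹ = F.X 4 c ∧ F.ρ * F.X 2 c * F.ρ⁻¹ = F.X 5 c ∧
    F.ρ * F.X 3 c * F.ρ⁻¹ = F.X 6 c ∧ F.ρ * F.X 4 c * F.ρ⁻¹ = F.X 7 c ∧ F.ρ * F.X 5 c * F.ρ⁻¹ = F.X 8 c ∧
    F.ρ * F.X 6 c * F.ρ⁻¹ = F.X 9 c ∧ F.ρ * F.X 7 c * F.ρ⁻¹ = F.X 10 c ∧ F.ρ * F.X 8 c * F.ρ⁻¹ = F.X 11 c := by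
  simp only [cj2, F.mx, F.nx, and_self]

theorem gen1 (r : F.ρ ∈ 𝐍 N) (h1 : ∀ c, F.X 1 c ∈ N) : F.L ≤ N := by
  have u : ∀ {x y}, F.ρ * x * F.ρ⁻¹ = y → (x ∈ N ↔ y ∈ N) := fun e => e ▸ mem_normalizer_iff.1 r _
  have h4 := fun c => (u (F.ρx c).2.1).1 (h1 c)
  have h7 := fun c => (u (F.ρx c).2.2.2.2.1).1 (h4 c)
  have h10 := fun c => (u (F.ρx c).2.2.2.2.2.2.2.1).1 (h7 c)
  have h5 : ∀ c, F.X 5 c ∈ N := fun c => by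
    rw [show F.X 5 c = F.X 4 (σ c) * ⁅F.X 1 c, F.X 10 1⁆ * F.X 7 c from F.eq [c]]
    exact mul_mem (mul_mem (h4 _) (cm_mem (le_norm_self _ (h1 c)) (h10 1))) (h7 _)
  have h2 := fun c => (u (F.ρx c).2.2.1).2 (h5 c)
  have h8 := fun c => (u (F.ρx c).2.2.2.2.2.1).1 (h5 c)
  have h11 := fun c => (u (F.ρx c).2.2.2.2.2.2.2.2).1 (h8 c)
  have l : F.U [2, 4, 5, 7, 8, 10] ≤ N := Pa.U_le (by simp only [List.forall_mem_cons]; exact ⟨h2, h4, h5, h7, h8, h10, by simp⟩)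
  have p : ∀ a b, F.X 3 (a * b) * F.X 6 (a * σ b) ∈ N := fun a b => by
    simpa only [mul_inv_cancel_left] using mul_mem (cm_mem (le_norm_self _ (h1 a)) (h11 b))
      (l (F.mem [a, b] : ⁅F.X 1 a, F.X 11 b⁆⁻¹ * (F.X 3 (a * b) * F.X 6 (a * σ b)) ∈ _))
  have h6 : ∀ c, F.X 6 c ∈ N := fun c => by
    obtain ⟨e, -, -, -, n⟩ := ex3 F.big
    obtain ⟨a, rfl⟩ : ∃ a, c = a * (σ e + e) := ⟨c / (σ e + e), (div_mul_cancel₀ _ n).symm⟩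
    simpa only [mul_inv_cancel_left] using mul_mem (mul_mem (inv_mem (p (a * e) 1)) (p a e)) (l (F.mem [a, e] :
      ((F.X 3 (a * e * 1) * F.X 6 (a * e * σ 1))⁻¹ * (F.X 3 (a * e) * F.X 6 (a * σ e)))⁻¹ * F.X 6 (a * (σ e + e)) ∈ _))
  have h3 := fun c => (u (F.ρx c).2.2.2.1).2 (h6 c)
  have h9 := fun c => (u (F.ρx c).2.2.2.2.2.2.1).1 (h6 c)
  have h0 := fun c => (u (F.ρx c).1).2 (h3 c)
  have s : F.S ≤ N := Pa.U_le (by simp only [List.forall_mem_cons]; exact ⟨h0, h1, h2, h3, h4, h5, h6, h7, h8, h9, h10, h11, by simp⟩)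
  have z : ∀ x, F.ρ * (F.m * x * F.m⁻¹) * F.ρ⁻¹ = F.n * x * F.n⁻¹ := fun x => by rw [cj2, F.mm]
  have n : F.n ∈ N := (F.genB.trans (sup_le s (cj_le_iff.2 (Pa.U_le fun k l c => mem_cj_inv.2 (by
    by_cases i : k = 11
    · rw [i, (F.nx c).2.2.2.2.2.2.2.2.2]; exact h2 c
    · exact (u (z _)).1 (s (F.uS (conj_mem_of_norm (F.mN [0, 1, 2, 3, 4, 5, 6, 7, 8, 9, 10])
        (Pa.x_mem (by clear * - l i; revert k; decide) c))))))))) F.nB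
  have m : F.m * F.X 11 1 * F.m ∈ N := by
    nth_rewrite 2 [← F.mi]
    rw [← F.nn (_ * _ * _), ← cj2 F.n F.m]
    exact conj_mem_of_norm (le_norm_self _ n) ((u rfl).1 (h11 1))
  rw [F.gen]
  exact sup_le (sup_le s (zpowers_le.2 n)) (zpowers_le.2 (F.m3 ▸ mul_mem (mul_mem (h11 1) m) (h11 1)))

/-- the doubled root elements -/
def Wd (j : G → G) (E : K → G) (i : Fin 16) (α : Rn δ) : G := F.ρ ^ (i.1 / 2 + if i.1 % 2 = 1 then 0 else 6) *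
  (if i.1 % 2 = 1 then F.X 1 α.re * j (F.X 1 α.im) else F.X 5 α.re * E α.im) * (F.ρ ^ (i.1 / 2 + if i.1 % 2 = 1 then 0 else 6))⁻¹

theorem sh (i : Fin 16) (α : Rn δ) : F.ρ * F.Wd j E i α * F.ρ⁻¹ = F.Wd j E (i + 2) α := by
  obtain ⟨p, q⟩ := (by decide : ∀ i : Fin 16, (i + 2).1 % 2 = i.1 % 2 ∧
    ((i + 2).1 / 2 + if i.1 % 2 = 1 then 0 else 6) ≡ (i.1 / 2 + if i.1 % 2 = 1 then 0 else 6) + 1 [MOD 8]) i
  rw [Wd, Wd, p, pow_eq_pow_of_modEq q F.r8, pow_succ', cj2 F.ρ]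

theorem sh' (d : Fin 16) (h : d.1 % 2 = 0) : ∃ g ∈ F.L, ∀ i (α : Rn δ), g * F.Wd j E i α * g⁻¹ = F.Wd j E (i + d) α := by
  obtain ⟨n, -, e⟩ := (by decide : ∀ d : Fin 16, d.1 % 2 = 0 → ∃ n < 8, ∀ i, i + d = (· + 2)^[n] i) d h
  refine ⟨F.ρ ^ n, pow_mem F.ρL n, fun i α => ?_⟩
  rw [e]
  clear e
  induction n with
  | zero => simp
  | succ n ih => rw [pow_succ', cj2 F.ρ, ih, F.sh, Function.iterate_succ_apply']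

theorem W1 (α : Rn δ) : F.Wd j E 1 α = F.X 1 α.re * j (F.X 1 α.im) := by simp [Wd]
theorem W4 (α : Rn δ) : F.Wd j E 4 α = F.X 5 α.re * E α.im := by simp [Wd, F.r8]

variable {F}

namespace J5
variable (J : F.J5 t j E ε γ δ) (α β : Rn δ)
include J

theorem E0 : E 0 = 1 := add_zero' J.Ea
theorem W3 : F.Wd j E 3 α = F.X 4 α.re * j (F.X 4 α.im) :=
  (F.sh 1 α).symm.trans (by simp only [F.W1, ← conj_mul (b := F.ρ), ← J.cj _ F.ρL, F.ρx])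
theorem W5 : F.Wd j E 5 α = F.X 7 α.re * j (F.X 7 α.im) :=
  (F.sh 3 α).symm.trans (by simp only [J.W3, ← conj_mul (b := F.ρ), ← J.cj _ F.ρL, F.ρx])
theorem W7 : F.Wd j E 7 α = F.X 10 α.re * j (F.X 10 α.im) :=
  (F.sh 5 α).symm.trans (by simp only [J.W5, ← conj_mul (b := F.ρ), ← J.cj _ F.ρL, F.ρx])
theorem W6 : F.Wd j E 6 α = F.X 8 α.re * (F.n * E α.im * F.n⁻¹) :=
  (F.sh 4 α).symm.trans (by rw [F.W4, ← conj_mul, (F.ρx _).2.2.2.2.2.1, cj2, J.Em])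
theorem W2 : F.Wd j E 2 α = F.m * F.Wd j E 6 α * F.m⁻¹ :=
  cj_inj ((F.sh 2 α).trans (by rw [cj2, F.mm, J.W6, ← conj_mul, F.nn, (F.nx _).2.2.2.2.2.2.1]; exact F.W4 α))
theorem W8 : F.Wd j E 8 (1 : Rn δ) = F.X 11 1 := (F.sh 6 1).symm.trans (by simp [J.W6, J.E0, F.ρx, -mul_inv_rev])
theorem W0 : F.Wd j E 0 (1 : Rn δ) = F.m * F.X 11 1 * F.m⁻¹ :=
  cj_inj ((F.sh 0 1).trans (by rw [cj2, F.mm, (F.nx _).2.2.2.2.2.2.2.2.2]; exact (J.W2 1).trans (by simp [J.W6, J.E0, F.mx])))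

theorem WM (i : Fin 16) (h : i ∈ [3, 4, 5, 6, 7]) : F.Wd j E i α ∈ F.M j := by
  simp only [List.mem_cons, List.not_mem_nil, or_false] at h
  rcases h with rfl | rfl | rfl | rfl | rfl
  exacts [J.W3 α ▸ mul_mem (J.VM (F.x 4 _)) (J.d4 _).1, F.W4 α ▸ mul_mem (J.VM (F.x 5 _)) (J.EM _),
    J.W5 α ▸ mul_mem (J.VM (F.x 7 _)) (J.mem7 _), J.W6 α ▸ mul_mem (J.VM (F.x 8 _)) (conj_mem_of_norm (J.BM F.nB) (J.EM _)),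
    J.W7 α ▸ mul_mem (J.VM (F.x 10 _)) (J.mem (ov10 _))]

theorem Wa (i : Fin 16) : F.Wd j E i (α + β) = F.Wd j E i α * F.Wd j E i β := by
  obtain ⟨d, h, rfl | rfl⟩ := (by decide : ∀ i : Fin 16, ∃ d : Fin 16, d.1 % 2 = 0 ∧ (i = 3 + d ∨ i = 4 + d)) i <;>
    obtain ⟨g, -, e⟩ := F.sh' (j := j) (E := E) (δ := δ) d h <;> rw [← e, ← e, ← e, conj_mul] <;> congr 2
  · rw [J.W3, J.W3, J.W3, QuadraticAlgebra.re_add, QuadraticAlgebra.im_add, J.add4, F.xa 4]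
    exact Commute.mul_mul_mul_comm (J.ab (J.VM (F.x 4 _)) (J.d4 _).1) _ _
  · simp only [F.W4, QuadraticAlgebra.re_add, QuadraticAlgebra.im_add, F.xa 5, J.Ea]
    exact Commute.mul_mul_mul_comm (J.ab (J.VM (F.x 5 _)) (J.EM _)) _ _

theorem tri (x y z x' y' z' : Rn δ) : F.Wd j E 3 x * F.Wd j E 4 y * F.Wd j E 5 z * (F.Wd j E 3 x' * F.Wd j E 4 y' * F.Wd j E 5 z') =
    F.Wd j E 3 (x + x') * F.Wd j E 4 (y + y') * F.Wd j E 5 (z + z') := by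
  rw [J.Wa, J.Wa, J.Wa, (J.ab (J.WM _ 5 (by decide)) (mul_mem (J.WM _ 3 (by decide)) (J.WM _ 4 (by decide)))).mul_mul_mul_comm,
    (J.ab (J.WM _ 4 (by decide)) (J.WM _ 3 (by decide))).mul_mul_mul_comm]

theorem b5 : ⁅F.Wd j E 1 α, F.Wd j E 6 β⁆ = F.Wd j E 3 (α * β) := by
  have p : ∀ c, j (F.X 4 c) = F.Wd j E 3 (⟨0, c⟩ : Rn δ) := fun c => by simp [J.W3, F.x0]
  have q : ∀ c, F.X 4 c = F.Wd j E 3 (⟨c, 0⟩ : Rn δ) := fun c => by simp [J.W3, F.x0, J.j1]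
  rw [F.W1, J.W6, bil (J.X1 _) (mem_cent.2 fun _ m => J.ab m.1 (J.VM (F.x 8 _))) (J.J1x _ _ ▸ J.d4 _)
    (J.J1E _ _ ▸ mul_mem (J.d4 _) (J.dI (F.x 4 _))) (J.x1E _ _ ▸ J.d4 _), J.J1x, J.J1E, J.x1E,
    show ⁅F.X 1 α.re, F.X 8 β.re⁆ = F.X 4 (α.re * β.re) from F.eq [α.re, β.re]]
  simp only [p]
  simp only [q, ← J.Wa]
  congr 1; ext <;> simp <;> ring

theorem b6 : ⁅F.Wd j E 1 α, F.Wd j E 7 β⁆ = F.Wd j E 3 (Mu ε γ α β) * F.Wd j E 4 (α * β) * F.Wd j E 5 (Mu ε γ β α) := by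
  obtain ⟨a, b⟩ := α
  obtain ⟨c, d⟩ := β
  have h1 : ⁅F.X 1 a, F.X 10 c⁆ = F.Wd j E 3 (⟨σ a * c, 0⟩ : Rn δ) * F.Wd j E 4 (⟨a * c, 0⟩ : Rn δ) * F.Wd j E 5 (⟨a * σ c, 0⟩ : Rn δ) := by
    simp only [J.W3, F.W4, J.W5, F.x0, J.j1, J.E0, mul_one]; exact F.eq [a, c]
  have h2 : ⁅F.X 1 a, j (F.X 10 d)⁆ = F.Wd j E 3 (⟨0, σ a * d⟩ : Rn δ) * F.Wd j E 4 (⟨0, a * d⟩ : Rn δ) *
      F.Wd j E 5 (⟨ε * (a * σ d), a * σ d⟩ : Rn δ) := by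
    simp only [J.W3, F.W4, J.W5, F.x0, one_mul, J.Y, mul_assoc, (J.ab (J.mem7 _) (J.VM (F.x 7 _))).eq]
  have h3 : ⁅j (F.X 1 b), F.X 10 c⁆ = F.Wd j E 3 (⟨ε * (c * σ b), c * σ b⟩ : Rn δ) * F.Wd j E 4 (⟨0, c * b⟩ : Rn δ) *
      F.Wd j E 5 (⟨0, σ c * b⟩ : Rn δ) := by
    rw [← commutatorElement_inv, J.Y']
    simp only [J.W3, F.W4, J.W5, F.x0, one_mul, mul_inv_rev, J.inv, inv_sq (F.xx 4 _), inv_sq (J.el (J.EM _)), mul_assoc]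
  have h4 : ⁅j (F.X 1 b), j (F.X 10 d)⁆ = F.Wd j E 3 (⟨0, (1 + ε) * (σ b * d)⟩ : Rn δ) * F.Wd j E 4 (⟨0, b * d⟩ : Rn δ) *
      F.Wd j E 5 (⟨0, (1 + ε) * (b * σ d)⟩ : Rn δ) * (F.Wd j E 3 (⟨γ * (σ b * d), 0⟩ : Rn δ) * F.Wd j E 4 (⟨δ * (b * d), 0⟩ : Rn δ) *
      F.Wd j E 5 (⟨γ * (b * σ d), 0⟩ : Rn δ)) := by
    simp only [J.W3, F.W4, J.W5, F.x0, one_mul, J.j1, J.E0, mul_one, J.C]
  rw [F.W1, J.W7, bil (J.X1 _) (J.X10 _) (commutatorElement_inv (F.X 10 c) _ ▸ inv_mem (J.dY' _ _))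
    (J.C _ _ ▸ mul_mem (mul_mem (mul_mem (J.d4 _) (J.dE _)) (J.d7 _)) (J.dI (F.mem [γ, δ, b, d]))) (J.dY _ _), h1, h2, h3, h4]
  simp only [J.tri]
  refine congrArg₂ _ (congrArg₂ _ (congrArg _ ?_) (congrArg _ ?_)) (congrArg _ ?_) <;> ext <;> simp [Mu] <;> ring

theorem rg : Rg t ε γ (F.Wd (δ := δ) j E) where
  add i α β := J.Wa α β i
  inj i h α p := by
    obtain ⟨d, o, rfl⟩ := (by decide : ∀ i : Fin 16, i.1 % 2 = 1 → ∃ d : Fin 16, d.1 % 2 = 0 ∧ i = 5 + d) i h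
    obtain ⟨g, -, e⟩ := F.sh' (j := j) (E := E) (δ := δ) d o
    rw [← e, conj_eq_one_iff, J.W5] at p
    have := tr_mul (tr_one (J.Lt (F.xL 7 α.re))) (J.t7 α.im)
    rw [p, one_mul, one_mul, inv_one, mul_one, left_eq_mul, conj_eq_one_iff] at this
    rw [this, J.j1, mul_one] at p
    ext
    exacts [F.x1 (by decide) p, F.x1 (by decide) this]
  tW i α := by
    obtain ⟨d, h, rfl | rfl⟩ := (by decide : ∀ i : Fin 16, ∃ d : Fin 16, d.1 % 2 = 0 ∧ (i = 5 + d ∨ i = 4 + d)) i <;>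
      obtain ⟨g, l, e⟩ := F.sh' (j := j) (E := E) (δ := δ) d h <;> rw [← e, ← e, ← cj2, ← J.Lt l, cj2] <;> congr 2
    · rw [J.W5, J.W5, ← conj_mul, fix_of (J.Lt (F.xL 7 _)).symm, tj' J.h2.tt (J.t7 _) (J.ab (J.mem7 _) (J.VM (F.x 7 _))),
        (J.ab (J.mem7 _) (J.VM (F.x 7 _))).eq, F.xa 7, mul_assoc]
    · rw [F.W4, F.W4, ← conj_mul, fix_of (J.Lt (F.xL 5 _)).symm, tj' J.h2.tt (J.Et _) (J.ab (J.EM _) (J.VM (F.x 5 _))),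
        (J.ab (J.EM _) (J.VM (F.x 5 _))).eq, F.xa 5, mul_assoc]
  cd i k h α β := by
    obtain ⟨d, o, a, p, b, q, rfl, rfl⟩ := (by decide : ∀ i k : Fin 16, Cd i k → ∃ d : Fin 16, d.1 % 2 = 0 ∧
      ∃ a ∈ [3, 4, 5, 6, 7], ∃ b ∈ [3, 4, 5, 6, 7], i = a + d ∧ k = b + d) i k h
    obtain ⟨g, -, e⟩ := F.sh' (j := j) (E := E) (δ := δ) d o
    rw [← e, ← e, Commute, SemiconjBy, conj_mul, conj_mul, (J.ab (J.WM α a p) (J.WM β b q)).eq]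
  c4 i h β := by
    have p : Commute (F.Wd j E 4 β) (F.X 11 1) := by
      rw [F.W4]; exact Commute.mul_left (F.eq [β.re]) (J.E8 _ _).symm
    obtain ⟨g, -, e⟩ := F.sh' (j := j) (E := E) (δ := δ) i h
    obtain ⟨d, h, q, r⟩ := (by decide : ∀ i : Fin 16, i.1 % 2 = 0 → ∃ d : Fin 16, d.1 % 2 = 0 ∧ i = 4 + d ∧ 4 + i = 8 + d) i h
    obtain ⟨g', -, e'⟩ := F.sh' (j := j) (E := E) (δ := δ) d h
    constructor
    · rw [← e, ← zero_add i, ← e, Commute, SemiconjBy, conj_mul, conj_mul, J.W0, show F.Wd j E 4 β = F.m * F.Wd j E 4 β * F.m⁻¹ by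
        rw [F.W4, ← conj_mul, J.Em, (F.mx _).2.2.2.2.2.1], conj_mul, conj_mul, p.eq]
    · rw [r, q, ← e', ← e', Commute, SemiconjBy, conj_mul, conj_mul, J.W8, p.eq]
  r5 i k l h α β := by
    obtain ⟨rfl, rfl⟩ := h
    obtain ⟨d, h, ⟨p, q, r⟩ | ⟨p, q, r⟩⟩ := (by decide : ∀ i : Fin 16, ∃ d : Fin 16, d.1 % 2 = 0 ∧
      (5 + i = 6 + d ∧ (if i.1 % 2 = 1 then 2 else 3) + i = 3 + d ∧ i = 1 + d ∨
        5 + i = 7 + d ∧ (if i.1 % 2 = 1 then 2 else 3) + i = 5 + d ∧ i = 2 + d)) i <;>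
      obtain ⟨g, -, e⟩ := F.sh' (j := j) (E := E) (δ := δ) d h <;> rw [p, q, r, ← e, ← e, ← e, ← cj_comm'] <;> congr 2
    · exact J.b5 α β
    · have := congrArg (fun x => F.m * x * F.m⁻¹) (J.b5 β α)
      simp only [cj_comm', ← J.W2, F.W1, J.W3, ← conj_mul (b := F.m), J.m1, J.m4, F.mx] at this
      rw [← commutatorElement_inv, J.W7, this, ← J.W5, inv_sq (J.el (J.WM _ 5 (by decide))), mul_comm]
  r6 i k a b c h α β := by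
    obtain ⟨h, rfl, rfl, rfl, rfl⟩ := h
    obtain ⟨d, h, p, q, r, s, u⟩ := (by decide : ∀ i : Fin 16, i.1 % 2 = 1 → ∃ d : Fin 16, d.1 % 2 = 0 ∧
      6 + i = 7 + d ∧ 2 + i = 3 + d ∧ 3 + i = 4 + d ∧ 4 + i = 5 + d ∧ i = 1 + d) i h
    obtain ⟨g, -, e⟩ := F.sh' (j := j) (E := E) (δ := δ) d h
    rw [p, q, r, s, u, ← e, ← e, ← e, ← e, ← e, ← cj_comm', J.b6, conj_mul, conj_mul]

end J5
end Oc
end CF.Of
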