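/-
Standard subgroups of type `²F₄(q)`: the doubling theorem.
-/
import Cfsg.Agent.Of.R5
import Cfsg.Agent.Of.G2
set_option autoImplicit false
set_option linter.unusedSectionVars false
set_option synthInstance.maxSize 100000
set_option synthInstance.maxHeartbeats 200000

namespace CF.Of
open Subgroup Cfsg CF.BG CF.Sig CF.Ab2 CF.Rd CF.Chev CF.BN
open scoped commutatorElement

local notation "σ" => Pa.Ti.σ

variable {K : Type*} [Field K] [Pa.Ti K] [Finite K] {G : Type*} [Group G] [Finite G] {t : G}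

theorem Hf.c0 {Y : Bool → Fin 16 → K → G} (H : Hf t Y) (h6 : ∀ i j a b c, R6 i j a b c → ∀ x u v, Commute (Y x i u) (Y (!x) j v))
    (i j : Fin 16) (p : i.1 % 2 = 1) (q : j.1 % 2 = 1) (c d : K) : Commute (Y true i c) (Y false j d) := by
  rcases (by decide : ∀ i j : Fin 16, i.1 % 2 = 1 → j.1 % 2 = 1 → (j = i ∨ Cd i j ∨ Cd j i) ∨ R6 i j (2 + i) (3 + i) (4 + i) ∨
    R6 j i (2 + j) (3 + j) (4 + j) ∨ R5 (5 + i) (10 + i) j ∧ R5 i (5 + i) (2 + i) ∧ R6 (10 + i) i (12 + i) (13 + i) (14 + i))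
    i j p q with h | h | h | ⟨h1, h2, h3⟩
  exacts [H.cd _ _ h _ _ _ _, h6 _ _ _ _ _ h true _ _, (h6 _ _ _ _ _ h false _ _).symm, by
    rw [← mul_one d, ← (H.r5 _ _ _ (.inl h1) _ _ _).1]
    exact of_fix (by rw [cj_comm', fix_of (show Commute (Y true i c) (Y false (5 + i) d) from (H.r5 _ _ _ (.inl h2) true _ _).2),
      fix_of (show Commute (Y true i c) (Y false (10 + i) 1) from (h6 _ _ _ _ _ h3 false _ _).symm)])]

/-- The doubling theorem. -/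
theorem Oc.dbl (F : Oc K G) (f : Fu F.L t (F.X 7 1)) (θ : K →+* K) (hσ : ∀ c, σ c = θ c ^ 2) : H2 F.L t ∧
    ((∃ A : Subgroup G, A ≤ 𝐂 (cj t A) ∧ ∀ l ∈ F.L, ∃ a ∈ A, a * (t * a * t⁻¹) = l) ∨
      ∃ ρ : StRep cF4 K G, ρ.x 47 1 ≠ 1 ∧ ∀ r c, t * ρ.x r c * t⁻¹ = ρ.x (iF4.f r) (θ c ^ iF4.lam r)) := by
  obtain ⟨j, J⟩ := F.exJl f
  obtain ⟨E, ε, J⟩ := J.exJ4
  obtain ⟨γ, δ, J⟩ := J.exJ5
  obtain ⟨Y, H, h1, h2, h⟩ := J.rg.split F.big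
  refine ⟨J.h2, h.imp (fun h => ?_) fun h => H.f4 h θ hσ⟩
  obtain ⟨A, e⟩ : ∃ A, A = closure {x | ∃ i : Fin 16, i.1 % 2 = 1 ∧ ∃ c, x = Y true i c} := ⟨_, rfl⟩
  have m : ∀ i : Fin 16, i.1 % 2 = 1 → ∀ c, Y true i c ∈ A := fun i p c => e ▸ subset_closure ⟨i, p, c, rfl⟩
  have l : ∀ {N : Subgroup G}, (∀ i : Fin 16, i.1 % 2 = 1 → ∀ c, Y true i c ∈ N) → A ≤ N := fun p =>
    e ▸ (closure_le _).2 (by rintro _ ⟨i, q, c, rfl⟩; exact p i q c)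
  have c : A ≤ 𝐂 (cj t A) := l fun i p c => le_cent1_iff.1 (cj_le_iff.2 (l fun k q d => mem_cj_inv.2 (by
    rw [H.tY]; exact mem_cent1.2 (H.c0 h i k p q c d).symm)))
  have c' : ∀ {a b}, a ∈ A → b ∈ A → t * b * t⁻¹ * a = a * (t * b * t⁻¹) := fun p q => mem_cent.1 (c p) _ (conj_mem_cj.2 q)
  have r : F.ρ ∈ 𝐍 A := mem_norm_of_cj_le (cj_le_iff.2 (l fun i p c => mem_cj_inv.2 (by
    obtain ⟨α, q⟩ := h2 true c
    rw [q, F.sh, ← q]; exact m _ (by clear * - p; revert i; decide) c)))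
  let N : Subgroup G :=
    { carrier := {l | ∃ a ∈ A, a * (t * a * t⁻¹) = l}
      one_mem' := ⟨1, one_mem _, by simp⟩
      mul_mem' := by
        rintro _ _ ⟨a, p, rfl⟩ ⟨b, q, rfl⟩
        exact ⟨a * b, mul_mem p q, by rw [← conj_mul, mul_assoc, mul_assoc a, ← mul_assoc b, ← c' q p, mul_assoc _ b]⟩
      inv_mem' := by
        rintro _ ⟨a, p, rfl⟩
        exact ⟨a⁻¹, inv_mem p, by rw [← c' p p, mul_inv_rev, conj_inv]⟩ }
  refine ⟨A, c, F.gen1 (N := N) (mem_norm_of_cj_le (cj_le_iff.2 ?_)) fun c => ⟨_, m 1 rfl c, ?_⟩⟩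
  · rintro _ ⟨a, p, rfl⟩
    exact mem_cj_inv.2 ⟨_, conj_mem_of_norm r p, by rw [← conj_mul (b := F.ρ), ← cj2 t, ← J.Lt F.ρL, cj2 F.ρ]⟩
  · rw [H.tY]; exact (h1 1 c).trans (by simp [F.W1, F.x0, J.j1])

end CF.Of
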